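import Cfsg.Agent.Lib.HL3.Defs

/-! S3727, package AF1: the centraliser of a line group is transitive on its fixed points. -/

namespace H45.HL

variable {G : Type*} [Group G] [Finite G]

namespace AF1

/-- elements acting on `V` as transvections with axis and centre `W` -/
structure RR (V W : Subgroup G) (r : G) : Prop where
  nV : cj r V = V
  cW : Cz r W
  cm : ∀ v ∈ V, r * v * r⁻¹ * v⁻¹ ∈ W

omit [Finite G] in
theorem RR.mul {V W : Subgroup G} {r s : G} (hr : RR V W r) (hs : RR V W s) : RR V W (r * s) := by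
  refine ⟨by rw [cj_mul, hs.nV, hr.nV], hr.cW.mul hs.cW, fun v hv => ?_⟩
  have h1 := hs.cm v hv
  have h2 := hr.cm v hv
  have h3 := hr.cW _ h1
  have e : r * s * v * (r * s)⁻¹ * v⁻¹ =
      (r * (s * v * s⁻¹ * v⁻¹)) * (r⁻¹ * (r * v * r⁻¹ * v⁻¹)) := by group
  rw [e, h3]
  have e2 : s * v * s⁻¹ * v⁻¹ * r * (r⁻¹ * (r * v * r⁻¹ * v⁻¹)) =
      s * v * s⁻¹ * v⁻¹ * (r * v * r⁻¹ * v⁻¹) := by group
  rw [e2]
  exact W.mul_mem h1 h2

omit [Finite G] in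
theorem RR.inv {V W : Subgroup G} {r : G} (hr : RR V W r) : RR V W r⁻¹ := by
  refine ⟨cj_inv_eq hr.nV, hr.cW.inv, fun v hv => ?_⟩
  have h1 := W.inv_mem (hr.cm v hv)
  have h3 := hr.cW.inv _ h1
  have e : r⁻¹ * v * r⁻¹⁻¹ * v⁻¹ = r⁻¹ * (r * v * r⁻¹ * v⁻¹)⁻¹ * r * (r⁻¹ * (v * r * v⁻¹ * r⁻¹)⁻¹ *
    (v * r * v⁻¹ * r⁻¹) * r) := by group
  have e2 : r⁻¹ * v * r⁻¹⁻¹ * v⁻¹ = r⁻¹ * ((v * r * v⁻¹ * r⁻¹)) * r := by group
  have e3 : (r * v * r⁻¹ * v⁻¹)⁻¹ = v * r * v⁻¹ * r⁻¹ := by group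
  rw [e3] at h1 h3
  rw [e2, h3, mul_assoc, inv_mul_cancel, mul_one]
  exact h1

omit [Finite G] in
theorem RR.of_cz {V W : Subgroup G} (hW : W ≤ V) {r : G} (hr : Cz r V) : RR V W r := by
  refine ⟨hr.cj_eq, hr.mono hW, fun v hv => ?_⟩
  rw [hr v hv]
  simp

omit [Finite G] in
theorem RR.comm {V W : Subgroup G} (hW : ∀ a ∈ W, ∀ b ∈ W, a * b = b * a) {r s : G}
    (hr : RR V W r) (hs : RR V W s) : Cz ((s * r)⁻¹ * (r * s)) V := by
  intro v hv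
  have h1 := hs.cm v hv
  have h2 := hr.cm v hv
  have h3 := hr.cW _ h1
  have h4 := hs.cW _ h2
  have e1 : r * s * v * (r * s)⁻¹ = (s * v * s⁻¹ * v⁻¹) * (r * v * r⁻¹ * v⁻¹) * v := by
    calc r * s * v * (r * s)⁻¹ = (r * (s * v * s⁻¹ * v⁻¹)) * (v * r⁻¹) := by group
      _ = _ := by rw [h3]; group
  have e2 : s * r * v * (s * r)⁻¹ = (r * v * r⁻¹ * v⁻¹) * (s * v * s⁻¹ * v⁻¹) * v := by
    calc s * r * v * (s * r)⁻¹ = (s * (r * v * r⁻¹ * v⁻¹)) * (v * s⁻¹) := by group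
      _ = _ := by rw [h4]; group
  have e3 : r * s * v * (r * s)⁻¹ = s * r * v * (s * r)⁻¹ := by rw [e1, e2, hW _ h1 _ h2]
  calc (s * r)⁻¹ * (r * s) * v = (s * r)⁻¹ * (r * s * v * (r * s)⁻¹) * (r * s) := by group
    _ = _ := by rw [e3]; group

variable {Ω : Type*} [MulAction G Ω] {q m : ℕ} {N : Ω → Subgroup G} {φ : Ω → Ω → Subgroup G}

omit [Finite G] in
theorem fs_smul {V : Subgroup G} {r : G} (hr : cj r V = V) {p : Ω} (hp : p ∈ (FS V : Set Ω)) :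
    r • p ∈ (FS V : Set Ω) := by
  intro v hv
  have := hp _ (inv_conj_mem_of_cj hr hv)
  calc v • r • p = r • ((r⁻¹ * v * r) • p) := by simp [smul_smul, mul_assoc]
    _ = r • p := by rw [this]

omit [Finite G] in
theorem x_mem (h : CQ q N φ m) {x : Ω} {V Q : Subgroup G} (hf : Flag q (N x) V Q) :
    x ∈ (FS V : Set Ω) := fun v hv => h.fix x v (hf.l.le hv)

omit [Finite G] in
theorem y_mem (h : CQ q N φ m) {x y : Ω} {V : Subgroup G} (hxy : x ≠ y)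
    (hf : Flag q (N x) V (φ x y)) : y ∈ (FS V : Set Ω) := by
  intro v hv
  by_cases h1 : v = 1
  · rw [h1, one_smul]
  · exact (h.fixV hxy hxy hf v hv h1).2 hf

omit [Finite G] in
theorem other (h : CQ q N φ m) {x y : Ω} {V : Subgroup G} (hxy : x ≠ y)
    (hf : Flag q (N x) V (φ x y)) {p : Ω} (hp : p ∈ (FS V : Set Ω)) :
    ∃ p', p ≠ p' ∧ Flag q (N p) V (φ p p') := by
  by_cases h1 : p = x
  · subst h1; exact ⟨y, hxy, hf⟩
  · exact ⟨x, h1, h.lineG hxy hf hp (x_mem h hf) h1⟩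

omit [Finite G] in
theorem h2 (h : CQ q N φ m) {x y : Ω} {V : Subgroup G} (hxy : x ≠ y)
    (hf : Flag q (N x) V (φ x y)) {p p' r r' : Ω} (hp : p ∈ (FS V : Set Ω))
    (hp' : p' ∈ (FS V : Set Ω)) (hr : r ∈ (FS V : Set Ω)) (hr' : r' ∈ (FS V : Set Ω))
    (hpp : p ≠ p') (hrr : r ≠ r') : ∃ g : G, g • p = r ∧ g • p' = r' ∧ cj g V = V := by
  obtain ⟨g0, e1, e2⟩ := h.two p p' r r' hpp hrr
  have f1 := (h.lineG hxy hf hp hp' hpp).cj g0
  rw [h.conj, ← h.eqv hpp, e1, e2] at f1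
  have f2 := h.lineG hxy hf hr hr' hrr
  obtain ⟨V3, f3, n1, n2⟩ := (h.pl r).third f2.r (cj g0 V) V
  obtain ⟨u, hu, e3⟩ := (h.pl r).trans f3 f1.symm f2.symm n1.symm n2.symm
  refine ⟨u * g0, ?_, ?_, by rw [cj_mul, e3]⟩
  · rw [mul_smul, e1, h.fix r u (f3.r.le hu)]
  · rw [mul_smul, e2, y_mem h hrr f3.symm u hu]

omit [Finite G] in
/-- (b): an element of a point group off the line fixes in `FS V` only the block -/
theorem fb (h : CQ q N φ m) {x y : Ω} {V : Subgroup G} (hxy : x ≠ y)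
    (hf : Flag q (N x) V (φ x y)) {p p' : Ω} (hp : p ∈ (FS V : Set Ω))
    (hp' : p' ∈ (FS V : Set Ω)) (hpp : p ≠ p') {Q : Subgroup G} (hQ : Flag q (N p) V Q) {s : G}
    (hs : s ∈ Q) (hsV : s ∉ V) (e : s • p' = p') : φ p p' = Q := by
  have f1 := h.lineG hxy hf hp hp' hpp
  obtain ⟨p'', hpp'', e2⟩ := h.surj hpp f1 hQ
  have hs1 : s ≠ 1 := fun e => hsV (e ▸ V.one_mem)
  obtain ⟨V', f2, hsV'⟩ := (h.pl p).thru hQ.r s hs hs1
  have f3 : Flag q (N p) V' (φ p p'') := e2 ▸ f2.symm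
  have f4 := (h.fixV hpp'' hpp f3 s hsV' hs1).1 e
  by_contra hne
  have := (h.pl p).juniq f1 hQ f4 f2.symm hne
  exact hsV (this ▸ hsV')

omit [Finite G] in
theorem rr_of_mem (h : CQ q N φ m) {p : Ω} {V Q : Subgroup G} (hQ : Flag q (N p) V Q) {s : G}
    (hs : s ∈ Q) : RR V (V ⊓ Q) s := by
  refine ⟨(h.pl p).nrm hQ s (Subgroup.mem_sup_right hs), (hQ.r.cz hs).mono inf_le_right,
    fun v hv => ?_⟩
  have := (V ⊓ Q).inv_mem ((h.pl p).comm hQ v hv s hs)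
  have e : (v * s * v⁻¹ * s⁻¹)⁻¹ = s * v * s⁻¹ * v⁻¹ := by group
  rwa [e] at this

omit [Finite G] in
/-- (a) -/
theorem fa (h : CQ q N φ m) {p : Ω} {V Q : Subgroup G} (hQ : Flag q (N p) V Q) {r : G}
    (hr : RR V (V ⊓ Q) r) (e : r • p = p) : ∃ s ∈ Q, Cz (s⁻¹ * r) V := by
  have hN : cj r (N p) = N p := by rw [h.conj, e]
  obtain ⟨u, hu, hc⟩ := (h.pl p).autU hQ r hN hr.nV hr.cW (fun v hv => (hr.cm v hv).2)
  rw [sup_comm] at hu
  obtain ⟨s, hs, v, hv, rfl⟩ := (h.pl p).memU hQ.symm u hu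
  refine ⟨s, hs, ?_⟩
  have := (hQ.l.cz hv).mul (hc.mono hQ.l.le)
  have e : v * ((s * v)⁻¹ * r) = s⁻¹ * r := by group
  rwa [e] at this

omit [Finite G] in
/-- (c) -/
theorem fc (h : CQ q N φ m) {p : Ω} {V Q : Subgroup G} (hQ : Flag q (N p) V Q) {r r' : G}
    (hr : RR V (V ⊓ Q) r) (hr' : RR V (V ⊓ Q) r') (e : r • p = r' • p) {v0 : G} (hv0 : v0 ∈ V)
    (hv0Q : v0 ∉ Q) (e2 : r * v0 * r⁻¹ * v0⁻¹ = r' * v0 * r'⁻¹ * v0⁻¹) : Cz (r'⁻¹ * r) V := by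
  have hg := hr'.inv.mul hr
  have e3 : (r'⁻¹ * r) • p = p := by rw [mul_smul, e, inv_smul_smul]
  obtain ⟨s, hs, hc⟩ := fa h hQ hg e3
  have e4 : r'⁻¹ * r * v0 = v0 * (r'⁻¹ * r) := by
    calc r'⁻¹ * r * v0 = r'⁻¹ * (r * v0 * r⁻¹ * v0⁻¹) * (v0 * r) := by group
      _ = _ := by rw [e2]; group
  have e5 : v0 * s = s * v0 := by
    have := hc v0 hv0
    calc v0 * s = s * ((s⁻¹ * (v0 * (r'⁻¹ * r))) * (r'⁻¹ * r)⁻¹) * s := by group
      _ = s * ((s⁻¹ * (r'⁻¹ * r) * v0) * (r'⁻¹ * r)⁻¹) * s := by rw [← e4]; group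
      _ = s * v0 := by rw [this]; group
  rcases (h.pl p).pair hQ v0 hv0 s hs e5 with h1 | h1
  · exact absurd h1 hv0Q
  · have := (hQ.l.cz h1).mul hc
    rwa [mul_inv_cancel_left] at this

theorem false_of [Finite Ω] (h : CQ q N φ m) (hm : m + 1 = q) (hp : Par q N φ) {a b : Ω}
    {V : Subgroup G} (hab : a ≠ b) (hf : Flag q (N a) V (φ a b))
    (hC : ∀ c : G, Cz c V → ∀ p ∈ (FS V : Set Ω), c • p = p) : False := by
  classical
  obtain ⟨z, hzV, hzQ, hz1⟩ := hf.meet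
  have ha := x_mem h hf
  obtain ⟨Q2, f2, n2, -⟩ := (h.pl a).third hf.l (φ a b) (φ a b)
  obtain ⟨y2, hy2, e2⟩ := h.surj hab hf f2
  subst e2
  have hfs : ∀ {Q : Subgroup G} {w : G}, w ∈ V → w ∈ Q → w ≠ 1 → ∀ p ∈ (FS Q : Set Ω),
      p ∈ (FS V : Set Ω) := by
    intro Q w h1 h2 h3 p hp
    rw [← h.fsV hab hf w h1 h3]
    exact hp w h2
  have hWc : ∀ x ∈ V ⊓ φ a b, ∀ y ∈ V ⊓ φ a b, x * y = y * x :=
    fun x hx y hy => hf.l.comm hx.1 hy.1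
  -- the elements of `R` move `a` inside the block of `a`
  have hRa : ∀ r : G, RR V (V ⊓ φ a b) r → r • a ∈ (FS (φ a b) : Set Ω) := by
    intro r hr y hy
    have h1 := hC _ (RR.comm hWc (rr_of_mem h hf hy) hr) a ha
    have h2 : y • a = a := h.fix a y (hf.r.le hy)
    calc y • r • a = (r * y) • (((r * y)⁻¹ * (y * r)) • a) := by
          rw [smul_smul, smul_smul, mul_inv_cancel_left]
      _ = r • a := by rw [h1, mul_smul, h2]
  -- data at a point of the second block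
  have key : ∀ p ∈ (FS (φ a y2) : Set Ω), p ≠ a → ∃ Q s, Flag q (N p) V Q ∧ z ∈ Q ∧
      V ⊓ Q = V ⊓ φ a b ∧ s ∈ Q ∧ s ∉ V ∧ s • a = b := by
    intro p hp2 hpa
    obtain ⟨w, w1, w2, w3⟩ := f2.meet
    have hpV := hfs w1 w2 w3 p hp2
    obtain ⟨p', hpp', f3⟩ := other h hab hf hpV
    obtain ⟨Q, fQ, hzQ'⟩ := (h.pl p).thru f3.l z hzV hz1
    have hW : V ⊓ Q = V ⊓ φ a b := hp a b V hab hf p hpV a ha Q _ fQ hf z hzV hz1 hzQ' hzQ
    have hmv : ∀ s ∈ Q, s • a = a → s ∈ V := by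
      intro s hs e
      by_contra hsV
      have e1 := fb h hab hf hpV ha hpa fQ hs hsV e
      have e2 := (h.fixQ hy2 hpa.symm).1 hp2
      rw [h.sym hpa, e2] at e1
      exact hz1 ((h.pl a).disj hf f2 n2 z hzV hzQ (e1 ▸ hzQ'))
    obtain ⟨V', f4, n4, -⟩ := (h.pl p).third fQ.r V V
    have hcard : Nat.card (Q ⊓ V' : Subgroup G) = q := (h.pl p).cardW f4
    let F : (Q ⊓ V' : Subgroup G) → (FS (φ a b) : Set Ω) := fun s =>
      ⟨(s : G) • a, hRa _ (hW ▸ rr_of_mem h fQ s.2.1)⟩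
    have hinj : Function.Injective F := by
      intro s s' e
      have e1 : (s : G) • a = (s' : G) • a := congrArg Subtype.val e
      have m1 : (s' : G)⁻¹ * s ∈ Q ⊓ V' := (Q ⊓ V').mul_mem ((Q ⊓ V').inv_mem s'.2) s.2
      have m2 := hmv _ m1.1 (by rw [mul_smul, e1, inv_smul_smul])
      have := (h.pl p).disj fQ.symm f4 n4 _ m1.1 m2 m1.2
      exact Subtype.ext (inv_mul_eq_one.1 this).symm
    have hbij := hinj.bijective_of_nat_card_le (by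
      rw [hcard, Nat.card_coe_set_eq, h.cardQ hab]; omega)
    obtain ⟨s, hs⟩ := hbij.2 ⟨b, (h.fixQ hab hab).2 rfl⟩
    have e1 : (s : G) • a = b := congrArg Subtype.val hs
    exact ⟨Q, s, fQ, hzQ', hW, s.2.1, fun hV => hab ((ha _ hV).symm.trans e1), e1⟩
  choose! Qp sp fQ hzQp hW hsQ hsV hsa using key
  have hsR : ∀ p ∈ (FS (φ a y2) : Set Ω), p ≠ a → RR V (V ⊓ φ a b) (sp p) :=
    fun p h1 h2 => hW p h1 h2 ▸ rr_of_mem h (fQ p h1 h2) (hsQ p h1 h2)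
  have hnc : ∀ p ∈ (FS (φ a y2) : Set Ω), p ≠ a → ∀ v ∈ V, v ∉ φ a b → v * sp p ≠ sp p * v := by
    intro p h1 h2 v hv hvQ e
    rcases (h.pl p).pair (fQ p h1 h2) v hv _ (hsQ p h1 h2) e with h3 | h3
    · have : v ∈ V ⊓ Qp p := ⟨hv, h3⟩
      rw [hW p h1 h2] at this
      exact hvQ this.2
    · exact hsV p h1 h2 h3
  obtain ⟨v0, hv0, hv0', hv01⟩ := f2.meet
  have hv0Q : v0 ∉ φ a b := fun e => hv01 ((h.pl a).disj hf f2 n2 v0 hv0 e hv0')
  -- the commutators with `v0` cover `W#`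
  have hsurj : ∀ w ∈ V ⊓ φ a b, w ≠ 1 → ∃ p ∈ (FS (φ a y2) : Set Ω), p ≠ a ∧
      sp p * v0 * (sp p)⁻¹ * v0⁻¹ = w := by
    let F : (FS (φ a y2) : Set Ω) → (V ⊓ φ a b : Subgroup G) := fun p =>
      if hh : (p : Ω) = a then 1 else ⟨sp p * v0 * (sp p)⁻¹ * v0⁻¹, (hsR p p.2 hh).cm v0 hv0⟩
    have hne : ∀ p ∈ (FS (φ a y2) : Set Ω), p ≠ a → sp p * v0 * (sp p)⁻¹ * v0⁻¹ ≠ 1 := by
      intro p h1 h2 e
      apply hnc p h1 h2 v0 hv0 hv0Q
      calc v0 * sp p = (sp p * v0 * (sp p)⁻¹ * v0⁻¹) * (v0 * sp p) := by rw [e, one_mul]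
        _ = _ := by group
    have hinj : Function.Injective F := by
      rintro ⟨p, h1⟩ ⟨p', h1'⟩ e
      by_cases h2 : p = a <;> by_cases h2' : p' = a
      · exact Subtype.ext (h2.trans h2'.symm)
      · simp only [F, h2, h2', dite_true, dite_false] at e
        exact absurd (congrArg Subtype.val e).symm (hne p' h1' h2')
      · simp only [F, h2, h2', dite_true, dite_false] at e
        exact absurd (congrArg Subtype.val e) (hne p h1 h2)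
      · simp only [F, h2, h2', dite_false] at e
        have e1 := congrArg Subtype.val e
        have hc := fc h hf (hsR p h1 h2) (hsR p' h1' h2')
          ((hsa p h1 h2).trans (hsa p' h1' h2').symm) hv0 hv0Q e1
        have hpV := hfs hv0 hv0' hv01 p h1
        have hpV' := hfs hv0 hv0' hv01 p' h1'
        have e3 := hC _ hc p' hpV'
        have e4 : sp p' • p' = p' := h.fix p' _ ((fQ p' h1' h2').r.le (hsQ p' h1' h2'))
        have e5 : sp p • p' = p' := by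
          calc sp p • p' = sp p' • (((sp p')⁻¹ * sp p) • p') := by
                rw [smul_smul, mul_inv_cancel_left]
            _ = p' := by rw [e3, e4]
        by_contra hne'
        have hpp : p ≠ p' := fun e => hne' (Subtype.ext e)
        have e6 := fb h hab hf hpV hpV' hpp (fQ p h1 h2) (hsQ p h1 h2) (hsV p h1 h2) e5
        have e7 := (h.fixQ hy2 (Ne.symm h2)).1 h1
        have e8 : φ p p' = φ p a := (h.fixQ h2 hpp).1 (by rw [h.sym h2, e7]; exact h1')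
        rw [e8, h.sym h2, e7] at e6
        exact hz1 ((h.pl a).disj hf f2 n2 z hzV hzQ (e6 ▸ hzQp p h1 h2))
    have hbij := hinj.bijective_of_nat_card_le (by
      rw [(h.pl a).cardW hf, Nat.card_coe_set_eq, h.cardQ hy2]; omega)
    intro w hw hw1
    obtain ⟨⟨p, h1⟩, e⟩ := hbij.2 ⟨w, hw⟩
    by_cases h2 : p = a
    · simp only [F, h2, dite_true] at e
      exact absurd (congrArg Subtype.val e).symm hw1
    · simp only [F, h2, dite_false] at e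
      exact ⟨p, h1, h2, congrArg Subtype.val e⟩
  have hy2' : y2 ∈ (FS (φ a y2) : Set Ω) := (h.fixQ hy2 hy2).2 rfl
  have htR := hsR y2 hy2' hy2.symm
  have hta := hsa y2 hy2' hy2.symm
  have hrv : ∀ v ∈ V, v ∉ φ a b → ∃ r, RR V (V ⊓ φ a b) r ∧ r • a = b ∧ r * v = v * r := by
    intro v hv hvQ
    obtain ⟨y, hy, e⟩ := (h.pl a).onto hf v hv hvQ _ ((V ⊓ φ a b).inv_mem (htR.inv.cm v hv))
    refine ⟨sp y2 * y, htR.mul (rr_of_mem h hf hy), ?_, ?_⟩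
    · rw [mul_smul, h.fix a y (hf.r.le hy), hta]
    · calc sp y2 * y * v = sp y2 * (v * y * v⁻¹ * y⁻¹)⁻¹ * (v * y) := by group
        _ = _ := by rw [e]; group
  obtain ⟨r0, hr0, hr0a, hr0v⟩ := hrv v0 hv0 hv0Q
  have hex : ∃ v' ∈ V, r0 * v' ≠ v' * r0 := by
    by_contra hcon
    push Not at hcon
    exact hab ((hC r0 hcon a ha).symm.trans hr0a)
  obtain ⟨v', hv', hne⟩ := hex
  have hv'Q : v' ∉ φ a b := fun e => hne (hr0.cW v' ⟨hv', e⟩)
  obtain ⟨r', hr', hr'a, hr'v⟩ := hrv v' hv' hv'Q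
  have hfin : ∀ s : G, Cz (r'⁻¹ * s) V → s * v' = v' * s := by
    intro s hs
    calc s * v' = r' * (r'⁻¹ * s * v') := by group
      _ = r' * v' * (r'⁻¹ * s) := by rw [hs v' hv']; group
      _ = _ := by rw [hr'v]; group
  by_cases h1 : r' * v0 * r'⁻¹ * v0⁻¹ = 1
  · refine hne (hfin r0 (fc h hf hr0 hr' (hr0a.trans hr'a.symm) hv0 hv0Q ?_))
    rw [h1, hr0v]; group
  · obtain ⟨p, p1, p2, e⟩ := hsurj _ (hr'.cm v0 hv0) h1
    exact hnc p p1 p2 v' hv' hv'Q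
      (hfin _ (fc h hf (hsR p p1 p2) hr' ((hsa p p1 p2).trans hr'a.symm) hv0 hv0Q e)).symm

end AF1

theorem CQ.tr1 {Ω : Type*} [MulAction G Ω] [Finite Ω] {q m : ℕ} {N : Ω → Subgroup G}
    {φ : Ω → Ω → Subgroup G} (h : CQ q N φ m) (hm : m + 1 = q) (hp : Par q N φ) : Tr1 q N φ := by
  intro x y V hxy hf p hpV p' hpV'
  by_cases hpp : p = p'
  · exact ⟨1, fun v _ => by simp, by rw [one_smul, hpp]⟩
  by_cases hC : ∀ c : G, Cz c V → ∀ p ∈ (FS V : Set Ω), c • p = p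
  · exact (AF1.false_of h hm hp hxy hf hC).elim
  push Not at hC
  obtain ⟨c, hc, p0, hp0, hne⟩ := hC
  obtain ⟨g, e1, e2, e3⟩ := AF1.h2 h hxy hf hp0 (AF1.fs_smul hc.cj_eq hp0) hpV hpV' hne.symm hpp
  refine ⟨g * c * g⁻¹, e3 ▸ hc.conj g, ?_⟩
  rw [← e1, ← e2, mul_smul, inv_smul_smul, mul_smul]

end H45.HL
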