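import Cfsg.Agent.Lib.HL3.Semi

namespace H45.HL

variable {G : Type*} [Group G] [Finite G]

namespace AF2

open P1 Semi

variable {Ω : Type*} [MulAction G Ω] {q m : ℕ} {N : Ω → Subgroup G} {φ : Ω → Ω → Subgroup G}
  (h : CQ q N φ m)
include h

theorem exs (ht : Tr1 q N φ) (hs : Swp N) {a b : Ω} (ab : a ≠ b) : ∃ V s, Flag q (N a) V (φ a b) ∧
    Cz s V ∧ s • a = b ∧ s • b = a ∧ s * s ∈ φ a b := by
  obtain ⟨x, t, tN, t2, ta⟩ := hs a b ab
  have tb : t • b = a := by rw [← ta, smul_smul, t2, one_smul]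
  have tx := h.fix x t tN
  have xa : x ≠ a := fun e => ab ((e ▸ tx : t • a = a).symm.trans ta)
  have xb : x ≠ b := fun e => ab (tb.symm.trans (e ▸ tx))
  have p := h.pl x
  have tQ : cj t (φ a b) = φ a b := by rw [← h.eqv ab, ta, tb, h.sym ab]
  have e1 : cj t (φ x a) = φ x b := by rw [← h.eqv xa, tx, ta]
  have e2 : cj t (φ x a) ≠ φ x a := fun e => ab (((h.fixel xa t tN t2).2 e).symm.trans ta)
  obtain ⟨V, f, f'⟩ := p.join (h.rad xa) t tN e2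
  have tV : cj t V = V := p.juniq (f.cj' (cjN h.toCP tx)) (by
    have := f'.cj' (cjN h.toCP tx)
    rwa [← cj_mul, t2, cj_one] at this) f' f e2
  have aV := ly h.toCP xa f
  have fa := h.lineG xa f aV (ly h.toCP xb (e1 ▸ f')) ab
  obtain ⟨R, fR, l⟩ := p.norm f.l _ (Subgroup.zpowers_le.2 tN) (zp_two t2) (zp_cj tV)
  have nV : t ∉ V := fun e => ab ((aV t e).symm.trans ta)
  have tR := (p.invU fR t (l (Subgroup.mem_zpowers t)) t2).resolve_left nV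
  have tt : ∀ v : G, t * (t * v * t⁻¹) * t⁻¹ = v := fun v => by
    calc _ = t * t * v * (t * t)⁻¹ := by group
      _ = v := by rw [t2]; group
  obtain ⟨z, z1, z2, z3, z4⟩ : ∃ z ∈ V, z ∈ φ a b ∧ z ≠ 1 ∧ t * z * t⁻¹ = z := by
    obtain ⟨w, w1, w2, w3⟩ := fa.meet
    by_cases e : t * w * t⁻¹ = w
    · exact ⟨w, w1, w2, w3, e⟩
    refine ⟨w * (t * w * t⁻¹), mul_mem w1 (conj_mem_of_cj tV w1), mul_mem w2 (conj_mem_of_cj tQ w2),
      fun e1 => e ((eq_inv_of_mul_eq_one_right e1).trans (f.l.inv_eq w1)), ?_⟩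
    rw [← conj_mul, tt, f.l.comm w1 (conj_mem_of_cj tV w1)]
  have zR := (p.pair fR z z1 t tR (mul_inv_eq_iff_eq_mul.1 z4).symm).resolve_right nV
  obtain ⟨c, c1, c2⟩ := ht x a V xa f x (lx h.toCP f) a aV
  have e3 : cj c R = φ a b := (uniq (h.pl a) (by
    have := fR.cj c
    rwa [h.conj, c2, c1.cj_eq] at this) fa z1 (by
      rwa [mem_cj, mul_assoc, ← c1 z z1, inv_mul_cancel_left]) z2 z3).symm
  have y1 : c * t * c⁻¹ ∈ φ a b := e3 ▸ conj_mem_cj.2 tR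
  refine ⟨V, t * (c * t * c⁻¹), fa, fun v hv => ?_, by rw [mul_smul, fx h.toCP ab _ y1, ta],
    by rw [mul_smul, fy h.toCP ab _ y1, tb], ?_⟩
  · calc _ = t * (c * t * (c⁻¹ * v)) := by group
      _ = t * (c * (t * v * t⁻¹)) * t * c⁻¹ := by rw [c1.inv v hv]; group
      _ = t * (t * v * t⁻¹) * t⁻¹ * (t * (c * t * c⁻¹)) := by rw [c1 _ (conj_mem_of_cj tV hv)]; group
      _ = _ := by rw [tt]
  · have := mul_mem (conj_mem_of_cj tQ y1) y1
    rwa [inv_eq_of_mul_eq_one_right t2, mul_assoc, mul_assoc, ← mul_assoc] at this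

end AF2

open P1 Semi AF2 in
theorem CQ.dd {Ω : Type*} [MulAction G Ω] [Finite Ω] {q m : ℕ} {N : Ω → Subgroup G}
    {φ : Ω → Ω → Subgroup G} (h : CQ q N φ m) (hp : Par q N φ) (ht : Tr1 q N φ) (hs : Swp N) :
    ∀ a b, a ≠ b → ∃ d, Dd q N φ a b d := by
  intro a b ab
  obtain ⟨V, s, f, s1, sa, sb, s2⟩ := exs h ht hs ab
  have p := h.pl a
  have r := h.rad ab
  have sQ : cj s (φ a b) = φ a b := by rw [← h.eqv ab, sa, sb, h.sym ab]
  obtain ⟨v, hv, cQ⟩ := p.loc1 f s sQ (fun V' f' => by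
    have := (f'.of_le (line h ab f') (h.sym ab ▸ (h.rad ab.symm).le)).cj s
    rwa [h.conj, sb, sQ] at this) s1
  have cV : Cz (v⁻¹ * s) V := (f.l.cz hv).inv.mul s1
  have c2 : v⁻¹ * s * (v⁻¹ * s) ∈ φ a b := by
    rwa [f.l.inv_eq hv, mul_assoc, ← mul_assoc s, s1 v hv, ← mul_assoc, ← mul_assoc, f.l.sq v hv, one_mul]
  have ca : (v⁻¹ * s) • a = b := by rw [mul_smul, sa, ly h.toCP ab f _ (inv_mem hv)]
  have cb : (v⁻¹ * s) • b = a := by rw [mul_smul, sb, lx h.toCP f _ (inv_mem hv)]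
  generalize v⁻¹ * s = c at cQ cV c2 ca cb
  obtain ⟨V₂, f₂, e₂, -⟩ := p.third r V V
  obtain ⟨V₃, f₃, e₃, e₄⟩ := p.third r V V₂
  obtain ⟨u, hu, e⟩ := p.trans f₃ f.symm f₂ e₃.symm e₄.symm
  have k1 : Cz (u * c * u⁻¹) V₂ := e ▸ cV.conj u
  have k2 : Cz (u * c * u⁻¹ * c⁻¹) (φ a b) := Cz.mul (by
    have := cQ.conj u
    rwa [p.nrm f₃ u (Subgroup.mem_sup_right hu)] at this) cQ.inv
  have k3 : u * c * u⁻¹ * c⁻¹ ∈ N a := by
    have := conj_mem_cj (g := c) |>.2 (line h ab f₃.symm (inv_mem hu))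
    rw [h.conj, cb] at this
    simpa [mul_assoc] using (N a).mul_mem (f₃.r.le hu) this
  obtain ⟨g, hg, k4⟩ := p.autV r _ (cj_eq_of_mem k3) k2
  have k5 := inv_mul_eq_one.1 (p.zero _ (mul_mem (inv_mem (r.le hg)) k3) k4)
  obtain ⟨w, hw, w₂, hw₂, e5⟩ := p.split f.symm f₂ e₂ g hg
  have d1 : Cz (w * c) V := (f.l.cz hw.2).mul cV
  have d2 : Cz (w * c) V₂ := by
    rw [show w * c = w₂ * (u * c * u⁻¹) by
      rw [← inv_mul_cancel_right (u * c * u⁻¹) c, ← k5, e5, r.comm hw.1 hw₂.1, ← mul_assoc, ← mul_assoc,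
        r.sq _ hw₂.1, one_mul]]
    exact (f₂.r.cz hw₂.2).mul k1
  have d3 : ∀ V', Flag q (N a) V' (φ a b) → Cz (w * c) V' := fun V' f' => by
    by_cases e1 : V' = V
    · exact e1 ▸ d1
    obtain ⟨y, hy, e2⟩ := p.trans f.symm f₂ f'.symm e₂ e1
    have := d2.conj y
    rwa [e2, ← d1 y hy, mul_inv_cancel_right] at this
  refine ⟨w * c, nz p r ?_ fun V' f' v hv => (((d3 V' f').mul (d3 V' f')) v hv).symm,
    by rw [mul_smul, ca, fy h.toCP ab w hw.1], d3⟩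
  rwa [mul_assoc, ← mul_assoc c, cQ w hw.1, ← mul_assoc, ← mul_assoc, r.sq w hw.1, one_mul]

end H45.HL
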