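import Cfsg.Agent.Lib.HL3.Defs

namespace H45.HL

variable {G : Type*} [Group G] [Finite G]

namespace AF3

open MulAction

/-- the fixed point free elements of a group which is Frobenius modulo the kernel -/
theorem frob {C X : Type*} [Group C] [Finite C] [MulAction C X] [Finite X] [IsPretransitive C X] (a : X)
    (V : Subgroup C) (hV : ∀ v ∈ V, ∀ x : X, v • x = x)
    (h : ∀ (g : C) (x y : X), g • x = x → g • y = y → x ≠ y → g ∈ V) (d : {b // b ≠ a} → C)
    (h1 : ∀ b, d b • a = b) (h2 : ∀ b, ∀ v ∈ V, ∀ x : X, (d b * v) • x ≠ x) {g : C} (hg : ∀ x : X, g • x ≠ x) :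
    ∃ b, ∃ v ∈ V, g = d b * v := by
  classical
  have := Fintype.ofFinite C
  have := Fintype.ofFinite X
  have := (pretransitive_iff_subsingleton_quotient C X).1 inferInstance
  have b := sum_card_fixedBy_eq_card_orbits_mul_card_group C X
  rw [Fintype.card_eq_one_iff.2 ⟨⟦a⟧, fun y => Subsingleton.elim _ _⟩, one_mul] at b
  have k : ∀ g : C, Fintype.card (fixedBy X g) + (if ∀ x : X, g • x ≠ x then 1 else 0) + (if g ∈ V then 1 else 0) =
      1 + (if g ∈ V then 1 else 0) * Fintype.card X := fun g => by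
    by_cases m : g ∈ V
    · rw [if_neg fun e => e a (hV g m a), if_pos m, Fintype.card_congr (α := fixedBy X g) (Equiv.subtypeUnivEquiv (hV g m))]
      ring
    · by_cases e : ∀ x : X, g • x ≠ x
      · rw [if_pos e, if_neg m, (Fintype.card_eq_zero_iff (α := fixedBy X g)).2 ⟨fun x => e x x.2⟩]; ring
      · rw [if_neg e, if_neg m]
        push Not at e
        obtain ⟨x, e⟩ := e
        rw [(Fintype.card_eq_one_iff (α := fixedBy X g)).2 ⟨⟨x, e⟩, fun y => Subtype.ext (by_contra fun n => m (h g _ _ y.2 e n))⟩]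
        ring
  have s := Finset.sum_congr rfl fun g (_ : g ∈ Finset.univ) => k g
  rw [Finset.sum_add_distrib, Finset.sum_add_distrib, Finset.sum_add_distrib, b, ← Finset.sum_mul, Finset.sum_boole,
    Finset.sum_boole, ← Fintype.card_subtype, ← Fintype.card_subtype, Finset.sum_const, smul_eq_mul, mul_one,
    Finset.card_univ, Nat.cast_id, Nat.cast_id] at s
  let f : {b // b ≠ a} × {v // v ∈ V} → {g : C // ∀ x : X, g • x ≠ x} := fun x => ⟨d x.1 * x.2, h2 _ _ x.2.2⟩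
  have i : Function.Injective f := fun x y e => by
    have e1 : d x.1 * x.2 = d y.1 * y.2 := congrArg Subtype.val e
    have e2 : x.1 = y.1 := Subtype.ext (by
      have := congrArg (· • a) e1
      simpa only [mul_smul, hV _ y.2.2, hV _ x.2.2, h1] using this)
    rw [e2] at e1
    exact Prod.ext e2 (Subtype.ext (mul_left_cancel e1))
  obtain ⟨x, e⟩ := ((Fintype.bijective_iff_injective_and_card f).2 ⟨i, by
    have p : 0 < Fintype.card X := Fintype.card_pos_iff.2 ⟨a⟩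
    rw [Fintype.card_prod, Fintype.card_subtype_compl, Fintype.card_subtype_eq, Nat.sub_one_mul, mul_comm]
    omega⟩).2 ⟨g, hg⟩
  exact ⟨x.1, x.2, x.2.2, (congrArg Subtype.val e).symm⟩

variable {Ω : Type*} [MulAction G Ω] [Finite Ω] {q m : ℕ} {N : Ω → Subgroup G} {φ : Ω → Ω → Subgroup G}

omit [Finite G] [Finite Ω] in
theorem fsV (h : CQ q N φ m) {x y : Ω} {V : Subgroup G} (n : x ≠ y) (f : Flag q (N x) V (φ x y)) : y ∈ FS V :=
  fun z hz => by
    by_cases e : z = 1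
    · rw [e, one_smul]
    · exact (h.fixV n n f z hz e).2 f

omit [Finite G] [Finite Ω] in
/-- elements centralising a line group and fixing a point -/
theorem dec (h : CQ q N φ m) {x y p : Ω} {V : Subgroup G} (n : x ≠ y) (f : Flag q (N x) V (φ x y)) (hp : p ∈ FS V)
    {g : G} (c : Cz g V) (e : g • p = p) : ∃ v ∈ V, Cz (v⁻¹ * g) (N p) ∧ v⁻¹ * g * (v⁻¹ * g) = g * g := by
  have r : Rad q (N p) V := by
    by_cases k : p = x
    · exact k ▸ f.l
    · exact (h.lineG n f hp (fun z hz => h.fix x z (f.l.le hz)) k).l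
  obtain ⟨v, hv, k⟩ := (h.pl p).autV r g (by rw [h.conj, e]) c
  refine ⟨v, hv, k, ?_⟩
  rw [r.inv_eq hv, mul_assoc, ← mul_assoc g, c v hv, ← mul_assoc, ← mul_assoc, r.sq v hv, one_mul]

omit [Finite G] in
theorem inv (h : CQ q N φ m) (hs : Semi N) {x y p : Ω} {V : Subgroup G} (n : x ≠ y) (f : Flag q (N x) V (φ x y))
    (hp : p ∈ FS V) {g : G} (c : Cz g V) (e : g • p = p) (s : g * g = 1) : g ∈ V := by
  obtain ⟨v, hv, k, t⟩ := dec h n f hp c e
  have two : IsPGroup 2 (Subgroup.zpowers (v⁻¹ * g)) := IsPGroup.of_card_dvd_pow (n := 1) (by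
    rw [Nat.card_zpowers, pow_one]; exact orderOf_dvd_of_pow_eq_one (by rw [pow_two, t, s]))
  obtain ⟨p', h1, h2⟩ := two.exists_fixed_point_of_prime_dvd_card_of_fixed_point Ω h.even.two_dvd (a := p) (by
    rintro ⟨_, i, rfl⟩
    exact (stabilizer G p).zpow_mem (by rw [mem_stabilizer_iff, mul_smul, e, inv_smul_eq_iff, hp v hv]) i)
  rw [← inv_mul_eq_one.1 (hs p p' h2 _ k (h1 ⟨_, Subgroup.mem_zpowers _⟩))]
  exact hv

theorem fpf (h : CQ q N φ m) (hs : Semi N) (ht : Tr1 q N φ) (hd : ∀ a b, a ≠ b → ∃ d, Dd q N φ a b d) {x y : Ω}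
    {V : Subgroup G} (n : x ≠ y) (f : Flag q (N x) V (φ x y)) {g : G} (c : Cz g V) (e : ∀ p : Ω, p ∈ FS V → g • p ≠ p) :
    g * g = 1 := by
  let C := Subgroup.centralizer (V : Set G)
  let X : SubMulAction C Ω :=
    { carrier := FS V
      smul_mem' := fun c p hp v hv => show v • (c : G) • p = (c : G) • p by
        rw [← mul_smul, c.2 v hv, mul_smul, hp v hv] }
  have : IsPretransitive C X := ⟨fun p p' => by
    obtain ⟨c, h1, h2⟩ := ht x y V n f p p.2 p' p'.2
    exact ⟨⟨c, cz_iff.1 h1⟩, Subtype.ext h2⟩⟩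
  let a : X := ⟨x, fun z hz => h.fix x z (f.l.le hz)⟩
  have k : ∀ b : {b : X // b ≠ a}, ∃ d : C, d • a = b ∧ (d : G) * d = 1 := fun b => by
    have n' : x ≠ b.1 := fun e => b.2 (Subtype.ext e.symm)
    obtain ⟨d, h1, h2, h3⟩ := hd x b.1 n'
    exact ⟨⟨d, cz_iff.1 (h3 V (h.lineG n f a.2 b.1.2 n'))⟩, Subtype.ext h2, h1⟩
  choose d h1 h2 using k
  have sq : ∀ b, ∀ v ∈ V, (d b : G) * v * (d b * v) = 1 := fun b v hv => by
    rw [mul_assoc, ← mul_assoc v, (d b).2 v hv, ← mul_assoc, ← mul_assoc, h2, one_mul, f.l.sq v hv]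
  obtain ⟨b, v, hv, r⟩ := frob a (V.subgroupOf C) (fun v hv p => Subtype.ext (p.2 v hv)) (fun g p p' e1 e2 n' => by
      obtain ⟨v, hv, k, -⟩ := dec h n f p.2 (cz_iff.2 g.2) (congrArg Subtype.val e1)
      have : (g : G) • (p' : Ω) = p' := congrArg Subtype.val e2
      rw [Subgroup.mem_subgroupOf, ← inv_mul_eq_one.1 (hs _ _ (fun e => n' (Subtype.ext e)) _ k
        (by rw [mul_smul, this, inv_smul_eq_iff, p'.2 v hv]))]
      exact hv) d h1 (fun b v hv p e => by
      have m := inv h hs n f p.2 (cz_iff.2 (d b * v).2) (congrArg Subtype.val e) (sq b v hv)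
      exact b.2 ((h1 b).symm.trans (Subtype.ext (a.2 _ ((V.mul_mem_cancel_right hv).1 m)))))
    (g := ⟨g, cz_iff.1 c⟩) fun p k => e p p.2 (congrArg Subtype.val k)
  rw [show g = d b * v from congrArg Subtype.val r]
  exact sq b v hv

theorem comm (h : CQ q N φ m) (hs : Semi N) (ht : Tr1 q N φ) (hd : ∀ a b, a ≠ b → ∃ d, Dd q N φ a b d) {a b b' : Ω}
    (n : a ≠ b) (n' : a ≠ b') {d d' : G} (h1 : Dd q N φ a b d) (h2 : Dd q N φ a b' d') : d * d' = d' * d := by
  obtain ⟨V, f, f'⟩ : ∃ V, Flag q (N a) V (φ a b) ∧ Flag q (N a) V (φ a b') := by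
    obtain ⟨g, hg, e⟩ := h.typ n n'
    by_cases k : cj g (φ a b) = φ a b
    · obtain ⟨V, f, -⟩ := (h.pl a).third (h.rad n) ⊥ ⊥
      exact ⟨V, f.symm, by rw [← e, k]; exact f.symm⟩
    · exact e ▸ (h.pl a).join (h.rad n) g hg k
  have c := h1.2.2 V f
  have c' := c.mul (h2.2.2 V f')
  have s : d * d' * (d * d') = 1 := by
    by_cases e : ∀ p : Ω, p ∈ FS V → (d * d') • p ≠ p
    · exact fpf h hs ht hd n f c' e
    push Not at e
    obtain ⟨p, hp, e⟩ := e
    obtain ⟨v, hv, k, t⟩ := dec h n f hp c' e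
    refine hs p (d • p) (fun r => n ?_) _ (t ▸ k.mul k) ?_
    · exact (h.fix a d (f.l.le (inv h hs n f hp c r.symm h1.1))).symm.trans h1.2.1
    · have : (d * d') • d • p = d • p := by
        rw [mul_smul, smul_left_cancel_iff]
        conv_lhs => rw [← e]
        rw [← mul_smul, ← mul_smul, mul_assoc, ← mul_assoc d, h1.1, one_mul, h2.1, one_smul]
      rw [mul_smul, this, this]
  rw [← inv_eq_of_mul_eq_one_right s, mul_inv_rev, inv_eq_of_mul_eq_one_right h1.1, inv_eq_of_mul_eq_one_right h2.1]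

end AF3

open AF3 in
set_option linter.unusedVariables false in
theorem CQ.reg {Ω : Type*} [MulAction G Ω] [Finite Ω] {q m : ℕ} {N : Ω → Subgroup G}
    {φ : Ω → Ω → Subgroup G} (h : CQ q N φ m) (hm : m + 1 = q) (hs : Semi N) (ht : Tr1 q N φ)
    (hd : ∀ a b, a ≠ b → ∃ d, Dd q N φ a b d) : ∃ E : Subgroup G, Reg Ω E := by
  obtain ⟨a, -⟩ := h.ne
  let D : Set G := {d | ∃ b, a ≠ b ∧ Dd q N φ a b d}
  let E := Subgroup.closure D
  have ab : ∀ x ∈ E, ∀ y ∈ E, x * y = y * x := fun x hx y hy => by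
    have := Subgroup.isMulCommutative_closure (k := D) fun _ ⟨_, n, h1⟩ _ ⟨_, n', h2⟩ => comm h hs ht hd n n' h1 h2
    exact congrArg Subtype.val (mul_comm' (⟨x, hx⟩ : E) ⟨y, hy⟩)
  have t : ∀ b, ∃ r ∈ E, r • a = b := fun b => by
    by_cases e : a = b
    · exact ⟨1, one_mem _, by rw [one_smul, e]⟩
    · obtain ⟨d, k⟩ := hd a b e
      exact ⟨d, Subgroup.subset_closure ⟨b, e, k⟩, k.2.1⟩
  have tr : ∀ x y : Ω, ∃ r ∈ E, r • x = y := fun x y => by
    obtain ⟨r, hr, rfl⟩ := t x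
    obtain ⟨s, hs, rfl⟩ := t y
    exact ⟨s * r⁻¹, mul_mem hs (inv_mem hr), by rw [mul_smul, inv_smul_smul]⟩
  have reg : ∀ x : Ω, ∀ r ∈ E, r • x = x → r = 1 := fun x r hr e => h.faith r fun y => by
    obtain ⟨s, hs, rfl⟩ := tr x y
    rw [← mul_smul, ab r hr s hs, mul_smul, e]
  have cs : ∀ e ∈ E, e = 1 ∨ e ∈ D := fun e he => by
    by_cases k : a = e • a
    · exact Or.inl (reg a e he k.symm)
    · obtain ⟨d, k'⟩ := hd a _ k
      have m : d ∈ D := ⟨_, k, k'⟩
      rw [← inv_mul_eq_one.1 (reg a (d⁻¹ * e) (mul_mem (inv_mem (Subgroup.subset_closure m)) he)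
        (by rw [mul_smul, inv_smul_eq_iff, k'.2.1]))]
      exact Or.inr m
  refine ⟨E, ⟨fun e he g => ?_⟩, fun e he => ?_, tr, reg, Nat.card_eq_of_bijective (fun e => (e : G) • a)
    ⟨fun x y (e : (x : G) • a = (y : G) • a) => Subtype.ext (inv_mul_eq_one.1 (reg a _ (mul_mem (inv_mem x.2) y.2)
      (by rw [mul_smul, ← e, inv_smul_smul]))), fun b => (t b).elim fun r k => ⟨⟨r, k.1⟩, k.2⟩⟩⟩
  · obtain ⟨r, hr, k⟩ := t (g • a)
    have s : (r⁻¹ * g) • a = a := by rw [mul_smul, ← k, inv_smul_smul]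
    rw [show g * e * g⁻¹ = r * (r⁻¹ * g * e * (r⁻¹ * g)⁻¹) * r⁻¹ by group]
    generalize r⁻¹ * g = s at s
    rename_i s'
    refine mul_mem (mul_mem hr ?_) (inv_mem hr)
    rcases cs e he with rfl | ⟨b, n, h1, h2, h3⟩
    · simp
    · refine Subgroup.subset_closure ⟨s' • b, fun k => n (MulAction.injective s' (s.trans k)),
        by rw [conj_mul, h1]; simp, by rw [mul_smul, mul_smul, inv_smul_eq_iff.2 s.symm, h2], fun V f => ?_⟩
      have := h.eqv n s'
      rw [s] at this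
      have f' := f.cj' (g := s'⁻¹) (by rw [h.conj, inv_smul_eq_iff.2 s.symm])
      rw [this, cj_inv_cj] at f'
      simpa using (h3 _ f').conj s'
  · rcases cs e he with rfl | ⟨b, n, h1, -⟩
    exacts [mul_one 1, h1]

end H45.HL
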