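import Cfsg.Agent.Lib.HL3.Defs

namespace H45.HL

variable {G : Type*} [Group G] [Finite G]

namespace AF4

open MulAction

variable {Ω : Type*} [MulAction G Ω] {q m : ℕ} {N : Ω → Subgroup G} {φ : Ω → Ω → Subgroup G} {E V P : Subgroup G}
  {a b b' p r : Ω} {e g x y : G}

section
omit [Finite G]

theorem fsV (h : CQ q N φ m) (n : a ≠ b) (f : Flag q (N a) V (φ a b)) : b ∈ FS V :=
  fun z hz => by
    by_cases e : z = 1
    · rw [e, one_smul]
    · exact (h.fixV n n f z hz e).2 f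

theorem fsQ (h : CQ q N φ m) (n : a ≠ b) : b ∈ FS (φ a b) := (h.fixQ n n).2 rfl

theorem fsa (h : CQ q N φ m) (l : P ≤ N a) : a ∈ FS P := fun z hz => h.fix a z (l hz)

theorem ab (hE : Reg Ω E) (hx : x ∈ E) (hy : y ∈ E) : x * y = y * x := by
  rw [← inv_eq_of_mul_eq_one_right (hE.sq _ (mul_mem hx hy)), mul_inv_rev, inv_eq_of_mul_eq_one_right (hE.sq _ hx),
    inv_eq_of_mul_eq_one_right (hE.sq _ hy)]

theorem cm (hE : Reg Ω E) (he : e ∈ E) (h1 : g • a = a) (h2 : g • e • a = e • a) : g * e = e * g :=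
  mul_inv_eq_iff_eq_mul.1 (inv_mul_eq_one.1 (hE.reg a (e⁻¹ * (g * e * g⁻¹))
    (mul_mem (inv_mem he) (hE.normal.conj_mem e he g)) (by
      rw [mul_smul, inv_smul_eq_iff, mul_smul, mul_smul, inv_smul_eq_iff.2 h1.symm, h2]))).symm

theorem add (hE : Reg Ω E) (ha : a ∈ FS P) (he : e ∈ E) (h1 : e • a ∈ FS P) (hr : r ∈ FS P) : e • r ∈ FS P :=
  fun v hv => by rw [← mul_smul, cm hE he (ha v hv) (h1 v hv), mul_smul, hr v hv]

theorem ee (hE : Reg Ω E) (he : e ∈ E) (r : Ω) : e • e • r = r := by rw [← mul_smul, hE.sq e he, one_smul]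

theorem key (h : CQ q N φ m) (n : a ≠ b) (f : Flag q (N a) V (φ a b)) (hy : y ∈ φ a b) (hn : y ∉ V) (hp : p ∈ FS V)
    (e : y • p = p) : p ∈ FS (φ a b) := by
  by_cases k : a = p
  · exact k ▸ fsa h f.r.le
  have y1 : y ≠ 1 := fun e => hn (e ▸ one_mem V)
  obtain ⟨V', f', m⟩ := (h.pl a).thru f.r y hy y1
  obtain ⟨z, hz, -, z1⟩ := f.meet
  refine (h.fixQ n k).2 (by_contra fun r => hn ?_)
  rw [(h.pl a).juniq ((h.fixV n k f z hz z1).1 (hp z hz)) f ((h.fixV n k f'.symm y m y1).1 e) f'.symm r]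
  exact m

theorem qpos (h : CQ q N φ m) (a : Ω) : 2 ≤ q := by
  obtain ⟨n, h1, rfl⟩ := (h.pl a).pow
  exact Nat.pow_le_pow_right (n := 2) two_pos h1

end

variable [Finite Ω]

omit [Finite G] in
theorem orb (h : CQ q N φ m) (hm : m + 1 = q) (hE : Reg Ω E) (n : a ≠ b) (f : Flag q (N a) V (φ a b)) (he : e ∈ E)
    (h1 : e • a ∈ FS V) (h2 : e • a ∉ FS (φ a b)) (hr : r ∈ FS (φ a b)) : ∃ y ∈ φ a b, y • e • a = e • r := by
  have c : (orbit (φ a b) (e • a)).ncard = q := by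
    have k := (stabilizer (φ a b) (e • a)).card_mul_index
    rw [index_stabilizer, show stabilizer (φ a b) (e • a) = (V ⊓ φ a b).subgroupOf (φ a b) from
      Subgroup.ext fun y => ⟨fun k => ⟨by_contra fun m => h2 (key h n f y.2 m h1 k), y.2⟩, fun k => h1 _ k.1⟩,
      Nat.card_congr (Subgroup.subgroupOfEquivOfLe inf_le_right).toEquiv, (h.pl a).cardW f, f.r.card, pow_two] at k
    exact Nat.eq_of_mul_eq_mul_left (by have := qpos h a; omega) k
  have s : orbit (φ a b) (e • a) = (e • ·) '' FS (φ a b) := by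
    refine Set.eq_of_subset_of_ncard_le ?_ (by
      rw [c, Set.ncard_image_of_injective _ (MulAction.injective e), h.cardQ n]; omega)
    rintro _ ⟨⟨y, hy⟩, rfl⟩
    refine ⟨e • y • e • a, ?_, ee hE he _⟩
    by_cases m : y ∈ V
    · rw [h1 y m, ee hE he]; exact fsa h f.r.le
    refine key h n f hy m (add hE (fsa h f.l.le) he h1 fun v hv => ?_) ?_
    · have := h1 _ (inv_conj_mem_of_cj ((h.pl a).nrm f y (Subgroup.mem_sup_right hy)) hv)
      rwa [mul_smul, mul_smul, inv_smul_eq_iff] at this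
    · have := congrArg (· • a) (ab hE he (hE.normal.conj_mem e he y))
      simp only [mul_smul, f.r.inv_eq hy, h.fix a y (f.r.le hy)] at this
      exact this.symm
  obtain ⟨y, k⟩ : e • r ∈ orbit (φ a b) (e • a) := s ▸ ⟨r, hr, rfl⟩
  exact ⟨y, y.2, k⟩

omit [Finite G] in
theorem chain (h : CQ q N φ m) (hm : m + 1 = q) (hE : Reg Ω E) (n : a ≠ b) (n' : a ≠ b') (e : φ a b' = φ a b) :
    ∃ g ∈ N a, g • b = b' := by
  obtain ⟨V, f, -⟩ := (h.pl a).third (h.rad n) ⊥ ⊥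
  obtain ⟨Q, f1, k, -⟩ := (h.pl a).third f.r (φ a b) ⊥
  obtain ⟨c, n1, rfl⟩ := h.surj n f.symm f1
  have A : ∀ r ∈ E, a ≠ r • a → φ a (r • a) = φ a b → ∃ y ∈ N a, y • r • a = r • c := fun r hr n e =>
    (orb h hm hE n1 f1 hr (fsV h n (e ▸ f.symm)) (fun m => k (((h.fixQ n1 n).1 m).symm.trans e))
      (fsQ h n1)).imp fun y k => ⟨f1.r.le k.1, k.2⟩
  obtain ⟨r, hr, rfl⟩ := hE.tr a b
  obtain ⟨r', hr', rfl⟩ := hE.tr a b'
  obtain ⟨y, hy, e1⟩ := A r hr n rfl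
  obtain ⟨y', hy', e2⟩ := A r' hr' n' e
  obtain ⟨s, hs, rfl⟩ := hE.tr a c
  obtain ⟨z, hz, e3⟩ := orb h hm hE n f.symm (mul_mem hr hs)
    (by rw [mul_smul]; exact add hE (fsa h f.r.le) hr (fsV h n f.symm) (fsV h n1 f1))
    (fun m => k ((h.fixQ n n1).1 (by
      have := add hE (fsa h f.l.le) hr (fsQ h n) m
      rwa [mul_smul, ee hE hr] at this)))
    (add hE (fsa h f.l.le) hr (fsQ h n) ((h.fixQ n n').2 e))
  refine ⟨y'⁻¹ * z * y, mul_mem (mul_mem (inv_mem hy') (f.l.le hz)) hy, ?_⟩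
  rw [mul_smul, mul_smul, e1, inv_smul_eq_iff, e2, ← mul_smul r, e3, ab hE hr hs, mul_smul, ee hE hr, ← mul_smul,
    ab hE hs hr', mul_smul]

omit [Finite G] in
theorem tr (h : CQ q N φ m) (hm : m + 1 = q) (hE : Reg Ω E) (a x y : Ω) (hx : x ≠ a) (hy : y ≠ a) :
    ∃ g ∈ N a, g • x = y := by
  obtain ⟨g, hg, e⟩ := h.typ hx.symm hy.symm
  have k := h.fix a g hg
  obtain ⟨g', hg', e'⟩ := chain h hm hE (b := g • x) (fun e => hx (MulAction.injective g (e.symm.trans k.symm)))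
    hy.symm (by rw [← e, ← h.eqv hx.symm, k])
  exact ⟨g' * g, mul_mem hg' hg, by rw [mul_smul, e']⟩

theorem big (h : CQ q N φ m) (hm : m + 1 = q) (hE : Reg Ω E) (n : a ≠ b) :
    (q ^ 3 - 1) * ((q ^ 2 - q) * q ^ 3) ≤ Nat.card (N a) := by
  obtain ⟨V, f, -⟩ := (h.pl a).third (h.rad n) ⊥ ⊥
  obtain ⟨z, hQ, hV, z1⟩ := f.meet
  have k : ∀ s : ((φ a b : Set G) \ (φ a b ⊓ V : Subgroup G) : Set G), ∃ y ∈ N a, y • b = b ∧ y * z * y⁻¹ = s := by
    rintro ⟨s, hs, ns⟩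
    have w1 : z * s ≠ 1 := fun e => ns ⟨hs, (eq_inv_of_mul_eq_one_right e ▸ V.inv_mem hV : s ∈ V)⟩
    obtain ⟨V', f', m⟩ := (h.pl a).thru f.l _ (mul_mem hQ hs) w1
    obtain ⟨y, hy, e⟩ := (h.pl a).onto f' z hQ (fun m' => ns ⟨hs, by
      rw [← by_contra fun (r : ¬ V' = V) => z1 ((h.pl a).disj f f' r z hQ hV m')]
      exact (V'.mul_mem_cancel_left m').1 m⟩) _ ⟨mul_mem hQ hs, m⟩
    refine ⟨y, f'.r.le hy, fsV h n f'.symm y hy, mul_left_cancel (a := z) ?_⟩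
    rw [← e, f.l.inv_eq hQ, mul_assoc, mul_assoc, mul_assoc]
  choose y hy y1 y2 using k
  choose g hg g1 using fun p : ({a}ᶜ : Set Ω) => tr h hm hE a b p n.symm p.2
  have ub : ∀ u ∈ φ a b ⊔ V, u • b = b := fun u hu =>
    (sup_le (fun u hu => fsQ h n u hu) fun u hu => fsV h n f.symm u hu : φ a b ⊔ V ≤ stabilizer G b) hu
  have uz : ∀ u ∈ φ a b ⊔ V, u * z * u⁻¹ = z := fun u hu => by
    rw [← ((f.l.cz hQ).sup (f.r.cz hV)) u hu, mul_inv_cancel_right]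
  have := Nat.card_le_card_of_injective
    (fun x : ({a}ᶜ : Set Ω) × ((φ a b : Set G) \ (φ a b ⊓ V : Subgroup G) : Set G) × ↥(φ a b ⊔ V) =>
      (⟨g x.1 * (y x.2.1 * x.2.2), mul_mem (hg _) (mul_mem (hy _) (f.sup_le x.2.2.2))⟩ : N a))
    fun ⟨p, s, u⟩ ⟨p', s', u'⟩ e => by
      have e1 : g p * (y s * u) = g p' * (y s' * u') := congrArg Subtype.val e
      obtain rfl : p = p' := Subtype.ext (by
        simpa only [mul_smul, ub _ u.2, ub _ u'.2, y1, g1] using congrArg (· • b) e1)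
      have e2 := mul_left_cancel e1
      obtain rfl : s = s' := Subtype.ext (by
        rw [← y2, ← y2, ← uz _ u.2, show y s * (u * z * (u : G)⁻¹) * (y s)⁻¹ = y s * u * z * (y s * u)⁻¹ by group, e2,
          uz _ u.2]
        conv_rhs => rw [← uz _ u'.2]
        group)
      rw [Subtype.ext (mul_left_cancel e2)]
  rwa [Nat.card_prod, Nat.card_prod, (h.pl a).cardU f, Nat.card_coe_set_eq, Nat.card_coe_set_eq,
    Set.ncard_compl, Set.ncard_singleton, Set.ncard_sdiff (SetLike.coe_subset_coe.2 inf_le_left),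
    ← Nat.card_coe_set_eq, ← Nat.card_coe_set_eq, SetLike.coe_sort_coe, SetLike.coe_sort_coe, (h.pl a).cardW f,
    f.l.card, show Nat.card Ω = q ^ 3 by rw [h.cardΩ, ← hm]; ring] at this

end AF4

open AF4 in
theorem CQ.fin {Ω : Type*} [MulAction G Ω] [Finite Ω] {q m : ℕ} {N : Ω → Subgroup G}
    {φ : Ω → Ω → Subgroup G} (h : CQ q N φ m) (hm : m + 1 = q) {E : Subgroup G} (hE : Reg Ω E) :
    (∀ a x y, x ≠ a → y ≠ a → ∃ g ∈ N a, g • x = y) ∧ Nat.gcd 3 (q - 1) = 1 := by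
  refine ⟨tr h hm hE, ?_⟩
  obtain ⟨a, b, n⟩ := h.ne
  refine ((Nat.dvd_prime Nat.prime_three).1 (Nat.gcd_dvd_left 3 (q - 1))).resolve_right fun e => ?_
  have c := (h.pl a).card
  have l := Nat.mul_le_mul_right 3 (big h hm hE n)
  have p := qpos h a
  rw [e] at c
  rw [c, show (q ^ 3 - 1) * ((q ^ 2 - q) * q ^ 3) * 3 = q ^ 3 * ((q ^ 2 - q) * 3) * (q ^ 3 - 1) by ring] at l
  have p3 : 1 < q ^ 3 := Nat.one_lt_pow three_ne_zero p
  have l' := Nat.le_of_mul_le_mul_left (Nat.le_of_mul_le_mul_right l (by omega)) (by omega)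
  have : 2 * q ≤ q ^ 2 := by nlinarith
  omega

end H45.HL
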