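import Cfsg.Agent.Lib.HL3.BPa

/-! Case B: the Sylow subgroup of a two-point stabiliser. -/

namespace H45.HL

variable {G : Type*} [Group G] [Finite G]

namespace BB

open Subgroup BP

variable {Ω : Type*} [MulAction G Ω] {q : ℕ} {N : Ω → Subgroup G} {x y : Ω} {V Q V' Q' P M : Subgroup G}

omit [Finite G]

theorem le_of_nrm (h : Pl q M) (f : Flag q M V Q) (h1 : P ≤ M) (h2 : IsPGroup 2 P) (hV : ∀ g ∈ P, cj g V = V)
    (hQ : ∀ g ∈ P, cj g Q = Q) : P ≤ V ⊔ Q := by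
  obtain ⟨E, f', hE⟩ := h.norm f.l (P ⊔ Q) (sup_le h1 f.r.le)
    (h2.to_sup_of_normal_right' f.r.isP fun g hg => nrm_iff.2 (hQ g hg)) fun g hg =>
      nrm_iff.1 ((sup_le (fun g hg => nrm_iff.2 (hV g hg)) fun g hg => nrm_iff.2 (h.nrm f g (mem_sup_right hg)) :
        P ⊔ Q ≤ normalizer (V : Set G)) hg)
  rw [(h.sub f' f.r (le_sup_right.trans hE)).resolve_left f.ne.symm]
  exact le_sup_left.trans hE

theorem pb_le (h : Cf q N) (a : PB q N x y V Q) (h1 : P ≤ N x) (h2 : IsPGroup 2 P) (k : y ∈ FS P) : P ≤ V ⊔ Q :=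
  le_of_nrm (h.pl x) a.1 h1 h2 (fun g hg => (a.2.2 g (h1 hg) (k g hg)).1) fun g hg => (a.2.2 g (h1 hg) (k g hg)).2

theorem isP (h : Pl q M) (f : Flag q M V Q) : IsPGroup 2 (V ⊔ Q : Subgroup G) := by
  obtain ⟨n, -, e⟩ := h.pow
  exact IsPGroup.of_card (n := n * 3) (by rw [h.cardU f, e, pow_mul])

theorem pb_uniq (h : Cf q N) (a : PB q N x y V Q) (b : PB q N x y V' Q') : V ⊔ Q = V' ⊔ Q' :=
  le_antisymm (pb_le h b a.1.sup_le (isP (h.pl x) a.1) a.2.1) (pb_le h a b.1.sup_le (isP (h.pl x) b.1) b.2.1)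

theorem pb_cj (h : Cf q N) (a : PB q N x y V Q) (g : G) : PB q N (g • x) (g • y) (cj g V) (cj g Q) :=
  ⟨h.conj g x ▸ a.1.cj g, cj_sup g V Q ▸ fs_cj a.2.1 g, fun _ hk e =>
    (a.2.2 _ (back h hk e).1 (back h hk e).2).imp cj_back cj_back⟩

end BB

open BP BB Subgroup

theorem cb_of {Ω : Type*} [MulAction G Ω] [Finite Ω] {q : ℕ} {N : Ω → Subgroup G} (h : Cf q N)
    (hb : ∀ x y, x ≠ y → ∃ V Q, PB q N x y V Q) : ∃ ψ m, CB q N ψ m := by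
  choose! A B hψ using hb
  obtain ⟨ψ, eψ⟩ : ∃ ψ : Ω → Ω → Subgroup G, ∀ x y, ψ x y = A x y ⊔ B x y := ⟨_, fun _ _ => rfl⟩
  have fl : ∀ {x y}, x ≠ y → ∃ V Q, Flag q (N x) V Q ∧ ψ x y = V ⊔ Q := fun e => ⟨_, _, (hψ _ _ e).1, eψ _ _⟩
  have eqv : ∀ {x y}, x ≠ y → ∀ g : G, ψ (g • x) (g • y) = cj g (ψ x y) := fun e g => by
    rw [eψ, eψ, cj_sup, pb_uniq h (hψ _ _ (ne_smul e g)) (pb_cj h (hψ _ _ e) g)]
  have fixiff : ∀ {x y}, x ≠ y → ∀ P ≤ N x, IsPGroup 2 P → (y ∈ FS P ↔ P ≤ ψ x y) := fun e P h1 h2 => by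
    rw [eψ]
    exact ⟨pb_le h (hψ _ _ e) h1 h2, fun k g hg => (hψ _ _ e).2.1 g (k hg)⟩
  have fixel : ∀ {x y}, x ≠ y → ∀ h ∈ N x, h * h = 1 → (h • y = y ↔ h ∈ ψ x y) := fun e g hg g2 => by
    rw [← zpowers_le, ← fixiff e _ (zpowers_le.2 hg) (pz g2), fs_iff, zpowers_le]; rfl
  have surj : ∀ {x V Q}, Flag q (N x) V Q → ∃ y, x ≠ y ∧ ψ x y = V ⊔ Q := fun {x V Q} f => by
    obtain ⟨y, e⟩ := ex_ne h x
    obtain ⟨g, hg, k⟩ := (h.pl x).flagc (hψ _ _ e).1 f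
    refine ⟨g • y, ne_fix e (h.fix _ g hg), ?_⟩
    have := eqv e g
    rw [h.fix _ g hg] at this
    rw [this, eψ, cj_sup]
    rcases k with k | k <;> rw [k.1, k.2]
    exact sup_comm _ _
  obtain ⟨m, mpos, cnt⟩ := cnt h eqv
  replace cnt : ∀ x (S : Set (Subgroup G)), (∀ U ∈ S, ∃ V Q, Flag q (N x) V Q ∧ U = V ⊔ Q) →
      Set.ncard {y | x ≠ y ∧ ψ x y ∈ S} = m * Set.ncard S := fun x S hS => cnt x S fun U hU => by
    obtain ⟨V, Q, f, rfl⟩ := hS U hU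
    exact surj f
  have fx : ∀ {x V}, V ≤ N x → x ∈ FS V := fun k g hg => h.fix _ g (k hg)
  have fixz : ∀ {x V Q}, Flag q (N x) V Q → ∀ z ∈ V ⊓ Q, z ≠ 1 → (Fx z : Set Ω) = FS V ∪ FS Q :=
    fun {x V Q} f z hz z1 => by
      ext p
      refine ⟨fun k => ?_, fun k => k.elim (fun k => k z hz.1) fun k => k z hz.2⟩
      by_cases e : x = p
      · exact .inl (e ▸ fx f.l.le)
      obtain ⟨V', Q', f', k'⟩ := fl e
      have z2 := f.l.sq z hz.1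
      have hp := fs_sup.1 ((fixiff e _ f'.sup_le (isP (h.pl x) f')).2 k'.ge)
      rcases (h.pl x).invU f' z (k' ▸ (fixel e z (f.l.le hz.1) z2).1 k) z2 with k1 | k1
      · rcases (h.pl x).radz f f'.l z hz z1 k1 with rfl | rfl
        exacts [.inl hp.1, .inr hp.1]
      · rcases (h.pl x).radz f f'.r z hz z1 k1 with rfl | rfl
        exacts [.inl hp.2, .inr hp.2]
  have cardU : ∀ {x V Q}, Flag q (N x) V Q → Set.ncard (FS V ∩ FS Q : Set Ω) = 1 + m := fun {x V Q} f => by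
    rw [show m = m * Set.ncard {V ⊔ Q} by simp, ← cnt x {V ⊔ Q} fun E k => ⟨V, Q, f, k⟩]
    refine one_add (T := FS V ∩ FS Q) ⟨fx f.l.le, fx f.r.le⟩ fun p e => ?_
    refine (fs_sup.symm.trans (fixiff e _ f.sup_le (isP (h.pl x) f))).trans ⟨fun k => ?_, fun k => k.ge⟩
    obtain ⟨V', Q', f', k'⟩ := fl e
    exact (eq_of_le_of_card_ge k (by rw [k', (h.pl x).cardU f, (h.pl x).cardU f'])).symm
  have cardV : ∀ {x V}, Rad q (N x) V → Set.ncard (FS V : Set Ω) = 1 + m * (q + 1) := fun {x V} r => by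
    rw [← (h.pl x).line r, ← Set.InjOn.ncard_image (s := {Q | Flag q (N x) V Q}) (f := (V ⊔ ·)) fun Q f Q' f' k =>
      ((h.pl x).sub f' f.r (le_sup_right.trans (le_of_eq k))).resolve_left f.ne.symm,
      ← cnt x ((V ⊔ ·) '' {Q | Flag q (N x) V Q}) fun E ⟨Q, f, k⟩ => ⟨V, Q, f, k.symm⟩]
    refine one_add (fx r.le) fun p e => (fixiff e _ r.le r.isP).trans ⟨fun k => ?_, fun ⟨Q, _, k⟩ => k ▸ le_sup_left⟩
    obtain ⟨V', Q', f', k'⟩ := fl e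
    rcases (h.pl x).sub f' r (k' ▸ k) with rfl | rfl
    exacts [⟨Q', f', k'.symm⟩, ⟨V', f'.symm, (sup_comm _ _).trans k'.symm⟩]
  refine ⟨ψ, m, h, fl, eqv, fixiff, fixel, fun {x y} e g hg g2 k => ?_, surj, mpos, cnt, fixz, ?_, cardU, cardV,
    fun x z hz z2 z1 => ?_⟩
  · obtain ⟨V, Q, f, k'⟩ := fl e
    rw [k'] at k ⊢
    have f' := f.cj' (cj_eq_of_mem hg)
    exact le_of_nrm (h.pl x) f (zpowers_le.2 hg) (pz g2)
      (cj_zp (((h.pl x).sub f f'.l (k ▸ cj_mono le_sup_left)).resolve_right ((h.pl x).type f g hg)))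
      (cj_zp (((h.pl x).sub f f'.r (k ▸ cj_mono le_sup_right)).resolve_left ((h.pl x).type f.symm g hg)))
      (mem_zpowers g)
  · obtain ⟨x, -⟩ := h.ne
    rw [← Set.ncard_univ, ← (h.pl x).nsyl, ← cnt x {U | ∃ V Q, Flag q (N x) V Q ∧ U = V ⊔ Q} fun E k => k]
    exact one_add (Set.mem_univ x) fun p e => ⟨fun _ => fl e, fun _ => trivial⟩
  · obtain ⟨V, Q, f, k⟩ := (h.pl x).inv z hz z2 z1
    have := Set.ncard_union_add_ncard_inter (FS V : Set Ω) (FS Q)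
    rw [← fixz f z k z1, cardU f, cardV f.l, cardV f.r] at this
    have : m * (2 * q + 1) + m = m * (q + 1) + m * (q + 1) := by ring
    omega

end H45.HL
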