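import Cfsg.Agent.Lib.HL3.BPa

/-! Case P: the radical of a two-point stabiliser. -/

namespace H45.HL

variable {G : Type*} [Group G] [Finite G]

namespace BP

open Subgroup

variable {Ω : Type*} [MulAction G Ω] {q : ℕ} {N : Ω → Subgroup G} {x y : Ω} {Q Q' : Subgroup G}

omit [Finite G]

theorem pp_fix (h : Cf q N) (a : PP q N x y Q) : y ∈ FS Q := fun s hs => by
  by_cases e : s = 1
  · rw [e, one_smul]
  · obtain ⟨V, f, hV⟩ := (h.pl x).thru a.1 s hs e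
    exact a.2.1 V f.symm s hV

theorem pp_uniq (h : Cf q N) (a : PP q N x y Q) (b : PP q N x y Q') : Q = Q' := by
  obtain ⟨E, f, hE⟩ := (h.pl x).norm b.1 Q a.1.le a.1.isP fun g hg => b.2.2 g (a.1.le hg) (pp_fix h a g hg)
  refine ((h.pl x).sub f a.1 hE).elim id ?_
  rintro rfl
  obtain ⟨V, f', n, -⟩ := (h.pl x).third a.1 Q' Q'
  obtain ⟨g, hg, e⟩ := (h.pl x).same f.symm f'
  exact (n ((h.pl x).nn b.1 g hg e fun v hv => b.2.2 v (f'.r.le hv) (a.2.1 V f'.symm v hv))).elim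

theorem pp_cj (h : Cf q N) (a : PP q N x y Q) (g : G) : PP q N (g • x) (g • y) (cj g Q) :=
  ⟨h.conj g x ▸ a.1.cj g, fun V f => cj_cj_inv g V ▸ fs_cj (a.2.1 _ (by
      simpa only [← h.conj g x, cj_inv_cj] using f.cj g⁻¹)) g,
    fun k hk e => cj_back (a.2.2 _ (back h hk e).1 (back h hk e).2)⟩

theorem typ [Finite Ω] (h : Cf q N) {φ : Ω → Ω → Subgroup G} (rad : ∀ {x y}, x ≠ y → Rad q (N x) (φ x y))
    (eqv : ∀ {x y}, x ≠ y → ∀ g : G, φ (g • x) (g • y) = cj g (φ x y)) {y' : Ω} (e : x ≠ y) (e' : x ≠ y') :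
    ∃ g ∈ N x, cj g (φ x y) = φ x y' := by
  by_contra hn
  let R : Subgroup G → Subgroup G → Prop := fun A B => ∃ g ∈ N x, cj g A = B
  have sy : ∀ {A B}, R A B → R B A := fun ⟨g, hg, e⟩ => ⟨g⁻¹, inv_mem hg, cj_inv_eq e⟩
  have tr : ∀ {A B C}, R A B → R B C → R A C := fun ⟨g, hg, e⟩ ⟨k, hk, e'⟩ =>
    ⟨k * g, mul_mem hk hg, by rw [cj_mul, e, e']⟩
  have cv : ∀ g : G, g • x = x → ∀ {A B}, R A B → R (cj g A) (cj g B) := fun g hg A B ⟨k, hk, e⟩ =>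
    ⟨g * k * g⁻¹, conj_mem_of_cj ((h.conj g x).trans (by rw [hg])) hk, by rw [cj_mul, cj_inv_cj, cj_mul, e]⟩
  obtain ⟨g, g1, rfl⟩ := h.two x y x y' e e'
  have ev : ∀ p, x ≠ p → φ x (g • p) = cj g (φ x p) := fun p hp => by rw [← eqv hp, g1]
  obtain ⟨V, f, -⟩ := (h.pl x).third (rad e) ⊥ ⊥
  have tw : ∀ p, x ≠ p → ¬ R (φ x y) (φ x p) → R V (φ x p) := fun p hp n =>
    ((h.pl x).two f (rad hp)).resolve_left n
  have h1 : Set.ncard {p | x ≠ p ∧ R (φ x y) (φ x p)} ≤ Set.ncard {p | x ≠ p ∧ ¬ R (φ x y) (φ x p)} :=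
    Set.ncard_le_ncard_of_injOn (g • ·) (fun p hp => ⟨ne_fix hp.1 g1, fun k => hn (tr k (sy (by
      rw [ev p hp.1, ev y e]; exact cv g g1 hp.2)))⟩) (MulAction.injective g).injOn
  have h2 : Set.ncard {p | x ≠ p ∧ ¬ R (φ x y) (φ x p)} ≤ Set.ncard {p | x ≠ p ∧ R (φ x y) (φ x p)} :=
    Set.ncard_le_ncard_of_injOn (g • ·) (fun p hp => ⟨ne_fix hp.1 g1, by
      by_contra k
      have := cv g⁻¹ (inv_smul_eq_iff.2 g1.symm) (tr (sy (tw _ e' hn)) (tw _ (ne_fix hp.1 g1) k))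
      rw [ev p hp.1, ev y e, cj_inv_cj, cj_inv_cj] at this
      exact hp.2 this⟩) (MulAction.injective g).injOn
  have h3 := one_add (P := fun _ => True) (Set.mem_univ x) fun _ _ => Iff.rfl
  rw [Set.ncard_univ, show {p | x ≠ p ∧ True} = {p | x ≠ p ∧ R (φ x y) (φ x p)} ∪ {p | x ≠ p ∧ ¬ R (φ x y) (φ x p)} by
    ext p; simp only [Set.mem_ofPred_eq, Set.mem_union, ← and_or_left, em],
    Set.ncard_union_eq (Set.disjoint_left.2 fun p h1 h2 => h2.2 h1.2)] at h3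
  obtain ⟨k, hk⟩ := h.even
  omega

end BP

open BP Subgroup

theorem cp_of {Ω : Type*} [MulAction G Ω] [Finite Ω] {q : ℕ} {N : Ω → Subgroup G} (h : Cf q N)
    (hp : ∀ x y, x ≠ y → ∃ Q, PP q N x y Q) : ∃ φ m, CP q N φ m := by
  choose! φ hφ using hp
  have rad : ∀ {x y}, x ≠ y → Rad q (N x) (φ x y) := fun e => (hφ _ _ e).1
  have eqv : ∀ {x y}, x ≠ y → ∀ g : G, φ (g • x) (g • y) = cj g (φ x y) := fun e g =>
    pp_uniq h (hφ _ _ (ne_smul e g)) (pp_cj h (hφ _ _ e) g)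
  have ev : ∀ {x y}, x ≠ y → ∀ g ∈ N x, x ≠ g • y ∧ φ x (g • y) = cj g (φ x y) := fun e g hg =>
    ⟨ne_fix e (h.fix _ g hg), by rw [← eqv e, h.fix _ g hg]⟩
  have fixiff : ∀ {x y}, x ≠ y → ∀ P ≤ N x, IsPGroup 2 P → (y ∈ FS P ↔ ∀ h ∈ P, cj h (φ x y) = φ x y) :=
    fun {x y} e P h1 h2 => ⟨fun k g hg => (hφ _ _ e).2.2 g (h1 hg) (k g hg), fun k => by
      obtain ⟨E, f, hE⟩ := (h.pl x).norm (rad e) P h1 h2 k
      exact fs_iff.2 (hE.trans (fs_sup.2 ⟨pp_fix h (hφ _ _ e), (hφ _ _ e).2.1 E f.symm⟩))⟩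
  have typ : ∀ {x y y'}, x ≠ y → x ≠ y' → ∃ g ∈ N x, cj g (φ x y) = φ x y' := typ h rad eqv
  have surj : ∀ {x y V Q}, x ≠ y → Flag q (N x) V (φ x y) → Flag q (N x) V Q → ∃ y', x ≠ y' ∧ φ x y' = Q :=
    fun {x y V Q} e f f' => by
      obtain ⟨g, hg, k⟩ := (h.pl x).same f f'
      exact ⟨g • y, k ▸ ev e g hg⟩
  obtain ⟨m, mpos, cnt⟩ := cnt h eqv
  have fixQ : ∀ {x y y'}, x ≠ y → x ≠ y' → (y' ∈ FS (φ x y) ↔ φ x y' = φ x y) := fun {x y y'} e e' =>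
    ⟨fun k => by
      obtain ⟨g, hg, k'⟩ := typ e' e
      exact ((h.pl x).nn (rad e') g hg k' ((fixiff e' _ (rad e).le (rad e).isP).1 k)).symm,
    fun k => k ▸ pp_fix h (hφ _ _ e')⟩
  have fixV : ∀ {x y y' V}, x ≠ y → x ≠ y' → Flag q (N x) V (φ x y) → ∀ z ∈ V, z ≠ 1 →
      (z • y' = y' ↔ Flag q (N x) V (φ x y')) := fun {x y y' V} e e' f z hz z1 => by
    refine ⟨fun k => ?_, fun f' => (hφ _ _ e').2.1 V f' z hz⟩
    have z2 := f.l.sq z hz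
    obtain ⟨g, hg, k'⟩ := typ e e'
    obtain ⟨E, f', hE⟩ := (h.pl x).norm (rad e') (zpowers z) (zpowers_le.2 (f.l.le hz)) (pz z2)
      (cj_zp ((hφ _ _ e').2.2 z (f.l.le hz) k))
    rcases (h.pl x).invU f' z (hE (mem_zpowers z)) z2 with k1 | k1
    · exact ⟨f.l, rad e', fun k2 => (h.pl x).type f.symm g hg (k'.trans k2.symm), z, hz, k1, z1⟩
    obtain ⟨Q, f2, hQ⟩ := (h.pl x).thru f'.r z k1 z1
    rcases (h.pl x).radz f2 f.l z ⟨k1, hQ⟩ z1 hz with rfl | rfl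
    · exact f'.symm
    obtain ⟨g', hg', k2⟩ := (h.pl x).same f'.symm f2
    exact ((h.pl x).type f.symm (g' * g) (mul_mem hg' hg) (by rw [cj_mul, k', k2])).elim
  have lineV : ∀ x, ∀ z ∈ N x, z * z = 1 → z ≠ 1 → ∃ V y, x ≠ y ∧ Flag q (N x) V (φ x y) ∧ z ∈ V ⊓ φ x y :=
    fun x z hz z2 z1 => by
      obtain ⟨V, Q, f, k⟩ := (h.pl x).inv z hz z2 z1
      obtain ⟨y, e⟩ := ex_ne h x
      rcases (h.pl x).two f (rad e) with ⟨g, hg, k'⟩ | ⟨g, hg, k'⟩ <;> obtain ⟨e1, e2⟩ := ev e _ (inv_mem hg) <;>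
        rw [cj_inv_eq k'] at e2
      exacts [⟨Q, _, e1, e2 ▸ f.symm, e2 ▸ ⟨k.2, k.1⟩⟩, ⟨V, _, e1, e2 ▸ f, e2 ▸ k⟩]
  refine ⟨φ, m, h, rad, eqv, fixiff, fun {x y} e g hg g2 => ⟨(hφ _ _ e).2.2 g hg, fun k =>
    (fixiff e _ (zpowers_le.2 hg) (pz g2)).2 (cj_zp k) g (mem_zpowers g)⟩, typ, surj, mpos, cnt, fixQ, fixV, lineV,
    ?_, fun {x y} e => ?_, fun x z hz z2 z1 => ?_, fun {x y V} e f z hz z1 => ?_⟩
  · obtain ⟨x, y, e⟩ := h.ne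
    rw [← Set.ncard_univ, ← (h.pl x).pts (rad e),
      ← cnt x {E' | ∃ g ∈ N x, cj g (φ x y) = E'} fun E ⟨g, hg, k⟩ => ⟨g • y, k ▸ ev e g hg⟩]
    exact one_add (Set.mem_univ x) fun p e' => ⟨fun _ => typ e e', fun _ => trivial⟩
  · rw [show m = m * Set.ncard {φ x y} by simp, ← cnt x {φ x y} fun E k => ⟨y, e, k.symm⟩]
    exact one_add (T := FS (φ x y)) (fun g hg => h.fix x g ((rad e).le hg)) fun p e' => fixQ e e'
  · obtain ⟨V, y, e, f, k⟩ := lineV x z hz z2 z1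
    rw [← (h.pl x).line f.l, ← cnt x {Q | Flag q (N x) V Q} fun E k => surj e f k]
    exact one_add (T := Fx z) (h.fix x z hz) fun p e' => fixV e e' f z k.1 z1
  · ext p
    refine ⟨fun k => ?_, fun k => k z hz⟩
    by_cases e' : x = p
    · exact fun g hg => e' ▸ h.fix x g (f.l.le hg)
    · exact (hφ _ _ e').2.1 V ((fixV e e' f z hz z1).1 k)

end H45.HL
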