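import Cfsg.Agent.Lib.HL3.Defs

/-! Common tools for the packages BP and BB. -/

namespace H45.HL.BP

open Subgroup

variable {G : Type*} [Group G] {Ω : Type*} [MulAction G Ω] {q : ℕ} {N : Ω → Subgroup G}

theorem fs_iff {E : Subgroup G} {y : Ω} : y ∈ FS E ↔ E ≤ MulAction.stabilizer G y := Iff.rfl

theorem fs_sup {A B : Subgroup G} {y : Ω} : y ∈ FS (A ⊔ B) ↔ y ∈ FS A ∧ y ∈ FS B := by
  rw [fs_iff, sup_le_iff]; rfl

theorem fs_cj {E : Subgroup G} {y : Ω} (h : y ∈ FS E) (g : G) : g • y ∈ FS (cj g E) := by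
  rintro _ ⟨v, hv, rfl⟩
  change (g * v * g⁻¹) • g • y = g • y
  rw [mul_smul, inv_smul_smul, mul_smul, h v hv]

theorem nrm_iff {E : Subgroup G} {g : G} : g ∈ normalizer (E : Set G) ↔ cj g E = E := by
  rw [mem_normalizer_iff]
  refine ⟨fun h => Subgroup.ext fun x => ?_, fun h x => by rw [← conj_mem_cj (g := g), h]⟩
  rw [mem_cj, h]; simp [mul_assoc]

theorem pz {z : G} (h : z * z = 1) : IsPGroup 2 (zpowers z) := by
  rintro ⟨_, n, rfl⟩
  refine ⟨1, Subtype.ext ?_⟩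
  change (z ^ n) ^ 2 ^ 1 = 1
  rw [pow_one, pow_two, ← (Commute.refl z).mul_zpow, h, one_zpow]

theorem cj_zp {z : G} {E : Subgroup G} (h : cj z E = E) : ∀ k ∈ zpowers z, cj k E = E := fun _ hk =>
  nrm_iff.1 (zpowers_le.2 (nrm_iff.2 h) hk)

theorem ex_ne (h : Cf q N) (x : Ω) : ∃ y, x ≠ y := by
  obtain ⟨a, b, e⟩ := h.ne
  by_cases k : x = a
  exacts [⟨b, k ▸ e⟩, ⟨a, k⟩]

theorem ne_smul {x y : Ω} (e : x ≠ y) (g : G) : g • x ≠ g • y := fun k => e (smul_left_cancel g k)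

theorem ne_fix {x y : Ω} {g : G} (e : x ≠ y) (hg : g • x = x) : x ≠ g • y := hg ▸ ne_smul e g

theorem back (h : Cf q N) {x y : Ω} {g k : G} (hk : k ∈ N (g • x)) (e : k • g • y = g • y) :
    g⁻¹ * k * g ∈ N x ∧ (g⁻¹ * k * g) • y = y :=
  ⟨mem_cj.1 (h.conj g x ▸ hk), by rw [mul_smul, mul_smul, e, inv_smul_smul]⟩

theorem cj_back {g k : G} {E : Subgroup G} (e : cj (g⁻¹ * k * g) E = E) : cj k (cj g E) = cj g E := by
  rw [← cj_mul, show k * g = g * (g⁻¹ * k * g) by group, cj_mul, e]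

variable [Finite G] [Finite Ω]

theorem cnt (h : Cf q N) {φ : Ω → Ω → Subgroup G}
    (eqv : ∀ {x y}, x ≠ y → ∀ g : G, φ (g • x) (g • y) = cj g (φ x y)) : ∃ m, 1 ≤ m ∧
    ∀ x (S : Set (Subgroup G)), (∀ E ∈ S, ∃ y, x ≠ y ∧ φ x y = E) →
      Set.ncard {y | x ≠ y ∧ φ x y ∈ S} = m * Set.ncard S := by
  obtain ⟨a, b, e⟩ := h.ne
  have k : ∀ x y, x ≠ y → Set.ncard {p | x ≠ p ∧ φ x p = φ x y} = Set.ncard {p | a ≠ p ∧ φ a p = φ a b} := by
    intro x y e'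
    obtain ⟨g, rfl, rfl⟩ := h.two a b x y e e'
    rw [← Set.ncard_image_of_injective {p | a ≠ p ∧ φ a p = φ a b} (MulAction.injective g)]
    congr 1
    ext p
    obtain ⟨p, rfl⟩ := MulAction.surjective g p
    rw [(MulAction.injective g).mem_set_image, eqv e]
    exact ⟨fun ⟨h1, h2⟩ => have h3 : a ≠ p := fun k => h1 (k ▸ rfl); ⟨h3, cj_inj ((eqv h3 g).symm.trans h2)⟩,
      fun ⟨h1, h2⟩ => ⟨ne_smul h1 g, by rw [eqv h1, h2]⟩⟩
  refine ⟨_, (Set.ncard_pos (s := {p | a ≠ p ∧ φ a p = φ a b})).2 ⟨b, e, rfl⟩, fun x S hS => ?_⟩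
  induction S, S.toFinite using Set.Finite.induction_on with
  | empty => simp
  | @insert E S hE hf ih =>
    obtain ⟨y, e', rfl⟩ := hS E (Set.mem_insert _ _)
    rw [Set.ncard_insert_of_notMem hE, mul_add, mul_one, ← ih fun E hE => hS E (Set.mem_insert_of_mem _ hE),
      ← k x y e', ← Set.ncard_union_eq (s := {p | x ≠ p ∧ φ x p ∈ S}) (t := {p | x ≠ p ∧ φ x p = φ x y})
        (Set.disjoint_left.2 fun p h1 h2 => hE (h2.2 ▸ h1.2))]
    congr 1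
    ext p
    simp only [Set.mem_ofPred_eq, Set.mem_insert_iff, Set.mem_union]
    tauto

omit [Finite G] in
theorem one_add {T : Set Ω} {x : Ω} {P : Ω → Prop} (hx : x ∈ T) (e : ∀ y, x ≠ y → (y ∈ T ↔ P y)) :
    T.ncard = 1 + Set.ncard {y | x ≠ y ∧ P y} := by
  rw [add_comm, ← Set.ncard_insert_of_notMem (a := x) (fun h => h.1 rfl)]
  congr 1
  ext p
  by_cases k : x = p
  · simp [← k, hx]
  · simp [k, Ne.symm k, e p k]

end H45.HL.BP
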