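import Cfsg.Agent.Lib.HL3.Defs

namespace H45.HL

open Subgroup

variable {G : Type*} [Group G] [Finite G]

namespace CB1

theorem fixp {T D : Subgroup G} (hT : IsPGroup 2 T) (hD : IsPGroup 2 D)
    (n : ∀ t ∈ T, ∀ d ∈ D, t * d * t⁻¹ ∈ D) (h1 : D ≠ ⊥) : ∃ x ∈ D, x ≠ 1 ∧ Cz x T := by
  let X := {x : G // x ∈ D}
  let act : MulAction T X :=
    { smul := fun t x => ⟨t * x * (t : G)⁻¹, n _ t.2 _ x.2⟩
      one_smul := fun x => Subtype.ext (by show ((1 : T) : G) * x * ((1 : T) : G)⁻¹ = x; simp)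
      mul_smul := fun a b x => Subtype.ext (by
        show ((a * b : T) : G) * x * ((a * b : T) : G)⁻¹ = a * (b * x * (b : G)⁻¹) * (a : G)⁻¹
        simp [mul_assoc]) }
  have hd : 2 ∣ Nat.card X := (hD.card_eq_or_dvd).resolve_left fun e => h1 (card_eq_one.1 e)
  obtain ⟨y, hy, hne⟩ := hT.exists_fixed_point_of_prime_dvd_card_of_fixed_point X hd
    (a := ⟨1, D.one_mem⟩) fun t => Subtype.ext (by show (t : G) * 1 * (t : G)⁻¹ = 1; simp)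
  exact ⟨y, y.2, fun e => hne (Subtype.ext e.symm), fun t ht =>
    (mul_inv_eq_iff_eq_mul.1 (congrArg Subtype.val (hy ⟨t, ht⟩) : t * (y : G) * t⁻¹ = y)).symm⟩

section Plane

variable {q : ℕ} {N V Q : Subgroup G}

theorem exV (f : Flag q N V Q) : ∃ v ∈ V, v ∉ Q :=
  SetLike.not_le_iff_exists.1 fun l => f.ne (f.l.eq_of_le f.r l)

theorem cjcj {t : G} (e : t * t = 1) (E : Subgroup G) : cj t (cj t E) = E := by rw [← cj_mul, e, cj_one]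

variable (p : Pl q N) (f : Flag q N V Q)
include p f

theorem isP : IsPGroup 2 (V ⊔ Q : Subgroup G) := by
  obtain ⟨n, -, e⟩ := p.pow
  exact IsPGroup.of_card (n := n * 3) (by rw [p.cardU f, e, pow_mul])

theorem zU {z : G} (hz : z ∈ V ⊔ Q) (c : Cz z (V ⊔ Q)) : z ∈ V ⊓ Q := by
  have k : ∀ {V Q}, Flag q N V Q → z ∈ V ⊔ Q → Cz z (V ⊔ Q) → z ∈ V := fun {V Q} f hz c => by
    obtain ⟨v, hv, y, hy, rfl⟩ := p.memU f _ hz
    obtain ⟨v', hv', n⟩ := exV f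
    refine V.mul_mem hv ((p.pair f v' hv' y hy ?_).resolve_left n)
    have := c v' (mem_sup_left hv')
    rw [← mul_assoc, f.l.comm hv' hv, mul_assoc, mul_assoc, mul_right_inj] at this
    exact this.symm
  exact ⟨k f hz c, k f.symm (sup_comm V Q ▸ hz) (sup_comm V Q ▸ c)⟩

theorem nv {Q1 : Subgroup G} (f1 : Flag q N V Q1) (n : Q1 ≠ Q) {y : G} (hy : y ∈ Q) (e : cj y Q1 = Q1) :
    y ∈ V := by
  obtain ⟨v, a, b, c⟩ := f1.meet
  have m := p.comm f v a y hy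
  have : v * y * v⁻¹ * y⁻¹ = 1 := p.disj f f1 n _ m.1 m.2 (by
    simpa [mul_assoc] using Q1.mul_mem b (conj_mem_of_cj e (Q1.inv_mem b)))
  exact (p.pair f v a y hy (by simpa [mul_inv_eq_iff_eq_mul] using this)).resolve_left
    fun hv => c (p.disj f f1 n v a hv b)

theorem perm {g : G} (hg : cj g N = N) (e : cj g (V ⊔ Q) = V ⊔ Q) : cj g V = V ∨ cj g V = Q :=
  p.sub f (f.cj' hg).l (e ▸ cj_mono le_sup_left)

/-- an element fixing all Sylow subgroups on `V` -/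
theorem allV {g : G} (hg : cj g N = N) (e : ∀ Q1, Flag q N V Q1 → cj g (V ⊔ Q1) = V ⊔ Q1) :
    cj g V = V ∧ (∀ Q1, Flag q N V Q1 → cj g Q1 = Q1) ∧ ∀ y ∈ Q, g * y * g⁻¹ * y⁻¹ ∈ V := by
  obtain ⟨Q1, f1, n, -⟩ := p.third f.l Q Q
  have a : cj g V = V := (perm p f hg (e Q f)).elim id fun a =>
    (perm p f1 hg (e Q1 f1)).resolve_right fun b => n (b.symm.trans a)
  have b : ∀ Q1, Flag q N V Q1 → cj g Q1 = Q1 := fun Q1 f1 =>
    (perm p f1.symm hg (sup_comm V Q1 ▸ e Q1 f1)).resolve_right fun b => f1.ne (cj_inj (a.trans b.symm))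
  refine ⟨a, b, fun y hy => ?_⟩
  have m := conj_mem_of_cj (b Q f) hy
  rw [f.r.comm m (Q.inv_mem hy)]
  refine nv p f f1 n (Q.mul_mem (Q.inv_mem hy) m) ?_
  have f2 := f1.cj' (cj_eq_of_mem (f.r.le hy))
  rw [p.nrm f y (mem_sup_right hy)] at f2
  rw [cj_mul, cj_mul, cj_mul, cj_inv_eq (b Q1 f1), b _ f2, cj_inv_cj]

theorem czW {g : G} (a : cj g V = V) (b : cj g Q = Q) (hv : ∀ v ∈ V, g * v * g⁻¹ * v⁻¹ ∈ Q)
    (hy : ∀ y ∈ Q, g * y * g⁻¹ * y⁻¹ ∈ V) : Cz g (V ⊓ Q) := fun w hw => by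
  obtain ⟨v, v1, v2⟩ := exV f
  obtain ⟨y, y1, rfl⟩ := p.onto f v v1 v2 w hw
  have r1 := V.mul_mem (conj_mem_of_cj a v1) (V.inv_mem v1)
  have s1 := Q.mul_mem (conj_mem_of_cj b y1) (Q.inv_mem y1)
  have r2 := hv v v1
  have s2 := hy y y1
  rw [← mul_inv_eq_iff_eq_mul, show g * (v * y * v⁻¹ * y⁻¹) * g⁻¹ = g * v * g⁻¹ * v⁻¹ * v *
    (g * y * g⁻¹ * y⁻¹ * y) * (g * v * g⁻¹ * v⁻¹ * v)⁻¹ * (g * y * g⁻¹ * y⁻¹ * y)⁻¹ by group]
  generalize g * v * g⁻¹ * v⁻¹ = r at *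
  generalize g * y * g⁻¹ * y⁻¹ = s at *
  rw [f.l.comm r1 v1, show v * r * (s * y) * (v * r)⁻¹ = v * (r * (s * y)) * r⁻¹ * v⁻¹ by group,
    f.r.comm r2 (Q.mul_mem s1 y1), f.r.comm s1 y1,
    show v * (y * s * r) * r⁻¹ * v⁻¹ * (y * s)⁻¹ = v * y * (s * v⁻¹) * s⁻¹ * y⁻¹ by group,
    f.l.comm s2 (V.inv_mem v1)]
  group

/-- an involution inducing a polarity has less than five absolute points when `q = 2` -/
theorem abs5 (q2 : q = 2) {t : G} (e : t * t = 1) (hN : cj t N = N) :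
    Set.ncard {E | (∃ g ∈ N, cj g Q = E) ∧ Flag q N (cj t E) E} < 5 := by
  by_contra! h5
  set A := {E | (∃ g ∈ N, cj g Q = E) ∧ Flag q N (cj t E) E} with hA
  have c7 := p.pts f.r
  have c2 := Set.ncard_diff (s := A) (t := {E | ∃ g ∈ N, cj g Q = E}) fun E h => h.1
  have k : ∀ E ∈ A, {E' | Flag q N (cj t E) E'} \ {E} = {E | ∃ g ∈ N, cj g Q = E} \ A ∧
      ({E' | Flag q N (cj t E) E'} \ {E}).ncard = 2 := fun E hE => by
    have c : ({E' | Flag q N (cj t E) E'} \ {E}).ncard = 2 := by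
      rw [Set.ncard_diff_singleton_of_mem (s := {E' | Flag q N (cj t E) E'}) hE.2, p.line hE.2.l, q2]
    refine ⟨Set.eq_of_subset_of_ncard_le (fun E' h => ⟨?_, fun h' => h.2 ?_⟩) (by
      rw [c, c2, c7, q2]; omega), c⟩
    · obtain ⟨g, hg, rfl⟩ := hE.1
      obtain ⟨g', hg', rfl⟩ := p.same hE.2 h.1
      exact ⟨_, N.mul_mem hg' hg, cj_mul _ _ _⟩
    · by_contra n
      have f1 := Flag.cj' h.1 hN
      rw [cjcj e] at f1
      exact n (cj_inj (p.juniq h'.2 f1.symm h.1 hE.2 n))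
  obtain ⟨E, hE, E', hE', n⟩ := (Set.one_lt_ncard (s := A)).1 (by omega)
  obtain ⟨X, Y, n', e2⟩ := Set.ncard_eq_two.1 (k E hE).2
  have e3 := (k E' hE').1.trans ((k E hE).1.symm.trans e2)
  exact n (cj_inj (p.juniq (e2.ge (Or.inl rfl)).1 (e2.ge (Or.inr rfl)).1 (e3.ge (Or.inl rfl)).1
    (e3.ge (Or.inr rfl)).1 n'))

end Plane

variable {Ω : Type*} [MulAction G Ω] [Finite Ω] {q m : ℕ} {N : Ω → Subgroup G} {ψ : Ω → Ω → Subgroup G}
  (h : CB q N ψ m) {a b : Ω}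
include h

omit [Finite G] [Finite Ω] in
theorem cjN {g : G} (e : g • a = a) : cj g (N a) = N a := by rw [h.conj, e]

omit [Finite G] [Finite Ω]  in
theorem cjψ (n : a ≠ b) {g : G} (e : g • a = a) (e' : g • b = b) : cj g (ψ a b) = ψ a b := by
  rw [← h.eqv n, e, e']

omit [Finite Ω] in
theorem bas (n : a ≠ b) : IsPGroup 2 (ψ a b) ∧ ψ a b ≤ N a ∧ ∀ g ∈ ψ a b, g • a = a ∧ g • b = b := by
  obtain ⟨V, Q, f, e⟩ := h.fl n
  have p : IsPGroup 2 (ψ a b) := e ▸ isP (h.pl a) f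
  have l : ψ a b ≤ N a := e ▸ f.sup_le
  exact ⟨p, l, fun g hg => ⟨h.fix a g (l hg), (h.fixiff n _ l p).2 le_rfl g hg⟩⟩

omit [Finite Ω] in
theorem nψ (n : a ≠ b) {g x : G} (hg : g ∈ ψ a b) (hx : x ∈ ψ b a) : g * x * g⁻¹ ∈ ψ b a :=
  conj_mem_of_cj (cjψ h n.symm ((bas h n).2.2 g hg).2 ((bas h n).2.2 g hg).1) hx

omit [Finite Ω] in
theorem b1 (n : a ≠ b) : ψ a b ⊓ ψ b a ≠ ⊥ := fun e0 => by
  have e : ∀ x y, x ≠ y → ψ x y ⊓ ψ y x = ⊥ := fun x y n' => by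
    obtain ⟨g, rfl, rfl⟩ := h.two a b x y n n'
    rw [h.eqv n, h.eqv n.symm, ← cj_inf, e0, cj, Subgroup.map_bot]
  obtain ⟨V, Q, f, e1⟩ := h.fl n
  obtain ⟨V', Q', f', e2⟩ := h.fl n.symm
  have k : ∀ u ∈ ψ b a, ∃ v ∈ V, ∃ c, Cz c (N a) ∧ u = v * c := fun u hu => by
    obtain ⟨v, hv, c⟩ := (h.pl a).autV f.l u (cjN h ((bas h n.symm).2.2 u hu).2) fun x hx => by
      have hx : x ∈ ψ a b := e1 ▸ mem_sup_left hx
      have : u * x * u⁻¹ * x⁻¹ = 1 := mem_bot.1 (e0.le ⟨(ψ a b).mul_mem (nψ h n.symm hu hx) (inv_mem hx), by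
        simpa [mul_assoc] using (ψ b a).mul_mem hu (nψ h n hx (inv_mem hu))⟩)
      simpa [mul_inv_eq_iff_eq_mul] using this
    exact ⟨v, hv, _, c, by group⟩
  obtain ⟨w, w1, w2, w0⟩ := f'.meet
  obtain ⟨x, x1, x2⟩ := exV f'
  obtain ⟨y, y1, ew⟩ := (h.pl b).onto f' x x1 x2 w ⟨w1, w2⟩
  obtain ⟨v, hv, c, hc, rfl⟩ := k x (e2 ▸ mem_sup_left x1)
  obtain ⟨v', hv', c', hc', rfl⟩ := k y (e2 ▸ mem_sup_right y1)
  have cw : Cz w (N a) := by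
    have : w = c * c' * c⁻¹ * c'⁻¹ := by
      have m := inv_mem (f.l.le hv)
      rw [← ew, show v * c * (v' * c') * (v * c)⁻¹ * (v' * c')⁻¹ =
        v * (c * v') * (c' * c⁻¹ * v⁻¹) * c'⁻¹ * v'⁻¹ by group, hc v' (f.l.le hv'), (hc'.mul hc.inv) _ m,
        show v * (v' * c) * (v⁻¹ * (c' * c⁻¹)) * c'⁻¹ * v'⁻¹ = v * v' * (c * v⁻¹) * c' * c⁻¹ * c'⁻¹ * v'⁻¹ by group,
        hc _ m, f.l.comm hv hv', show v' * v * (v⁻¹ * c) * c' * c⁻¹ * c'⁻¹ * v'⁻¹ =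
        v' * (c * c' * c⁻¹ * c'⁻¹ * v'⁻¹) by group,
        ((hc.mul hc').mul hc.inv).mul hc'.inv _ (inv_mem (f.l.le hv')), mul_inv_cancel_left]
    exact this ▸ ((hc.mul hc').mul hc.inv).mul hc'.inv
  obtain ⟨g, hg, n1⟩ := h.moves a b n
  have wN : w ∈ N b := f'.l.le w1
  have ww := f'.l.sq w w1
  have fb : w • b = b := h.fix b w wN
  refine w0 (mem_bot.1 ((e b (g • b) n1.symm).le ⟨(h.fixel n1.symm w wN ww).1 ?_, (h.fixel n1 w ?_ ww).1 fb⟩))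
  · rw [← mul_smul, cw g hg, mul_smul, fb]
  · rw [← h.conj, mem_cj, mul_assoc, cw g hg, inv_mul_cancel_left]; exact wN

omit [Finite Ω] in
theorem b2 (n : a ≠ b) {V Q V' Q' : Subgroup G} (f : Flag q (N a) V Q) (e : ψ a b = V ⊔ Q)
    (f' : Flag q (N b) V' Q') (e' : ψ b a = V' ⊔ Q') :
    ∃ z ∈ V ⊓ Q, z ≠ 1 ∧ ∀ w ∈ V' ⊓ Q', w ≠ 1 → (Fx w : Set Ω) = Fx z := by
  have nn : ψ a b ≤ normalizer (ψ b a : Set G) := fun g hg => mem_normalizer_iff.2 fun x =>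
    ⟨nψ h n hg, fun hx => by simpa [mul_assoc] using nψ h n (inv_mem hg) hx⟩
  have l : ψ a b ⊔ ψ b a ≤ normalizer (ψ a b ⊓ ψ b a : Subgroup G) := by
    refine sup_le ?_ ?_ <;> refine fun g hg => mem_normalizer_fintype fun x hx => ⟨?_, ?_⟩
    exacts [conj_mem_of_cj (cj_eq_of_mem hg) hx.1, nψ h n hg hx.2, nψ h n.symm hg hx.1,
      conj_mem_of_cj (cj_eq_of_mem hg) hx.2]
  obtain ⟨z, hz, z1, c⟩ := fixp ((bas h n).1.to_sup_of_normal_right' (bas h n.symm).1 nn)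
    ((bas h n).1.to_inf_left (K := ψ b a)) (fun t ht d => (mem_normalizer_iff.1 (l ht) d).1) (b1 h n)
  refine ⟨z, zU (h.pl a) f (e ▸ hz.1) (e ▸ c.mono le_sup_left), z1, fun w hw w1 => ?_⟩
  rw [h.fixz f' w hw w1, h.fixz f' z (zU (h.pl b) f' (e' ▸ hz.2) (e' ▸ c.mono le_sup_right)) z1]

omit [Finite Ω] in
theorem b3 (n : a ≠ b) {u : G} (hu : u ∈ ψ b a) (c : Cz u (N a)) : u = 1 := by
  by_contra u1
  obtain ⟨V, Q, f, e⟩ := h.fl n
  obtain ⟨V', Q', f', e'⟩ := h.fl n.symm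
  obtain ⟨z, hz, z1, ez⟩ := b2 h n f e f' e'
  obtain ⟨w, hw, w1, cw⟩ := fixp (D := ψ b a ⊓ centralizer (N a)) (bas h n.symm).1 (bas h n.symm).1.to_inf_left
    (fun t ht d hd => ⟨conj_mem_of_cj (cj_eq_of_mem ht) hd.1, cz_iff.1 (by
      have := (cz_iff.2 hd.2).conj t
      rwa [cjN h ((bas h n.symm).2.2 t ht).2] at this)⟩)
    fun e => u1 (mem_bot.1 (e.le ⟨hu, cz_iff.1 c⟩))
  have ew := ez w (zU (h.pl b) f' (e' ▸ hw.1) (e' ▸ cw)) w1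
  let K : Subgroup G :=
    { carrier := {k | k ∈ N a ∧ ∀ g ∈ N a, k • g • b = g • b}
      one_mem' := ⟨one_mem _, fun g _ => one_smul _ _⟩
      mul_mem' := fun x y => ⟨mul_mem x.1 y.1, fun g hg => by rw [mul_smul, y.2 g hg, x.2 g hg]⟩
      inv_mem' := fun x => ⟨inv_mem x.1, fun g hg => inv_smul_eq_iff.2 (x.2 g hg).symm⟩ }
  rcases (h.pl a).simple K (fun _ hk => hk.1) (fun g hg k hk => ⟨mul_mem (mul_mem hg hk.1) (inv_mem hg),
    fun g' hg' => by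
      rw [mul_smul, mul_smul, smul_smul g⁻¹, hk.2 _ (mul_mem (inv_mem hg) hg'), smul_smul,
        mul_inv_cancel_left]⟩) with k | k
  · refine z1 (mem_bot.1 (k.le ⟨f.l.le hz.1, fun g hg => ew.le (?_ : w • g • b = g • b)⟩))
    rw [← mul_smul, cz_iff.2 hw.2 g hg, mul_smul, ((bas h n.symm).2.2 w hw.1).1]
  · obtain ⟨g, hg, n1⟩ := h.moves a b n
    exact n1 (by simpa using (k.ge hg).2 1 (one_mem _))

theorem key (n : a ≠ b) {t u : G} (ht : t ∈ ψ b a) (tt : t * t = 1) (hu : u ∈ N a)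
    (c : Cz (u⁻¹ * t) (N a)) : t ∈ N a := by
  by_cases u1 : u = 1
  · rw [b3 h n ht (by simpa [u1] using c)]; exact one_mem _
  have ta : t • a = a := ((bas h n.symm).2.2 t ht).2
  have ua := h.fix a u hu
  have uu : u * u = 1 := (h.pl a).zero _ (mul_mem hu hu) (by
    have : u * u = (u⁻¹ * t * (u⁻¹ * t))⁻¹ := by
      rw [eq_inv_iff_mul_eq_one, mul_assoc u, ← mul_assoc u (u⁻¹ * t), ← c u hu, mul_assoc (u⁻¹ * t),
        mul_inv_cancel_left, mul_assoc u⁻¹, tt, mul_one, mul_inv_cancel]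
    exact this ▸ (c.mul c).inv)
  have t1 : t ≠ 1 := fun e => u1 (inv_eq_one.1 ((h.pl a).zero _ (inv_mem hu) (by simpa [e] using c)))
  have l : (Fx t : Set Ω) = Fx u := Set.eq_of_subset_of_ncard_le (fun p hp => by
    by_cases e : a = p
    · exact e ▸ ua
    refine (h.fixel e u hu uu).2 (h.nrmel e u hu uu ?_)
    rw [← (c.mono (bas h e).2.1).cj_eq, ← cj_mul, mul_inv_cancel_left, (c.mono (bas h e).2.1).cj_eq]
    exact cjψ h e ta hp) (by rw [h.cardz a u hu uu u1, h.cardz b t ((bas h n.symm).2.1 ht) tt t1])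
  obtain ⟨V, Q, f, hz⟩ := (h.pl a).inv u hu uu u1
  have : u⁻¹ * t = 1 := h.faith _ fun p => by
    by_cases e : a = p
    · rw [← e, mul_smul, ta, inv_smul_eq_iff, ua]
    obtain ⟨V1, Q1, f1, e1⟩ := h.fl e
    obtain ⟨g, hg, k⟩ := (h.pl a).flagc f1 f
    have ga := h.fix a g hg
    have e' : a ≠ g • p := fun k => e (by rwa [← ga, smul_left_cancel_iff] at k)
    have m : u ∈ ψ a (g • p) := by
      rw [← ga, h.eqv e, e1, cj_sup]
      rcases k with ⟨k1, k2⟩ | ⟨k1, k2⟩ <;> rw [k1]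
      exacts [mem_sup_left hz.1, mem_sup_left hz.2]
    have a1 : u • g • p = g • p := (h.fixel e' u hu uu).2 m
    have a2 : t • g • p = g • p := l.ge a1
    rw [← smul_left_cancel_iff g, ← mul_smul, ← c g hg, mul_smul, mul_smul, a2, inv_smul_eq_iff, a1]
  exact inv_mul_eq_one.1 this ▸ hu

theorem b4 (n : a ≠ b) {V Q V' Q' : Subgroup G} (f : Flag q (N a) V Q) (e : ψ a b = V ⊔ Q)
    (f' : Flag q (N b) V' Q') (e' : ψ b a = V' ⊔ Q') : V' ⊓ Q' ≤ V ⊓ Q := fun w hw => by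
  by_cases w1 : w = 1
  · rw [w1]; exact one_mem _
  obtain ⟨z, hz, z1, ez⟩ := b2 h n f e f' e'
  have m : w ∈ ψ b a := e' ▸ mem_sup_left hw.1
  have wa := ((bas h n.symm).2.2 w m).2
  have k : ∀ {V Q}, Flag q (N a) V Q → z ∈ V ⊓ Q → ∀ Q1, Flag q (N a) V Q1 → cj w (V ⊔ Q1) = V ⊔ Q1 :=
    fun {V Q} f hz Q1 f1 => by
      obtain ⟨p, np, ep⟩ := h.surj f1
      rw [← ep]
      exact cjψ h np wa ((ez w hw w1).ge ((h.fixz f z hz z1).ge (Or.inl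
        ((h.fixiff np V f.l.le f.l.isP).2 (ep ▸ le_sup_left)))))
  obtain ⟨a1, a2, a3⟩ := allV (h.pl a) f (cjN h wa) (k f hz)
  obtain ⟨b1, b2, b3⟩ := allV (h.pl a) f.symm (cjN h wa) (k f.symm ⟨hz.2, hz.1⟩)
  obtain ⟨u, hu, c⟩ := (h.pl a).autU f w (cjN h wa) a1 (czW (h.pl a) f a1 b1 b3 a3) b3
  have ww := f'.l.sq w hw.1
  have wN := key h n m ww (f.sup_le hu) c
  obtain ⟨Q1, f1, n1, -⟩ := (h.pl a).third f.l Q Q
  obtain ⟨V1, f2, n2, -⟩ := (h.pl a).third f.r V V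
  rcases (h.pl a).invU f w (e ▸ (h.fixel n w wN ww).1 ((bas h n.symm).2.2 w m).1) ww with r | r
  · exact ⟨r, nv (h.pl a) f.symm f2 n2 r (b2 _ f2)⟩
  · exact ⟨nv (h.pl a) f f1 n1 r (a2 _ f1), r⟩

theorem b5 (n : a ≠ b) {V' Q' : Subgroup G} (f' : Flag q (N b) V' Q') (e' : ψ b a = V' ⊔ Q') :
    V' ≤ N a := fun t ht => by
  obtain ⟨V, Q, f, e⟩ := h.fl n
  have l := b4 h n f e f' e'
  have l' := b4 h n.symm f' e' f e
  have fx : ∀ s ∈ V', s • b = b ∧ s • a = a := fun s hs => (bas h n.symm).2.2 s (e' ▸ mem_sup_left hs)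
  have pm : ∀ s ∈ V', cj s V = V ∨ cj s V = Q := fun s hs =>
    perm (h.pl a) f (cjN h (fx s hs).2) (e ▸ cjψ h n (fx s hs).2 (fx s hs).1)
  have i1 : ∀ s ∈ V', cj s V = V → s ∈ N a := fun s hs es => by
    obtain ⟨u, hu, c⟩ := (h.pl a).autI f s (cjN h (fx s hs).2) (f'.l.sq s hs) es
      fun w hw => f'.l.comm hs (l' hw).1
    exact key h n (e' ▸ mem_sup_left hs) (f'.l.sq s hs) (f.sup_le hu) c
  refine i1 t ht ((pm t ht).resolve_right fun tV => ?_)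
  have tt := f'.l.sq t ht
  have tQ : cj t Q = V := by rw [← tV, cjcj tt]
  have i2 : ∀ s ∈ V', cj s V = V → s ∈ V' ⊓ Q' := fun s hs es => by
    have : t * s * t⁻¹ = s := by rw [f'.l.comm ht hs, mul_inv_cancel_right]
    rcases (h.pl a).invU f s (e ▸ (h.fixel n s (i1 s hs es) (f'.l.sq s hs)).1 (fx s hs).1)
      (f'.l.sq s hs) with r | r
    · exact l' ⟨r, tV ▸ this ▸ conj_mem_cj.2 r⟩
    · exact l' ⟨tQ ▸ this ▸ conj_mem_cj.2 r, r⟩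
  have q2 : q = 2 := by
    have c1 : (V' : Set G).ncard = q ^ 2 := f'.l.card
    have c2 : ((V' ⊓ Q' : Subgroup G) : Set G).ncard = q := (h.pl b).cardW f'
    have c3 := Set.ncard_le_ncard (s := (V' : Set G)) (t := (V' ⊓ Q' : Subgroup G) ∪
      (· * t) '' (V' ⊓ Q' : Subgroup G)) fun s hs => (pm s hs).imp (i2 s hs) fun r =>
        ⟨s * t, i2 _ (V'.mul_mem hs ht) (by rw [cj_mul, tV, ← r, cjcj (f'.l.sq s hs)]),
          by simp [mul_assoc, tt]⟩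
    have c4 := (Set.ncard_union_le _ _).trans' c3
    rw [Set.ncard_image_of_injective _ (mul_left_injective t), c1, c2] at c4
    obtain ⟨k, k1, k2⟩ := (h.pl a).pow
    have : 2 ^ 1 ≤ q := k2 ▸ Nat.pow_le_pow_right two_pos k1
    nlinarith
  have ta := (fx t ht).2
  have tN := cjN h ta
  have c5 := abs5 (h.pl a) f q2 tt tN
  set A := {E | (∃ g ∈ N a, cj g Q = E) ∧ Flag q (N a) (cj t E) E}
  have c6 := h.cnt a ((fun E => cj t E ⊔ E) '' A) (by rintro _ ⟨E, hE, rfl⟩; exact ⟨_, _, hE.2, rfl⟩)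
  have t1 : t ≠ 1 := fun e => f.ne (by rw [← tV, e, cj_one])
  have c7 := h.cardz b t (f'.l.le ht) tt t1
  have sw : ∀ {V1 Q1}, Flag q (N a) V1 Q1 → cj t (V1 ⊔ Q1) = V1 ⊔ Q1 → (∃ g ∈ N a, cj g Q = Q1) →
      V1 ⊔ Q1 ∈ (fun E => cj t E ⊔ E) '' A := by
    rintro V1 _ f1 e1 ⟨g, hg, rfl⟩
    rcases perm (h.pl a) f1.symm tN (sup_comm V1 _ ▸ e1) with r | r
    · refine absurd ?_ ((h.pl a).type f (g⁻¹ * (t * g * t⁻¹)) (mul_mem (inv_mem hg) (conj_mem_of_cj tN hg)))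
      rw [cj_mul, cj_mul, cj_mul, cj_inv_eq tQ, r, cj_inv_cj]
    · exact ⟨_, ⟨⟨g, hg, rfl⟩, r.symm ▸ f1⟩, by simp only [r]⟩
  have c8 := Set.ncard_le_ncard (s := (Fx t : Set Ω) \ {a})
    (t := {y | a ≠ y ∧ ψ a y ∈ (fun E => cj t E ⊔ E) '' A}) fun p hp => by
      have np : a ≠ p := fun e => hp.2 e.symm
      obtain ⟨V1, Q1, f1, e1⟩ := h.fl np
      have k := cjψ h np ta hp.1
      refine ⟨np, ?_⟩
      rw [e1] at k ⊢
      obtain ⟨g, hg, r | r⟩ := (h.pl a).flagc f f1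
      · exact sw f1 k ⟨g, hg, r.2⟩
      · rw [sup_comm] at k ⊢; exact sw f1.symm k ⟨g, hg, r.2⟩
  rw [Set.ncard_diff_singleton_of_mem (s := (Fx t : Set Ω)) ta, c7, c6, q2] at c8
  have c9 : ((fun E => cj t E ⊔ E) '' A).ncard ≤ 4 := (Set.ncard_image_le (Set.toFinite _)).trans (by omega)
  have := Nat.mul_le_mul_left m c9
  have := h.mpos
  omega

end CB1

open CB1 in
theorem CB.p2 {Ω : Type*} [MulAction G Ω] [Finite Ω] {q m : ℕ} {N : Ω → Subgroup G}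
    {ψ : Ω → Ω → Subgroup G} (h : CB q N ψ m) : P2 N := by
  intro x y z hz zz e
  by_cases n : x = y
  · exact n ▸ hz
  obtain ⟨V, Q, f, e'⟩ := h.fl (Ne.symm n)
  rcases (h.pl y).invU f z (e' ▸ (h.fixel (Ne.symm n) z hz zz).1 e) zz with r | r
  exacts [b5 h n f e' r, b5 h n f.symm (e'.trans (sup_comm _ _)) r]

end H45.HL
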