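import Cfsg.Agent.Lib.HL3.Inv

namespace H45.HL

variable {G : Type*} [Group G] [Finite G]

namespace CB2

variable {Ω : Type*} [MulAction G Ω] {q : ℕ} {N : Ω → Subgroup G}

omit [Finite G] in
theorem le (h2 : P2 N) {x y : Ω} {E : Subgroup G} (hE : Rad q (N y) E) (hx : x ∈ FS E) : E ≤ N x :=
  fun v hv => h2 x y v (hE.le hv) (hE.sq v hv) (hx v hv)

/-- the count of the involutions lying in some `N p` -/
theorem count [Finite Ω] (h : Cf q N) (h2 : P2 N) {f : ℕ}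
    (hf : ∀ x, ∀ z ∈ N x, z * z = 1 → z ≠ 1 → Set.ncard (Fx z : Set Ω) = f) {a b : Ω} (hab : a ≠ b) :
    Set.ncard {t : G | t * t = 1 ∧ t ≠ 1 ∧ ∃ p, t ∈ N p} * f =
        Nat.card Ω * ((q ^ 2 - 1) * (q ^ 2 + q + 1)) ∧
      Set.ncard {t : G | t * t = 1 ∧ t ≠ 1 ∧ ∃ p, t ∈ N p} = (q ^ 2 - 1) * (q ^ 2 + q + 1) +
        (Nat.card Ω - 1) * Set.ncard {t : G | (t * t = 1 ∧ t ≠ 1 ∧ ∃ p, t ∈ N p) ∧ t • a = b} := by
  have k := inv_count h.two {t : G | t * t = 1 ∧ t ≠ 1 ∧ ∃ p, t ∈ N p}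
    (fun g t ⟨t2, t1, p, tp⟩ => ⟨by rw [conj_mul, t2]; group, fun e => t1 (by simpa using e),
      g • p, h.conj g p ▸ conj_mem_cj.2 tp⟩) (fun t ⟨t2, t1, p, tp⟩ => hf p t tp t2 t1) hab
  have e : {t | t ∈ {t : G | t * t = 1 ∧ t ≠ 1 ∧ ∃ p, t ∈ N p} ∧ t • a = a} =
      {z | z ∈ N a ∧ z * z = 1 ∧ z ≠ 1} := Set.ext fun t =>
    ⟨fun ⟨⟨t2, t1, p, tp⟩, ta⟩ => ⟨h2 a p t tp t2 ta, t2, t1⟩,
      fun ⟨ta, t2, t1⟩ => ⟨⟨t2, t1, a, ta⟩, h.fix a t ta⟩⟩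
  rwa [e, (h.pl a).ninv] at k

end CB2

theorem CB.false {Ω : Type*} [MulAction G Ω] [Finite Ω] {q m : ℕ} {N : Ω → Subgroup G}
    {ψ : Ω → Ω → Subgroup G} (h : CB q N ψ m) (h2 : P2 N) : False := by
  obtain ⟨a, b, ab⟩ := h.ne
  obtain ⟨V, Q, fl⟩ := (h.pl a).ex
  obtain ⟨z, zV, zQ, z1⟩ := fl.meet
  obtain ⟨n, n1, hq⟩ := (h.pl a).pow
  have q2 : 2 ≤ q := hq ▸ Nat.le_self_pow (by omega) 2
  have m1 := h.mpos
  have c : ∀ {V Q}, Flag q (N a) V Q → Set.ncard (FS V \ FS Q : Set Ω) = m * q := fun {V Q} fl => by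
    have := Set.ncard_inter_add_ncard_sdiff_eq_ncard (FS V : Set Ω) (FS Q)
    rw [h.cardU fl, h.cardV fl.l, mul_add] at this
    omega
  have pos : m * q ≠ 0 := by positivity
  obtain ⟨x, xV, xQ⟩ := Set.nonempty_of_ncard_ne_zero ((c fl).symm ▸ pos)
  obtain ⟨V', fl', zV'⟩ := (h.pl x).thru (fl.l.of_le (CB2.le h2 fl.l xV)) z zV z1
  have ne : Q ≠ V' := fun e => xQ fun g hg => h.fix x g (fl'.r.le (e ▸ hg))
  have T : (FS Q \ FS V : Set Ω) ⊆ FS V' := fun p hp =>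
    (((h.fixz fl z ⟨zV, zQ⟩ z1).symm.trans (h.fixz fl' z ⟨zV, zV'⟩ z1)).le (Or.inr hp.1)).resolve_left hp.2
  obtain ⟨y, hy⟩ := Set.nonempty_of_ncard_ne_zero ((c fl.symm).symm ▸ pos)
  have rQ := fl.r.of_le (CB2.le h2 fl.r hy.1)
  have rV := fl'.r.of_le (CB2.le h2 fl'.r (T hy))
  have k := h.cnt y {Q ⊔ V'} fun U hU => ⟨Q, V', ⟨rQ, rV, ne, z, zQ, zV', z1⟩, hU⟩
  have s : (FS Q \ FS V : Set Ω) \ {y} ⊆ {y' | y ≠ y' ∧ ψ y y' ∈ ({Q ⊔ V'} : Set (Subgroup G))} := by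
    rintro p ⟨hp, py⟩
    have yp : y ≠ p := fun e => py e.symm
    have l1 := (h.fixiff yp Q rQ.le rQ.isP).1 hp.1
    have l2 := (h.fixiff yp V' rV.le rV.isP).1 (T hp)
    obtain ⟨A, B, f, e⟩ := h.fl yp
    refine ⟨yp, e.trans ?_⟩
    rw [e] at l1 l2
    rcases (h.pl y).sub f rQ l1 with e1 | e1 <;> rcases (h.pl y).sub f rV l2 with e2 | e2
    · exact absurd (e1.trans e2.symm) ne
    · rw [e1, e2]
    · rw [e1, e2, sup_comm]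
    · exact absurd (e1.trans e2.symm) ne
  have l := Set.ncard_le_ncard s
  rw [k, Set.ncard_sdiff_singleton_of_mem hy, c fl.symm, Set.ncard_singleton] at l
  have e1 : q = 2 := by
    by_contra e
    have : m * 3 ≤ m * q := Nat.mul_le_mul_left m (by omega)
    omega
  subst e1
  have e2 : m = 1 := by omega
  subst e2
  obtain ⟨k1, k2⟩ := CB2.count h.toCf h2 h.cardz ab
  rw [h.cardΩ] at k1 k2
  omega

end H45.HL
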