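import Cfsg.Agent.Lib.HL3.CB2

namespace H45.HL

variable {G : Type*} [Group G] [Finite G]

namespace Cnt

theorem fib {α β : Type*} [Finite α] (s : Set α) (f : α → β) {k : ℕ}
    (h : ∀ x ∈ s, Set.ncard {y | y ∈ s ∧ f y = f x} = k) : k ∣ s.ncard := by
  classical
  have := Fintype.ofFinite α
  rw [Set.ncard_eq_toFinset_card', Finset.card_eq_sum_card_image f]
  refine Finset.dvd_sum fun b hb => ?_
  obtain ⟨x, hx, rfl⟩ := Finset.mem_image.1 hb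
  rw [← h x (Set.mem_toFinset.1 hx), ← Set.ncard_coe_finset]
  exact dvd_of_eq (congrArg _ (Set.ext fun y => by simp))

theorem arith {q m n l c : ℕ} (hq : q = 2 ^ n) (m1 : 1 ≤ m) (d : 1 + m ∣ 1 + m * (q + 1))
    (k1 : c * (1 + m * (q + 1)) = (1 + m * (q ^ 2 + q + 1)) * ((q ^ 2 - 1) * (q ^ 2 + q + 1)))
    (k2 : c = (q ^ 2 - 1) * (q ^ 2 + q + 1) + m * (q ^ 2 + q + 1) * l) (n1 : 1 ≤ n) :
    0 < l ∧ (q ^ 2 - 1 ∣ c → m + 1 = q ∨ (q = 4 ∧ m = 1)) := by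
  have q2 : 2 ≤ q := hq ▸ Nat.le_self_pow (by omega) 2
  obtain ⟨r, rfl⟩ : ∃ r, q = r + 1 := ⟨q - 1, by omega⟩
  have e0 : (r + 1) ^ 2 - 1 = r * (r + 2) := Nat.sub_eq_of_eq_add (by ring)
  rw [e0] at k1 k2 ⊢
  have k3 : l * (1 + m * (r + 2)) = (r + 1) ^ 2 * (r * (r + 2)) :=
    Nat.eq_of_mul_eq_mul_left (show 0 < m * ((r + 1) ^ 2 + (r + 1) + 1) by positivity) (by
      rw [k2] at k1
      nlinarith [k1])
  refine ⟨Nat.pos_of_ne_zero fun e => ?_, fun hd => ?_⟩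
  · rw [e, zero_mul] at k3
    exact absurd k3.symm (by have : 0 < r := by omega
                             positivity)
  obtain ⟨j, hj⟩ : 1 + m ∣ r + 1 := (Nat.dvd_add_right d).1 ⟨r + 2, by ring⟩
  by_cases j1 : j = 1
  · exact Or.inl (by rw [hj, j1]; ring)
  have j0 : j ≠ 0 := fun e => by rw [e] at hj; omega
  have jl : 2 * j ≤ r + 1 := hj ▸ Nat.mul_le_mul_right j (by omega)
  obtain ⟨s, hs⟩ : ∃ s, r + 2 = j + s := ⟨r + 2 - j, by omega⟩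
  have e1 : 1 + m * (r + 2) = (1 + m) * s := by nlinarith
  have c1 : s.Coprime (r + 1) := by
    obtain ⟨i, -, hi⟩ := (Nat.dvd_prime_pow Nat.prime_two).1 (hq ▸ Dvd.intro_left _ hj.symm : j ∣ 2 ^ n)
    have : 2 ∣ j := hi ▸ dvd_pow_self 2 fun e => j1 (by rw [hi, e, pow_zero])
    have : 2 ∣ r + 1 := hq ▸ dvd_pow_self 2 (by omega)
    rw [hq]
    exact ((Nat.Prime.coprime_iff_not_dvd Nat.prime_two).2 (by omega)).symm.pow_right n
  have c2 : s.Coprime (r + 2) := Nat.Coprime.coprime_dvd_left (Dvd.intro_left _ e1.symm)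
    (by simp)
  have d1 : s ∣ r := c2.dvd_of_dvd_mul_right ((c1.pow_right 2).dvd_of_dvd_mul_left
    (k3 ▸ (Dvd.intro_left _ e1.symm).mul_left l))
  have e2 : s = r := by
    obtain ⟨t, ht⟩ := d1
    have t0 : t ≠ 0 := fun e => by rw [e] at ht; omega
    by_contra e
    have t1 : t ≠ 1 := fun e' => e (by rw [ht, e', mul_one])
    have : s * 2 ≤ s * t := Nat.mul_le_mul_left s (by omega)
    omega
  subst e2
  obtain rfl : j = 2 := by omega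
  obtain rfl : s = 2 * m + 1 := by omega
  have e3 : l = 2 * (2 * m + 1 + 1) * (2 * m + 1 + 2) :=
    Nat.eq_of_mul_eq_mul_right (show 0 < (1 + m) * (2 * m + 1) by positivity) (by rw [← e1, k3]; ring)
  rw [k2, Nat.dvd_add_right (Dvd.intro _ rfl), e3] at hd
  have d2 : 2 * m + 1 ∣ 2 * m * (2 * m + 1 + 1) * ((2 * m + 1 + 1) ^ 2 + (2 * m + 1 + 1) + 1) :=
    Nat.dvd_of_mul_dvd_mul_right (show 0 < 2 * m + 1 + 2 by positivity) (hd.trans (dvd_of_eq (by ring)))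
  have d3 : 2 * m + 1 ∣ 3 := (Nat.dvd_add_right d2).1 ⟨8 * m ^ 3 + 24 * m ^ 2 + 22 * m + 3, by ring⟩
  have := Nat.le_of_dvd (by norm_num) d3
  exact Or.inr (by omega)

end Cnt

theorem CQ.cnt2 {Ω : Type*} [MulAction G Ω] [Finite Ω] {q m : ℕ} {N : Ω → Subgroup G}
    {φ : Ω → Ω → Subgroup G} (h : CQ q N φ m) : (m + 1 = q ∨ (q = 4 ∧ m = 1)) ∧ Swp N := by
  obtain ⟨a, b, ab⟩ := h.ne
  obtain ⟨n, n1, hq⟩ := (h.pl a).pow
  obtain ⟨V, Q, fl⟩ := (h.pl a).ex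
  obtain ⟨z, zV, -, z1⟩ := fl.meet
  have z2 := fl.l.sq z zV
  have uq : ∀ {p y y'}, p ≠ y → p ≠ y' → z ∈ φ p y → z ∈ φ p y' → φ p y' = φ p y :=
    fun {p y y'} py py' h1 h2 => by
      obtain ⟨V, f, hV⟩ := (h.pl p).thru (h.rad py) z h1 z1
      obtain ⟨g, hg, e⟩ := h.typ py py'
      exact ((h.pl p).radz f (h.rad py') z ⟨h1, hV⟩ z1 h2).resolve_right fun e' =>
        (h.pl p).type f g hg (e.trans e')
  have ex : ∀ p, ∃ y, p ∈ Fx z → p ≠ y ∧ z ∈ φ p y := fun p => by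
    by_cases hp : p ∈ Fx z
    · obtain ⟨_, y, py, -, hz⟩ := h.lineV p z (h.p2 p a z (fl.l.le zV) z2 hp) z2 z1
      exact ⟨y, fun _ => ⟨py, hz.2⟩⟩
    · exact ⟨p, fun e => absurd e hp⟩
  choose y hy using ex
  have d : 1 + m ∣ 1 + m * (q + 1) := by
    rw [← h.cardz a z (fl.l.le zV) z2 z1]
    refine Cnt.fib _ (fun p => φ p (y p)) fun p hp => ?_
    rw [← h.cardQ (hy p hp).1]
    refine congrArg _ (Set.ext fun p' => ⟨fun ⟨hp', e⟩ g hg => ?_, fun hp' => ?_⟩)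
    · exact h.fix p' g ((h.rad (hy p' hp').1).le (e.ge hg))
    · have h1 : p' ∈ Fx z := hp' z (hy p hp).2
      refine ⟨h1, ?_⟩
      by_cases pp : p = p'
      · rw [pp]
      · have e := (h.sym pp).symm.trans ((h.fixQ (hy p hp).1 pp).1 hp')
        exact (uq (Ne.symm pp) (hy p' h1).1 (e.ge (hy p hp).2) (hy p' h1).2).trans e
  have key := fun {x x' : Ω} (xx : x ≠ x') => by
    have k := CB2.count h.toCf h.p2 h.cardz xx
    rw [h.cardΩ, Nat.add_sub_cancel_left] at k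
    exact Cnt.arith hq h.mpos d k.1 k.2 n1
  refine ⟨(key ab).2 (Cnt.fib _ (fun t => (Fx t : Set Ω)) ?_), fun x x' xx => ?_⟩
  · rintro t ⟨t2, t1, p, tp⟩
    obtain ⟨V, y, py, f, tV, -⟩ := h.lineV p t tp t2 t1
    have e : {t' | t' ∈ {t : G | t * t = 1 ∧ t ≠ 1 ∧ ∃ p, t ∈ N p} ∧ (Fx t' : Set Ω) = Fx t} =
        (V : Set G) \ {1} := Set.ext fun u => ⟨fun ⟨⟨u2, u1, p', up⟩, e⟩ => ⟨?_, u1⟩, fun ⟨uV, u1⟩ =>
          ⟨⟨f.l.sq u uV, u1, p, f.l.le uV⟩, (h.fsV py f u uV u1).trans (h.fsV py f t tV t1).symm⟩⟩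
    · rw [e, Set.ncard_sdiff_singleton_of_mem (SetLike.mem_coe.2 V.one_mem), ← Nat.card_coe_set_eq]
      exact congrArg (· - 1) f.l.card
    obtain ⟨V', y', py', f', uV, -⟩ := h.lineV p u (h.p2 p p' u up u2 (e.ge (h.fix p t tp))) u2 u1
    obtain ⟨Q2, f2, ne, -⟩ := (h.pl p).third f.l (φ p y) (φ p y)
    obtain ⟨y2, py2, rfl⟩ := h.surj py f f2
    exact ((h.pl p).juniq f f2
      ((h.fixV py' py f' u uV u1).1 (e.ge ((h.fixV py py f t tV t1).2 f)))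
      ((h.fixV py' py2 f' u uV u1).1 (e.ge ((h.fixV py py2 f t tV t1).2 f2))) ne.symm).ge uV
  · obtain ⟨t, ⟨t2, -, p, tp⟩, e⟩ := Set.nonempty_of_ncard_ne_zero (key xx).1.ne'
    exact ⟨p, t, tp, t2, e⟩

end H45.HL
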