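import Mathlib.GroupTheory.Sylow
import Mathlib.GroupTheory.PGroup
import Mathlib.Data.Set.Card
import Mathlib.Tactic

/-! Definitions for S3727 (2-transitive groups of even degree with a normal `PSL₃(2ⁿ)` in the
point stabiliser).  `Rad` = elementary abelian subgroup of order `q²` of `N` (a point or a line of
the plane), `Flag` = incident pair. -/

namespace H45.HL

variable {G : Type*} [Group G]

/-- conjugate subgroup `g E g⁻¹` -/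
def cj (g : G) (E : Subgroup G) : Subgroup G := E.map (MulAut.conj g).toMonoidHom

theorem mem_cj {g h : G} {E : Subgroup G} : h ∈ cj g E ↔ g⁻¹ * h * g ∈ E := by
  constructor
  · rintro ⟨x, hx, rfl⟩; simpa [mul_assoc] using hx
  · intro h1; exact ⟨_, h1, by simp [mul_assoc]⟩

theorem conj_mem_cj {g h : G} {E : Subgroup G} : g * h * g⁻¹ ∈ cj g E ↔ h ∈ E := by
  rw [mem_cj]; simp [mul_assoc]

theorem cj_mul (g h : G) (E : Subgroup G) : cj (g * h) E = cj g (cj h E) := by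
  ext x; simp [mem_cj, mul_assoc]

@[simp] theorem cj_one (E : Subgroup G) : cj 1 E = E := by ext x; simp [mem_cj]

@[simp] theorem cj_inv_cj (g : G) (E : Subgroup G) : cj g⁻¹ (cj g E) = E := by
  rw [← cj_mul]; simp

@[simp] theorem cj_cj_inv (g : G) (E : Subgroup G) : cj g (cj g⁻¹ E) = E := by
  rw [← cj_mul]; simp

theorem cj_inj {g : G} {E E' : Subgroup G} (h : cj g E = cj g E') : E = E' := by
  rw [← cj_inv_cj g E, h, cj_inv_cj]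

theorem cj_inv_eq {g : G} {E E' : Subgroup G} (h : cj g E = E') : cj g⁻¹ E' = E := by
  rw [← h, cj_inv_cj]

theorem cj_mono {g : G} {E E' : Subgroup G} (h : E ≤ E') : cj g E ≤ cj g E' :=
  Subgroup.map_mono h

theorem cj_inf (g : G) (E E' : Subgroup G) : cj g (E ⊓ E') = cj g E ⊓ cj g E' := by
  ext x; simp [mem_cj]

theorem cj_sup (g : G) (E E' : Subgroup G) : cj g (E ⊔ E') = cj g E ⊔ cj g E' :=
  Subgroup.map_sup _ _ _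

theorem card_cj (g : G) (E : Subgroup G) : Nat.card (cj g E) = Nat.card E :=
  (Subgroup.card_map_of_injective (MulAut.conj g).injective)

theorem cj_eq_of_mem {g : G} {E : Subgroup G} (h : g ∈ E) : cj g E = E := by
  ext x; rw [mem_cj]
  constructor
  · intro h1; simpa [mul_assoc] using E.mul_mem (E.mul_mem h h1) (E.inv_mem h)
  · intro h1; exact E.mul_mem (E.mul_mem (E.inv_mem h) h1) h

theorem conj_mem_of_cj {g h : G} {E : Subgroup G} (hg : cj g E = E) (hh : h ∈ E) :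
    g * h * g⁻¹ ∈ E := by rw [← hg]; exact conj_mem_cj.2 hh

theorem inv_conj_mem_of_cj {g h : G} {E : Subgroup G} (hg : cj g E = E) (hh : h ∈ E) :
    g⁻¹ * h * g ∈ E := by rw [← hg] at hh; exact mem_cj.1 hh

theorem cj_eq_of_conj_mem [Finite G] {g : G} {E : Subgroup G}
    (h : ∀ x ∈ E, g * x * g⁻¹ ∈ E) : cj g E = E := by
  refine Subgroup.eq_of_le_of_card_ge ?_ (card_cj g E).ge
  rintro _ ⟨x, hx, rfl⟩; exact h x hx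

/-- `g` centralises `E` -/
def Cz (g : G) (E : Subgroup G) : Prop := ∀ h ∈ E, g * h = h * g

theorem Cz.cj_eq {g : G} {E : Subgroup G} (h : Cz g E) : cj g E = E := by
  ext x; rw [mem_cj]
  constructor
  · intro h1
    have := h _ h1
    have e : x = g⁻¹ * x * g := by
      calc x = g * (g⁻¹ * x * g) * g⁻¹ := by group
        _ = g⁻¹ * x * g := by rw [this]; group
    rw [e]; exact h1
  · intro h1
    have e : g⁻¹ * x * g = x := by rw [mul_assoc, ← h x h1]; group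
    rw [e]; exact h1

theorem Cz.mono {g : G} {E E' : Subgroup G} (h : Cz g E) (hE : E' ≤ E) : Cz g E' :=
  fun x hx => h x (hE hx)

theorem Cz.mul {g g' : G} {E : Subgroup G} (h : Cz g E) (h' : Cz g' E) : Cz (g * g') E :=
  fun x hx => by rw [mul_assoc, h' x hx, ← mul_assoc, h x hx, mul_assoc]

theorem Cz.inv {g : G} {E : Subgroup G} (h : Cz g E) : Cz g⁻¹ E := fun x hx => by
  calc g⁻¹ * x = g⁻¹ * (x * g) * g⁻¹ := by group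
    _ = x * g⁻¹ := by rw [← h x hx]; group

theorem Cz.conj {g : G} {E : Subgroup G} (h : Cz g E) (k : G) : Cz (k * g * k⁻¹) (cj k E) := by
  rintro _ ⟨x, hx, rfl⟩
  show k * g * k⁻¹ * (k * x * k⁻¹) = k * x * k⁻¹ * (k * g * k⁻¹)
  calc k * g * k⁻¹ * (k * x * k⁻¹) = k * (g * x) * k⁻¹ := by group
    _ = _ := by rw [h x hx]; group

theorem cz_iff {g : G} {E : Subgroup G} : Cz g E ↔ g ∈ Subgroup.centralizer (E : Set G) := by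
  rw [Subgroup.mem_centralizer_iff]
  exact ⟨fun h x hx => (h x hx).symm, fun h x hx => (h x hx).symm⟩

theorem Cz.sup {g : G} {E E' : Subgroup G} (h : Cz g E) (h' : Cz g E') : Cz g (E ⊔ E') := by
  have : E ⊔ E' ≤ Subgroup.centralizer {g} := by
    refine sup_le (fun x hx => ?_) (fun x hx => ?_)
    · rw [Subgroup.mem_centralizer_iff]; rintro _ rfl; exact h x hx
    · rw [Subgroup.mem_centralizer_iff]; rintro _ rfl; exact h' x hx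
  intro x hx
  exact (Subgroup.mem_centralizer_iff.1 (this hx)) g rfl

/-- elementary abelian subgroup of order `q²` of `N` -/
structure Rad (q : ℕ) (N E : Subgroup G) : Prop where
  le : E ≤ N
  sq : ∀ x ∈ E, x * x = 1
  card : Nat.card E = q ^ 2

theorem Rad.inv_eq {q : ℕ} {N E : Subgroup G} (h : Rad q N E) {x : G} (hx : x ∈ E) : x⁻¹ = x :=
  inv_eq_of_mul_eq_one_right (h.sq x hx)

theorem Rad.comm {q : ℕ} {N E : Subgroup G} (h : Rad q N E) {x y : G} (hx : x ∈ E) (hy : y ∈ E) :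
    x * y = y * x := by
  have := h.inv_eq (E.mul_mem hx hy)
  rw [mul_inv_rev, h.inv_eq hx, h.inv_eq hy] at this
  exact this.symm

theorem Rad.cz {q : ℕ} {N E : Subgroup G} (h : Rad q N E) {x : G} (hx : x ∈ E) : Cz x E :=
  fun _ hy => h.comm hx hy

theorem Rad.isP {q : ℕ} {N E : Subgroup G} (h : Rad q N E) : IsPGroup 2 E := fun x =>
  ⟨1, Subtype.ext (by simpa [pow_two] using h.sq x x.2)⟩

theorem Rad.cj {q : ℕ} {N E : Subgroup G} (h : Rad q N E) (g : G) : Rad q (cj g N) (cj g E) where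
  le := cj_mono h.le
  sq := by
    rintro _ ⟨x, hx, rfl⟩
    show g * x * g⁻¹ * (g * x * g⁻¹) = 1
    calc g * x * g⁻¹ * (g * x * g⁻¹) = g * (x * x) * g⁻¹ := by group
      _ = 1 := by rw [h.sq x hx]; group
  card := by rw [card_cj, h.card]

theorem Rad.of_le {q : ℕ} {N N' E : Subgroup G} (h : Rad q N E) (hE : E ≤ N') : Rad q N' E :=
  ⟨hE, h.sq, h.card⟩

theorem Rad.eq_of_le [Finite G] {q : ℕ} {N N' E E' : Subgroup G} (h : Rad q N E)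
    (h' : Rad q N' E') (hE : E ≤ E') : E = E' :=
  Subgroup.eq_of_le_of_card_ge hE (by rw [h.card, h'.card])

/-- incident pair of radicals (symmetric) -/
structure Flag (q : ℕ) (N V Q : Subgroup G) : Prop where
  l : Rad q N V
  r : Rad q N Q
  ne : V ≠ Q
  meet : ∃ z, z ∈ V ∧ z ∈ Q ∧ z ≠ 1

theorem Flag.symm {q : ℕ} {N V Q : Subgroup G} (h : Flag q N V Q) : Flag q N Q V :=
  ⟨h.r, h.l, h.ne.symm, let ⟨z, a, b, c⟩ := h.meet; ⟨z, b, a, c⟩⟩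

theorem Flag.cj {q : ℕ} {N V Q : Subgroup G} (h : Flag q N V Q) (g : G) :
    Flag q (cj g N) (cj g V) (cj g Q) := by
  obtain ⟨z, a, b, c⟩ := h.meet
  refine ⟨h.l.cj g, h.r.cj g, fun e => h.ne (cj_inj e), g * z * g⁻¹, conj_mem_cj.2 a,
    conj_mem_cj.2 b, fun e => c ?_⟩
  simpa using e

theorem Flag.cj' {q : ℕ} {N V Q : Subgroup G} (h : Flag q N V Q) {g : G} (hg : HL.cj g N = N) :
    Flag q N (HL.cj g V) (HL.cj g Q) := by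
  have := h.cj g; rwa [hg] at this

theorem Flag.of_le {q : ℕ} {N N' V Q : Subgroup G} (h : Flag q N V Q) (hV : V ≤ N')
    (hQ : Q ≤ N') : Flag q N' V Q := ⟨h.l.of_le hV, h.r.of_le hQ, h.ne, h.meet⟩

theorem Flag.sup_le {q : ℕ} {N V Q : Subgroup G} (h : Flag q N V Q) : V ⊔ Q ≤ N :=
  _root_.sup_le h.l.le h.r.le

/-- primitive data of `PSL₃(q)`, `q` even, at a standard flag -/
structure L0 (q : ℕ) (N V Q : Subgroup G) : Prop where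
  pow : ∃ n, 1 ≤ n ∧ q = 2 ^ n
  card : Nat.card N * Nat.gcd 3 (q - 1) = q ^ 3 * (q ^ 2 - 1) * (q ^ 3 - 1)
  simple : ∀ K ≤ N, (∀ g ∈ N, ∀ k ∈ K, g * k * g⁻¹ ∈ K) → K = ⊥ ∨ K = N
  radV : Rad q N V
  radQ : Rad q N Q
  cardW : Nat.card (V ⊓ Q : Subgroup G) = q
  comm : ∀ v ∈ V, ∀ y ∈ Q, v * y * v⁻¹ * y⁻¹ ∈ V ⊓ Q
  pair : ∀ v ∈ V, ∀ y ∈ Q, v * y = y * v → v ∈ Q ∨ y ∈ V
  invc : ∀ z ∈ N, z * z = 1 → ∃ g ∈ N, g * z * g⁻¹ ∈ V ⊓ Q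
  cent : ∀ z ∈ V ⊓ Q, z ≠ 1 → ∀ g ∈ N, g * g = 1 → g * z = z * g → g ∈ V ∨ g ∈ Q
  type : ∀ g ∈ N, cj g V ≠ Q
  joinV : ∀ g ∈ N, ∃ y ∈ V, ∃ y' ∈ cj g V, y ≠ 1 ∧ y' ≠ 1 ∧ y * y' = y' * y
  joinQ : ∀ g ∈ N, ∃ y ∈ Q, ∃ y' ∈ cj g Q, y ≠ 1 ∧ y' ≠ 1 ∧ y * y' = y' * y

/-- first layer of plane facts (all flags) -/
structure Pl1 (q : ℕ) (N : Subgroup G) : Prop where
  pow : ∃ n, 1 ≤ n ∧ q = 2 ^ n
  card : Nat.card N * Nat.gcd 3 (q - 1) = q ^ 3 * (q ^ 2 - 1) * (q ^ 3 - 1)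
  simple : ∀ K ≤ N, (∀ g ∈ N, ∀ k ∈ K, g * k * g⁻¹ ∈ K) → K = ⊥ ∨ K = N
  ex : ∃ V Q, Flag q N V Q
  cardW : ∀ {V Q}, Flag q N V Q → Nat.card (V ⊓ Q : Subgroup G) = q
  comm : ∀ {V Q}, Flag q N V Q → ∀ v ∈ V, ∀ y ∈ Q, v * y * v⁻¹ * y⁻¹ ∈ V ⊓ Q
  nrm : ∀ {V Q}, Flag q N V Q → ∀ u ∈ V ⊔ Q, cj u V = V
  pair : ∀ {V Q}, Flag q N V Q → ∀ v ∈ V, ∀ y ∈ Q, v * y = y * v → v ∈ Q ∨ y ∈ V
  onto : ∀ {V Q}, Flag q N V Q → ∀ v ∈ V, v ∉ Q → ∀ w ∈ V ⊓ Q, ∃ y ∈ Q, v * y * v⁻¹ * y⁻¹ = w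
  memU : ∀ {V Q}, Flag q N V Q → ∀ u ∈ V ⊔ Q, ∃ v ∈ V, ∃ y ∈ Q, u = v * y
  cardU : ∀ {V Q}, Flag q N V Q → Nat.card (V ⊔ Q : Subgroup G) = q ^ 3
  invU : ∀ {V Q}, Flag q N V Q → ∀ u ∈ V ⊔ Q, u * u = 1 → u ∈ V ∨ u ∈ Q
  sub : ∀ {V Q E}, Flag q N V Q → Rad q N E → E ≤ V ⊔ Q → E = V ∨ E = Q
  cent : ∀ {V Q}, Flag q N V Q → ∀ z ∈ V ⊓ Q, z ≠ 1 → ∀ g ∈ N, g * g = 1 → g * z = z * g →
    g ∈ V ∨ g ∈ Q
  radz : ∀ {V Q E}, Flag q N V Q → Rad q N E → ∀ z ∈ V ⊓ Q, z ≠ 1 → z ∈ E → E = V ∨ E = Q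
  syl : ∀ P ≤ N, IsPGroup 2 P → ∃ V Q, Flag q N V Q ∧ P ≤ V ⊔ Q
  flagc : ∀ {V Q V' Q'}, Flag q N V Q → Flag q N V' Q' →
    ∃ g ∈ N, (cj g V = V' ∧ cj g Q = Q') ∨ (cj g V = Q' ∧ cj g Q = V')
  inv : ∀ z ∈ N, z * z = 1 → z ≠ 1 → ∃ V Q, Flag q N V Q ∧ z ∈ V ⊓ Q
  thru : ∀ {V}, Rad q N V → ∀ v ∈ V, v ≠ 1 → ∃ Q, Flag q N V Q ∧ v ∈ Q
  type : ∀ {V Q}, Flag q N V Q → ∀ g ∈ N, cj g V ≠ Q
  two : ∀ {V Q E}, Flag q N V Q → Rad q N E → (∃ g ∈ N, cj g V = E) ∨ ∃ g ∈ N, cj g Q = E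
  norm : ∀ {E}, Rad q N E → ∀ P ≤ N, IsPGroup 2 P → (∀ g ∈ P, cj g E = E) →
    ∃ E', Flag q N E E' ∧ P ≤ E ⊔ E'
  zero : ∀ h ∈ N, Cz h N → h = 1
  line : ∀ {V}, Rad q N V → Set.ncard {Q | Flag q N V Q} = q + 1
  disj : ∀ {V Q Q₁}, Flag q N V Q → Flag q N V Q₁ → Q₁ ≠ Q → ∀ w ∈ V, w ∈ Q → w ∈ Q₁ → w = 1
  split : ∀ {V Q Q₁}, Flag q N V Q → Flag q N V Q₁ → Q₁ ≠ Q → ∀ v ∈ V,
    ∃ w ∈ V ⊓ Q, ∃ w₁ ∈ V ⊓ Q₁, v = w * w₁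
  trans : ∀ {V Q Q₁ Q₂}, Flag q N V Q → Flag q N V Q₁ → Flag q N V Q₂ → Q₁ ≠ Q → Q₂ ≠ Q →
    ∃ y ∈ Q, cj y Q₁ = Q₂
  third : ∀ {V}, Rad q N V → ∀ A B : Subgroup G, ∃ Q, Flag q N V Q ∧ Q ≠ A ∧ Q ≠ B
  join0 : ∀ {E}, Rad q N E → ∀ g ∈ N, ∃ y ∈ E, ∃ y' ∈ cj g E, y ≠ 1 ∧ y' ≠ 1 ∧ y * y' = y' * y

/-- second layer: the projective plane -/
structure Pl2 (q : ℕ) (N : Subgroup G) : Prop where
  same : ∀ {V Q Q₁}, Flag q N V Q → Flag q N V Q₁ → ∃ g ∈ N, cj g Q = Q₁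
  nn : ∀ {E E'}, Rad q N E → ∀ g ∈ N, cj g E = E' → (∀ v ∈ E', cj v E = E) → E' = E
  join : ∀ {E}, Rad q N E → ∀ g ∈ N, cj g E ≠ E → ∃ V, Flag q N V E ∧ Flag q N V (cj g E)
  juniq : ∀ {V V' E E'}, Flag q N V E → Flag q N V E' → Flag q N V' E → Flag q N V' E' →
    E ≠ E' → V = V'
  pts : ∀ {E}, Rad q N E → Set.ncard {E' | ∃ g ∈ N, cj g E = E'} = q ^ 2 + q + 1
  ovr : ∀ {V Q}, Flag q N V Q → ∀ X : Subgroup G, V ⊔ Q ≤ X → X ≤ N → X ≠ N →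
    (∀ g ∈ X, cj g V = V) ∨ ∀ g ∈ X, cj g Q = Q
  ninv : Set.ncard {z | z ∈ N ∧ z * z = 1 ∧ z ≠ 1} = (q ^ 2 - 1) * (q ^ 2 + q + 1)
  nsyl : Set.ncard {U | ∃ V Q, Flag q N V Q ∧ U = V ⊔ Q} = (q + 1) * (q ^ 2 + q + 1)

/-- third layer: elements of the ambient group acting on `N` -/
structure Pl3 (q : ℕ) (N : Subgroup G) : Prop where
  loc1 : ∀ {V Q}, Flag q N V Q → ∀ g : G, cj g Q = Q →
    (∀ V', Flag q N V' Q → Flag q N (cj g V') Q) → Cz g V → ∃ v ∈ V, Cz (v⁻¹ * g) Q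
  autV : ∀ {V}, Rad q N V → ∀ g : G, cj g N = N → Cz g V → ∃ v ∈ V, Cz (v⁻¹ * g) N
  autU : ∀ {V Q}, Flag q N V Q → ∀ g : G, cj g N = N → cj g V = V → Cz g (V ⊓ Q) →
    (∀ v ∈ V, g * v * g⁻¹ * v⁻¹ ∈ Q) → ∃ u ∈ V ⊔ Q, Cz (u⁻¹ * g) N
  autI : ∀ {V Q}, Flag q N V Q → ∀ g : G, cj g N = N → g * g = 1 → cj g V = V → Cz g (V ⊓ Q) →
    ∃ u ∈ V ⊔ Q, Cz (u⁻¹ * g) N

structure Pl (q : ℕ) (N : Subgroup G) : Prop extends Pl1 q N, Pl2 q N, Pl3 q N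

/-- fixed points of an element -/
def Fx {Ω : Type*} [MulAction G Ω] (g : G) : Set Ω := {p | g • p = p}

/-- fixed points of a subgroup -/
def FS {Ω : Type*} [MulAction G Ω] (E : Subgroup G) : Set Ω := {p | ∀ h ∈ E, h • p = p}

variable {Ω : Type*} [MulAction G Ω]

/-- the basic configuration -/
structure Cf (q : ℕ) (N : Ω → Subgroup G) : Prop where
  two : ∀ x y x' y' : Ω, x ≠ y → x' ≠ y' → ∃ g : G, g • x = x' ∧ g • y = y'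
  faith : ∀ g : G, (∀ x : Ω, g • x = x) → g = 1
  even : Even (Nat.card Ω)
  ne : ∃ x y : Ω, x ≠ y
  conj : ∀ (g : G) (x : Ω), cj g (N x) = N (g • x)
  fix : ∀ x, ∀ h ∈ N x, h • x = x
  moves : ∀ x y, x ≠ y → ∃ h ∈ N x, h • y ≠ y
  pl : ∀ x, Pl q (N x)

/-- case P: two-point stabilisers of `N x` are of parabolic type; `φ x y` = their radical -/
structure CP (q : ℕ) (N : Ω → Subgroup G) (φ : Ω → Ω → Subgroup G) (m : ℕ) : Prop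
    extends Cf q N where
  rad : ∀ {x y}, x ≠ y → Rad q (N x) (φ x y)
  eqv : ∀ {x y}, x ≠ y → ∀ g : G, φ (g • x) (g • y) = cj g (φ x y)
  fixiff : ∀ {x y}, x ≠ y → ∀ P ≤ N x, IsPGroup 2 P → (y ∈ FS P ↔ ∀ h ∈ P, cj h (φ x y) = φ x y)
  fixel : ∀ {x y}, x ≠ y → ∀ h ∈ N x, h * h = 1 → (h • y = y ↔ cj h (φ x y) = φ x y)
  typ : ∀ {x y y'}, x ≠ y → x ≠ y' → ∃ g ∈ N x, cj g (φ x y) = φ x y'
  surj : ∀ {x y V Q}, x ≠ y → Flag q (N x) V (φ x y) → Flag q (N x) V Q → ∃ y', x ≠ y' ∧ φ x y' = Q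
  mpos : 1 ≤ m
  cnt : ∀ x (S : Set (Subgroup G)), (∀ E ∈ S, ∃ y, x ≠ y ∧ φ x y = E) →
    Set.ncard {y | x ≠ y ∧ φ x y ∈ S} = m * Set.ncard S
  fixQ : ∀ {x y y'}, x ≠ y → x ≠ y' → (y' ∈ FS (φ x y) ↔ φ x y' = φ x y)
  fixV : ∀ {x y y' V}, x ≠ y → x ≠ y' → Flag q (N x) V (φ x y) → ∀ z ∈ V, z ≠ 1 →
    (z • y' = y' ↔ Flag q (N x) V (φ x y'))
  lineV : ∀ x, ∀ z ∈ N x, z * z = 1 → z ≠ 1 → ∃ V y, x ≠ y ∧ Flag q (N x) V (φ x y) ∧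
    z ∈ V ⊓ φ x y
  cardΩ : Nat.card Ω = 1 + m * (q ^ 2 + q + 1)
  cardQ : ∀ {x y}, x ≠ y → Set.ncard (FS (φ x y) : Set Ω) = 1 + m
  cardz : ∀ x, ∀ z ∈ N x, z * z = 1 → z ≠ 1 → Set.ncard (Fx z : Set Ω) = 1 + m * (q + 1)
  fsV : ∀ {x y V}, x ≠ y → Flag q (N x) V (φ x y) → ∀ z ∈ V, z ≠ 1 → (Fx z : Set Ω) = FS V

/-- case P after the symmetry step -/
structure CQ (q : ℕ) (N : Ω → Subgroup G) (φ : Ω → Ω → Subgroup G) (m : ℕ) : Prop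
    extends CP q N φ m where
  sym : ∀ {x y}, x ≠ y → φ x y = φ y x
  p2 : ∀ x y, ∀ z ∈ N y, z * z = 1 → z • x = x → z ∈ N x
  lineG : ∀ {x y V p p'}, x ≠ y → Flag q (N x) V (φ x y) → p ∈ FS V → p' ∈ FS V → p ≠ p' →
    Flag q (N p) V (φ p p')

/-- case B: two-point stabilisers of `N x` lie in a Borel subgroup; `ψ x y` = their Sylow subgroup -/
structure CB (q : ℕ) (N : Ω → Subgroup G) (ψ : Ω → Ω → Subgroup G) (m : ℕ) : Prop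
    extends Cf q N where
  fl : ∀ {x y}, x ≠ y → ∃ V Q, Flag q (N x) V Q ∧ ψ x y = V ⊔ Q
  eqv : ∀ {x y}, x ≠ y → ∀ g : G, ψ (g • x) (g • y) = cj g (ψ x y)
  fixiff : ∀ {x y}, x ≠ y → ∀ P ≤ N x, IsPGroup 2 P → (y ∈ FS P ↔ P ≤ ψ x y)
  fixel : ∀ {x y}, x ≠ y → ∀ h ∈ N x, h * h = 1 → (h • y = y ↔ h ∈ ψ x y)
  nrmel : ∀ {x y}, x ≠ y → ∀ h ∈ N x, h * h = 1 → cj h (ψ x y) = ψ x y → h ∈ ψ x y
  surj : ∀ {x V Q}, Flag q (N x) V Q → ∃ y, x ≠ y ∧ ψ x y = V ⊔ Q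
  mpos : 1 ≤ m
  cnt : ∀ x (S : Set (Subgroup G)), (∀ U ∈ S, ∃ V Q, Flag q (N x) V Q ∧ U = V ⊔ Q) →
    Set.ncard {y | x ≠ y ∧ ψ x y ∈ S} = m * Set.ncard S
  fixz : ∀ {x V Q}, Flag q (N x) V Q → ∀ z ∈ V ⊓ Q, z ≠ 1 → (Fx z : Set Ω) = FS V ∪ FS Q
  cardΩ : Nat.card Ω = 1 + m * ((q + 1) * (q ^ 2 + q + 1))
  cardU : ∀ {x V Q}, Flag q (N x) V Q → Set.ncard (FS V ∩ FS Q : Set Ω) = 1 + m
  cardV : ∀ {x V}, Rad q (N x) V → Set.ncard (FS V : Set Ω) = 1 + m * (q + 1)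
  cardz : ∀ x, ∀ z ∈ N x, z * z = 1 → z ≠ 1 → Set.ncard (Fx z : Set Ω) = 1 + m * (2 * q + 1)

/-- the involutions `d` of the affine case -/
def Dd (q : ℕ) (N : Ω → Subgroup G) (φ : Ω → Ω → Subgroup G) (a b : Ω) (d : G) : Prop :=
  d * d = 1 ∧ d • a = b ∧ ∀ V, Flag q (N a) V (φ a b) → Cz d V

/-- parabolic type at the pair `(x, y)` -/
def PP (q : ℕ) (N : Ω → Subgroup G) (x y : Ω) (Q : Subgroup G) : Prop :=
  Rad q (N x) Q ∧ (∀ V, Flag q (N x) V Q → y ∈ FS V) ∧ ∀ h ∈ N x, h • y = y → cj h Q = Q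

/-- Borel type at the pair `(x, y)` -/
def PB (q : ℕ) (N : Ω → Subgroup G) (x y : Ω) (V Q : Subgroup G) : Prop :=
  Flag q (N x) V Q ∧ y ∈ FS (V ⊔ Q) ∧ ∀ h ∈ N x, h • y = y → cj h V = V ∧ cj h Q = Q

/-- involutions of `N y` fixing `x` lie in `N x` -/
def P2 (N : Ω → Subgroup G) : Prop := ∀ x y, ∀ z ∈ N y, z * z = 1 → z • x = x → z ∈ N x

/-- `C_G(N x)` is semiregular off `x` -/
def Semi (N : Ω → Subgroup G) : Prop :=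
  ∀ x y, x ≠ y → ∀ c : G, Cz c (N x) → c • y = y → c = 1

/-- any two points are swapped by an involution of some `N p` -/
def Swp (N : Ω → Subgroup G) : Prop :=
  ∀ x y : Ω, x ≠ y → ∃ p, ∃ t ∈ N p, t * t = 1 ∧ t • x = y

/-- parallel blocks have the same root group -/
def Par (q : ℕ) (N : Ω → Subgroup G) (φ : Ω → Ω → Subgroup G) : Prop :=
  ∀ x y V, x ≠ y → Flag q (N x) V (φ x y) → ∀ p ∈ (FS V : Set Ω), ∀ p' ∈ (FS V : Set Ω), ∀ Q Q',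
    Flag q (N p) V Q → Flag q (N p') V Q' → ∀ z ∈ V, z ≠ 1 → z ∈ Q → z ∈ Q' → V ⊓ Q = V ⊓ Q'

/-- `C_G(V)` is transitive on the fixed points of the line group `V` -/
def Tr1 (q : ℕ) (N : Ω → Subgroup G) (φ : Ω → Ω → Subgroup G) : Prop :=
  ∀ x y V, x ≠ y → Flag q (N x) V (φ x y) → ∀ p ∈ (FS V : Set Ω), ∀ p' ∈ (FS V : Set Ω),
    ∃ c : G, Cz c V ∧ c • p = p'

variable (Ω) in
/-- regular normal subgroup of exponent two -/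
structure Reg (E : Subgroup G) : Prop where
  normal : E.Normal
  sq : ∀ e ∈ E, e * e = 1
  tr : ∀ x y : Ω, ∃ r ∈ E, r • x = y
  reg : ∀ x : Ω, ∀ r ∈ E, r • x = x → r = 1
  card : Nat.card E = Nat.card Ω

end H45.HL
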