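import Cfsg.Agent.Lib.HL3.Defs

/-! Two-point stabilisers are of parabolic or of Borel type (package Dich). -/

set_option linter.unusedSectionVars false

namespace H45.HL

variable {G : Type*} [Group G] [Finite G]

namespace Dich

variable {Ω : Type*} [MulAction G Ω] {q : ℕ} {N : Ω → Subgroup G}

omit [Finite G] in
theorem fs_cj {E : Subgroup G} {y : Ω} (h : y ∈ FS E) (g : G) : g • y ∈ (FS (cj g E) : Set Ω) := by
  rintro _ ⟨k, hk, rfl⟩
  show (g * k * g⁻¹) • g • y = g • y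
  rw [mul_smul, inv_smul_smul, mul_smul, h k hk]

theorem flag [Finite Ω] (h : Cf q N) {x y : Ω} (hxy : x ≠ y) :
    ∃ V Q, Flag q (N x) V Q ∧ y ∈ (FS (V ⊔ Q) : Set Ω) := by
  have : Fact (Nat.Prime 2) := ⟨Nat.prime_two⟩
  obtain ⟨V, Q, f⟩ := (h.pl x).ex
  obtain ⟨n, -, hq⟩ := (h.pl x).pow
  have p2 : IsPGroup 2 (V ⊔ Q : Subgroup G) :=
    IsPGroup.of_card (n := n * 3) (by rw [(h.pl x).cardU f, hq, pow_mul])
  obtain ⟨y0, h0, ne⟩ := p2.exists_fixed_point_of_prime_dvd_card_of_fixed_point Ω h.even.two_dvd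
    (a := x) fun u => h.fix x u (f.sup_le u.2)
  obtain ⟨g, e1, e2⟩ := h.two x y0 x y ne hxy
  refine ⟨cj g V, cj g Q, f.cj' (by rw [h.conj, e1]), ?_⟩
  rw [← cj_sup, ← e2]
  exact fs_cj (fun u hu => h0 ⟨u, hu⟩) g

omit [Finite G] in
theorem half (h : Cf q N) {x y : Ω} {V Q : Subgroup G} (f : Flag q (N x) V Q)
    (hy : y ∈ (FS (V ⊔ Q) : Set Ω)) (hQ : ∀ g ∈ N x, g • y = y → cj g Q = Q) :
    (∃ Q, PP q N x y Q) ∨ ∃ V Q, PB q N x y V Q := by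
  by_cases c : ∀ g ∈ N x, g • y = y → cj g V = V
  · exact Or.inr ⟨V, Q, f, hy, fun g hg e => ⟨c g hg e, hQ g hg e⟩⟩
  push Not at c
  obtain ⟨g, hg, e, ne⟩ := c
  have yV : y ∈ (FS V : Set Ω) := fun v hv => hy v (Subgroup.mem_sup_left hv)
  have f2 : Flag q (N x) (cj g V) Q := hQ g hg e ▸ f.cj' (cj_eq_of_mem hg)
  refine Or.inl ⟨Q, f.r, fun V' f' => ?_, hQ⟩
  by_cases e' : V' = V
  · exact e' ▸ yV
  obtain ⟨v, hv, rfl⟩ := (h.pl x).trans f.symm f2.symm f'.symm ne e'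
  have := fs_cj (fs_cj yV g) v
  rwa [e, yV v hv] at this

theorem each [Finite Ω] (h : Cf q N) {x y : Ω} (hxy : x ≠ y) :
    (∃ Q, PP q N x y Q) ∨ ∃ V Q, PB q N x y V Q := by
  obtain ⟨V, Q, f, hy⟩ := flag h hxy
  rcases (h.pl x).ovr f (N x ⊓ MulAction.stabilizer G y)
    (fun u hu => ⟨f.sup_le hu, hy u hu⟩) inf_le_left (fun e => by
      obtain ⟨k, hk, ne⟩ := h.moves x y hxy
      exact ne (e.ge hk).2) with c | c
  · exact half h f.symm (sup_comm V Q ▸ hy) fun g hg e => c g ⟨hg, e⟩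
  · exact half h f hy fun g hg e => c g ⟨hg, e⟩

omit [Finite G] in
theorem pp_cj (h : Cf q N) {x y : Ω} {Q : Subgroup G} (p : PP q N x y Q) (g : G) :
    PP q N (g • x) (g • y) (cj g Q) := by
  refine ⟨h.conj g x ▸ p.1.cj g, fun V f => ?_, fun k hk e => ?_⟩
  · have f' := f.cj g⁻¹
    rw [h.conj, inv_smul_smul, cj_inv_cj] at f'
    have := fs_cj (p.2.1 _ f') g
    rwa [cj_cj_inv] at this
  · rw [← h.conj, mem_cj] at hk
    have := p.2.2 _ hk (by rw [mul_smul, mul_smul, e, inv_smul_smul])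
    rw [cj_mul, cj_mul] at this
    rw [← cj_cj_inv g (cj k (cj g Q)), this]

end Dich

theorem dich {Ω : Type*} [MulAction G Ω] [Finite Ω] {q : ℕ} {N : Ω → Subgroup G} (h : Cf q N) :
    (∀ x y, x ≠ y → ∃ Q, PP q N x y Q) ∨ ∀ x y, x ≠ y → ∃ V Q, PB q N x y V Q := by
  by_cases c : ∃ x y, x ≠ y ∧ ∃ Q, PP q N x y Q
  · obtain ⟨x, y, hxy, Q, p⟩ := c
    refine Or.inl fun x' y' ne => ?_
    obtain ⟨g, rfl, rfl⟩ := h.two x y x' y' hxy ne
    exact ⟨_, Dich.pp_cj h p g⟩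
  · exact Or.inr fun x y ne => (Dich.each h ne).resolve_left fun p => c ⟨x, y, ne, p⟩

end H45.HL
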