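import Mathlib.Combinatorics.Enumerative.DoubleCounting
import Cfsg.Agent.Lib.HL3.Defs

/-! Counting the elements of a normal subset of a 2-transitive group. -/

namespace H45.HL

variable {G : Type*} [Group G] [Finite G]

theorem inv_tr {Ω : Type*} [MulAction G Ω] (I : Set G) (hI : ∀ g : G, ∀ t ∈ I, g * t * g⁻¹ ∈ I)
    (g : G) (x y : Ω) :
    Set.ncard {t | t ∈ I ∧ t • x = y} = Set.ncard {t | t ∈ I ∧ t • g • x = g • y} := by
  refine Set.ncard_congr (fun t _ => g * t * g⁻¹) (fun t ht => ⟨hI g t ht.1, ?_⟩)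
    (fun s t _ _ e => by simpa using e) fun t ht => ⟨g⁻¹ * t * g, ⟨by simpa using hI g⁻¹ t ht.1, ?_⟩, by group⟩
  · rw [mul_smul, mul_smul, inv_smul_smul, ht.2]
  · rw [mul_smul, mul_smul, ht.2, inv_smul_smul]

theorem inv_count {Ω : Type*} [MulAction G Ω] [Finite Ω]
    (two : ∀ x y x' y' : Ω, x ≠ y → x' ≠ y' → ∃ g : G, g • x = x' ∧ g • y = y')
    (I : Set G) (hI : ∀ g : G, ∀ t ∈ I, g * t * g⁻¹ ∈ I) {f : ℕ}
    (hf : ∀ t ∈ I, Set.ncard (Fx t : Set Ω) = f) {a b : Ω} (hab : a ≠ b) :
    I.ncard * f = Nat.card Ω * Set.ncard {t | t ∈ I ∧ t • a = a} ∧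
      I.ncard = Set.ncard {t | t ∈ I ∧ t • a = a} +
        (Nat.card Ω - 1) * Set.ncard {t | t ∈ I ∧ t • a = b} := by
  classical
  haveI := Fintype.ofFinite G
  haveI := Fintype.ofFinite Ω
  have key : ∀ x y : Ω, ((I.toFinset).filter fun t => t • x = y).card = Set.ncard {t | t ∈ I ∧ t • x = y} :=
    fun x y => by
      rw [← Set.ncard_coe_finset]
      congr 1
      ext t
      simp
  constructor
  · rw [Set.ncard_eq_toFinset_card' I, Nat.card_eq_fintype_card, ← Finset.card_univ]
    refine Finset.card_mul_eq_card_mul (fun (t : G) (p : Ω) => t • p = p) (fun t ht => ?_) fun p _ => ?_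
    · rw [← hf t (by simpa using ht), ← Set.ncard_coe_finset]
      congr 1
      ext p
      simp [Finset.mem_bipartiteAbove, Fx]
    · obtain ⟨g, rfl⟩ : ∃ g : G, g • a = p := by
        by_cases h : p = a
        · exact ⟨1, by rw [h, one_smul]⟩
        · exact (two a b p a hab h).imp fun _ e => e.1
      rw [inv_tr I hI g a a, ← key]
      rfl
  · rw [Set.ncard_eq_toFinset_card' I, Finset.card_eq_sum_card_fiberwise (f := fun t => t • a)
      (t := Finset.univ) (fun _ _ => Finset.mem_coe.2 (Finset.mem_univ _)),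
      ← Finset.add_sum_erase _ _ (Finset.mem_univ a), key, Nat.card_eq_fintype_card, ← Finset.card_univ,
      ← Finset.card_erase_of_mem (Finset.mem_univ a), ← smul_eq_mul, ← Finset.sum_const]
    congr 1
    refine Finset.sum_congr rfl fun p hp => ?_
    obtain ⟨g, h1, h2⟩ := two a b a p hab (Finset.ne_of_mem_erase hp).symm
    rw [key, inv_tr I hI g a b, h1, h2]

end H45.HL
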