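import Cfsg.Agent.Lib.HL3.P1a

namespace H45.HL

variable {G : Type*} [Group G] [Finite G]

namespace P1

variable {Ω : Type*} [MulAction G Ω] [Finite Ω] {q m : ℕ} {N : Ω → Subgroup G}
  {φ : Ω → Ω → Subgroup G} (h : CP q N φ m)
include h

theorem meet {x y : Ω} (xy : x ≠ y) : ∃ s ∈ φ x y, s ∈ φ y x ∧ s ≠ 1 := by
  by_contra hc
  push Not at hc
  have a : ∀ {x' y' : Ω}, x' ≠ y' → ∀ s ∈ φ x' y', s ∈ φ y' x' → s = 1 := fun {x' y'} e s h1 h2 => by
    obtain ⟨g, rfl, rfl⟩ := h.two x y x' y' xy e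
    rw [h.eqv xy, mem_cj] at h1
    rw [h.eqv xy.symm, mem_cj] at h2
    simpa [mul_assoc, inv_mul_eq_one] using hc _ h1 h2
  have b : ∀ {x y : Ω}, x ≠ y → ∀ t ∈ φ y x, Cz t (N x) := fun {x y} xy t ht => by
    have t1 := fy h xy.symm t ht
    have t2 := fx h xy.symm t ht
    have k : ∀ g : G, g • x = x → g • y = y → t * g * t⁻¹ * g⁻¹ ∈ φ y x := fun g e1 e2 => by
      simpa [mul_assoc] using (φ y x).mul_mem ht (conj_mem_of_cj (cjφ h xy.symm e2 e1) (inv_mem ht))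
    obtain ⟨s, hs, c⟩ := (h.pl x).autV (h.rad xy) t (cjN h t1) fun s hs => cz_of_comm (a xy _
      (mul_mem (conj_mem_of_cj (cjφ h xy t1 t2) hs) (inv_mem hs)) (k s (fx h xy s hs) (fy h xy s hs)))
    have : s = 1 := nz (h.pl x) (h.rad xy) hs fun V f v hv => by
      have e : t * v * t⁻¹ * v⁻¹ = s * v * s⁻¹ * v⁻¹ := by
        calc _ = s * (s⁻¹ * t * v) * t⁻¹ * v⁻¹ := by group
          _ = _ := by rw [c v (f.l.le hv)]; group
      refine (cz_of_comm (a xy _ ?_ (e ▸ k v (lx h f v hv) (ly h xy f v hv)))).symm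
      simpa [mul_assoc] using (φ x y).mul_mem hs
        (conj_mem_of_cj (cjφ h xy (lx h f v hv) (ly h xy f v hv)) (inv_mem hs))
    simpa [this] using c
  obtain ⟨g, hg, e⟩ := h.moves x y xy
  have e1 : φ (g • y) x = φ y x := by
    rw [← h.fix x g hg, h.eqv xy.symm, h.fix x g hg]
    exact cj_eq_of_conj_mem fun t ht => by rwa [← b xy t ht g hg, mul_inv_cancel_right]
  have x1 : g • y ≠ x := fun e2 => xy (smul_left_cancel g (e2.trans (h.fix x g hg).symm)).symm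
  have e2 := (h.fixQ xy.symm e.symm).1 (e1 ▸ fx h x1)
  obtain ⟨V, ⟨-, -, -, z, z1, -, z2⟩, -⟩ := (h.pl y).third (h.rad xy.symm) ⊥ ⊥
  exact z2 ((h.pl _).zero z ((h.rad x1).le (e1 ▸ z1)) (b e z (e2 ▸ z1)))

theorem sym {x y : Ω} (xy : x ≠ y) : φ x y = φ y x := by
  obtain ⟨s, s1, s2, s3⟩ := meet h xy
  have p := h.pl x
  have r := h.rad xy
  obtain ⟨V₀, f₀, s4⟩ := p.thru r s s1 s3
  have k : ∀ V, Flag q (N x) (φ x y) V → V ≠ V₀ → ∀ w ∈ φ x y ⊓ V, w ∈ φ y x := fun V f e w hw => by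
    obtain ⟨v, hv, rfl⟩ := p.onto f s s1 (fun e1 => e (uniq p f₀ f s1 s4 e1 s3)) w hw
    simpa [mul_assoc] using (φ y x).mul_mem s2
      (conj_mem_of_cj (cjφ h xy.symm (ly h xy f.symm v hv) (lx h f.symm v hv)) (inv_mem s2))
  obtain ⟨V₁, f₁, e₁, -⟩ := p.third r V₀ V₀
  obtain ⟨V₂, f₂, e₂, e₃⟩ := p.third r V₀ V₁
  refine r.eq_of_le (h.rad xy.symm) fun v hv => ?_
  obtain ⟨w, hw, w', hw', rfl⟩ := p.split f₁ f₂ e₃ v hv
  exact mul_mem (k _ f₁ e₁ w hw) (k _ f₂ e₂ w' hw')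

theorem p2 (x y : Ω) (z : G) (hz : z ∈ N y) (z2 : z * z = 1) (zx : z • x = x) : z ∈ N x := by
  by_cases xy : x = y
  · exact xy ▸ hz
  have yx : y ≠ x := Ne.symm xy
  have zy := h.fix y z hz
  by_cases zQ : z ∈ φ x y
  · exact (h.rad xy).le zQ
  have p := h.pl x
  have p' := h.pl y
  obtain ⟨V', f', l⟩ := p'.norm (h.rad yx) _ (Subgroup.zpowers_le.2 hz) (zp_two z2)
    (zp_cj (cjφ h yx zy zx))
  have nx := ly h yx f'.symm
  rw [← sym h xy] at f' l
  have zV := (p'.invU f' z (l (Subgroup.mem_zpowers z)) z2).resolve_left zQ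
  obtain ⟨w', w1, w2, w3⟩ := f'.meet
  obtain ⟨V, f, w4⟩ := p.thru (h.rad xy) w' w1 w3
  have nV : ∀ v ∈ V', cj v V = V := fun v hv => uniq p f (by
      have := f.cj' (cjN h (nx v hv))
      rwa [cjφ h xy (nx v hv) (lx h f'.symm v hv)] at this) w1 w4
    (by rwa [mem_cj, mul_assoc, ← f'.r.comm hv w2, inv_mul_cancel_left]) w3
  have WV : ∀ w ∈ V ⊓ φ x y, w ∈ V' := fun w hw => by
    by_contra e
    have : φ x y ⊓ V' = φ x y ⊓ V := Subgroup.eq_of_le_of_card_ge (fun u hu => ⟨hu.1, by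
      obtain ⟨v, hv, rfl⟩ := p'.onto f' w hw.2 e u hu
      simpa [mul_assoc] using V.mul_mem hw.1 (conj_mem_of_cj (nV v hv) (inv_mem hw.1))⟩)
      (by rw [p.cardW f, p'.cardW f'])
    exact e (this.ge ⟨hw.2, hw.1⟩).2
  obtain ⟨u, hu, c⟩ := p.autI f.symm z (cjN h zx) z2 (nV z zV) fun w hw => f'.r.comm zV (WV w hw)
  have uN := f.symm.sup_le hu
  have e : z = u * (u⁻¹ * z) := by group
  generalize u⁻¹ * z = c' at c e
  have u2 : u * u = 1 := p.zero _ (mul_mem uN uN) (by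
    have : u * u = (c' * c')⁻¹ := by
      rw [eq_inv_iff_mul_eq_one, ← z2, e]
      calc _ = u * (u * c') * c' := by group
        _ = u * (c' * u) * c' := by rw [c u uN]
        _ = _ := by group
    exact this ▸ (c.mul c).inv)
  have u1 : u ≠ 1 := fun e1 => f'.ne (f'.l.eq_of_le f'.r fun s hs =>
    (p'.pair f'.symm z zV s hs (by rw [e, e1, one_mul]; exact c s ((h.rad xy).le hs))).resolve_left zQ)
  have k : (Fx z : Set Ω) = Fx u := Set.eq_of_subset_of_ncard_le (fun r (hr : z • r = r) => by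
    by_cases xr : x = r
    · exact xr ▸ h.fix x u uN
    refine (h.fixel xr u uN u2).2 ?_
    rw [show u = z * c'⁻¹ by rw [e]; group, cj_mul, (c.inv.mono (h.rad xr).le).cj_eq, cjφ h xr zx hr])
    (by rw [h.cardz x u uN u2 u1, h.cardz y z hz z2 fun e => zQ (e ▸ one_mem _)])
  have : c' = 1 := h.faith _ fun r => by
    by_cases xr : x = r
    · exact xr ▸ cfix h c
    obtain ⟨g, hg, e1⟩ := h.typ xr xy
    have xg : x ≠ g • r := fun e2 => xr (smul_left_cancel g ((h.fix x g hg).trans e2))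
    have e2 : u • g • r = g • r := (h.fixel xg u uN u2).2 (by
      rw [← h.fix x g hg, h.eqv xr, e1]
      exact p.nrm f u (sup_comm V _ ▸ hu))
    have e3 : z • g • r = g • r := (k.ge e2 :)
    rw [e, mul_smul, smul_smul c', c g hg, mul_smul] at e3
    exact smul_left_cancel g (smul_left_cancel u (e3.trans e2.symm))
  rwa [e, this, mul_one]

end P1

open P1 in
theorem CP.cq {Ω : Type*} [MulAction G Ω] [Finite Ω] {q m : ℕ} {N : Ω → Subgroup G}
    {φ : Ω → Ω → Subgroup G} (h : CP q N φ m) : CQ q N φ m := by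
  refine ⟨h, sym h, p2 h, fun {x y V p p'} xy f hp hp' e => ?_⟩
  have l : V ≤ N p := fun v hv => p2 h p x v (f.l.le hv) (f.l.sq v hv) (hp v hv)
  obtain ⟨E, f', l'⟩ := (h.pl p).norm (h.rad e) V l f.l.isP ((h.fixiff e V l f.l.isP).1 hp')
  rcases (h.pl p).sub f' (f.l.of_le l) l' with e1 | rfl
  · obtain ⟨z, z1, -, z2⟩ := f.meet
    have := h.cardz x z (f.l.le z1) (f.l.sq z z1) z2
    rw [h.fsV xy f z z1 z2, e1, h.cardQ e] at this
    obtain ⟨n, -, rfl⟩ := (h.pl x).pow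
    have := h.mpos
    have : 0 < 2 ^ n := by positivity
    nlinarith
  · exact f'.symm

end H45.HL
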