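import Cfsg.Agent.Lib.HL3.Defs

namespace H45.HL.P1

variable {G : Type*} [Group G]

theorem zp_two {z : G} (h : z * z = 1) : IsPGroup 2 (Subgroup.zpowers z) :=
  fun ⟨x, n, e⟩ => ⟨1, Subtype.ext (by
    show x ^ 2 ^ 1 = 1
    rw [← e, pow_one, ← zpow_natCast, ← zpow_mul, mul_comm, zpow_mul, zpow_natCast, pow_two, h,
      one_zpow])⟩

/-- the stabiliser of a subgroup under conjugation -/
def nr (E : Subgroup G) : Subgroup G where
  carrier := {g | cj g E = E}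
  one_mem' := cj_one E
  mul_mem' {a b} ha hb := by rw [Set.mem_setOf_eq, cj_mul, hb, ha]
  inv_mem' h := cj_inv_eq h

theorem zp_cj {z : G} {E : Subgroup G} (h : cj z E = E) : ∀ g ∈ Subgroup.zpowers z, cj g E = E :=
  fun _ hg => (Subgroup.zpowers_le (H := nr E)).2 h hg

theorem cz_of_comm {g h : G} (e : g * h * g⁻¹ * h⁻¹ = 1) : g * h = h * g := by
  rwa [mul_inv_eq_one, mul_inv_eq_iff_eq_mul] at e

variable [Finite G] {q : ℕ}

theorem out {N V Q : Subgroup G} (f : Flag q N V Q) : ∃ v ∈ V, v ∉ Q :=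
  SetLike.not_le_iff_exists.1 fun e => f.ne (f.l.eq_of_le f.r e)

theorem nz {N Q : Subgroup G} (p : Pl q N) (hQ : Rad q N Q) {s : G} (hs : s ∈ Q)
    (h : ∀ V, Flag q N V Q → ∀ v ∈ V, v * s = s * v) : s = 1 := by
  have k : ∀ V, Flag q N Q V → s ∈ V := fun V f => by
    obtain ⟨v, h1, h2⟩ := out f.symm
    exact (p.pair f.symm v h1 s hs (h V f.symm v h1)).resolve_left h2
  obtain ⟨V, f, -⟩ := p.third hQ Q Q
  obtain ⟨V', f', e, -⟩ := p.third hQ V V
  exact p.disj f f' e s hs (k V f) (k V' f')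

omit [Finite G] in
theorem uniq {N Q V V' : Subgroup G} (p : Pl q N) (f : Flag q N Q V) (f' : Flag q N Q V') {w : G}
    (h : w ∈ Q) (h1 : w ∈ V) (h2 : w ∈ V') (h3 : w ≠ 1) : V' = V :=
  by_contra fun e => h3 (p.disj f f' e w h h1 h2)

variable {Ω : Type*} [MulAction G Ω] {m : ℕ} {N : Ω → Subgroup G} {φ : Ω → Ω → Subgroup G}
  (h : CP q N φ m)
include h
omit [Finite G]

theorem cjN {g : G} {x : Ω} (e : g • x = x) : cj g (N x) = N x := by rw [h.conj, e]

theorem cjφ {g : G} {x y : Ω} (xy : x ≠ y) (e : g • x = x) (e' : g • y = y) :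
    cj g (φ x y) = φ x y := by rw [← h.eqv xy, e, e']

theorem fy {x y : Ω} (xy : x ≠ y) : y ∈ FS (φ x y) := (h.fixQ xy xy).2 rfl

theorem fx {x y : Ω} (xy : x ≠ y) : x ∈ FS (φ x y) := fun g hg => h.fix x g ((h.rad xy).le hg)

theorem ly {x y : Ω} (xy : x ≠ y) {V : Subgroup G} (f : Flag q (N x) V (φ x y)) : y ∈ FS V :=
  (h.fixiff xy V f.l.le f.l.isP).2 fun g hg => (h.pl x).nrm f.symm g (Subgroup.mem_sup_right hg)

theorem lx {x : Ω} {V Q : Subgroup G} (f : Flag q (N x) V Q) : x ∈ FS V :=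
  fun g hg => h.fix x g (f.l.le hg)

theorem cfix {x : Ω} {c : G} (hc : Cz c (N x)) : c • x = x := by
  by_contra e
  obtain ⟨g, hg, e1⟩ := h.moves x (c • x) (Ne.symm e)
  exact e1 (by rw [smul_smul, ← hc g hg, ← smul_smul, h.fix x g hg])

end H45.HL.P1
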