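import Cfsg.Agent.Lib.HL3.Defs

namespace H45.HL

variable {G : Type*} [Group G] [Finite G]

theorem CQ.par {Ω : Type*} [MulAction G Ω] [Finite Ω] {q m : ℕ} {N : Ω → Subgroup G}
    {φ : Ω → Ω → Subgroup G} (h : CQ q N φ m) (hm : m + 1 = q) : Par q N φ := by
  intro x y V hxy hV p hp p' hp' Q Q' hQ hQ' z hz z1 zQ zQ'
  have fs : ∀ {a : Ω} {E : Subgroup G}, E ≤ N a → a ∈ FS E := fun l k hk => h.fix _ k (l hk)
  have fv : ∀ {a b c : Ω}, a ≠ b → a ≠ c → Flag q (N a) V (φ a b) → Flag q (N a) V (φ a c) →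
      c ∈ FS V := fun ab ac f1 f2 k hk => by
    by_cases k1 : k = 1
    · rw [k1, one_smul]
    · exact (h.fixV ab ac f1 k hk k1).2 f2
  obtain ⟨p1, hp1, n1⟩ : ∃ p1 ∈ (FS V : Set Ω), p ≠ p1 := by
    by_cases e : p = x
    · exact ⟨y, fv hxy hxy hV hV, e ▸ hxy⟩
    · exact ⟨x, fs hV.l.le, e⟩
  obtain ⟨y1, n2, rfl⟩ := h.surj n1 (h.lineG hxy hV hp hp1 n1) hQ
  have rQ : ∀ r ∈ (FS (φ p y1) : Set Ω), Rad q (N r) (φ p y1) := fun r hr =>
    hQ.r.of_le fun t ht => h.p2 r p t (hQ.r.le ht) (hQ.r.sq t ht) (hr t ht)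
  by_cases hpQ : p' ∈ FS (φ p y1)
  · rw [((h.pl p').radz hQ' (rQ p' hpQ) z ⟨hz, zQ'⟩ z1 zQ).resolve_left hQ.ne.symm]
  have ne : ∀ r ∈ (FS (φ p y1) : Set Ω), p' ≠ r := fun r hr e => hpQ (e ▸ hr)
  have nq : ∀ r ∈ (FS (φ p y1) : Set Ω), φ p y1 ≠ φ p' r := fun r hr e =>
    hpQ (e ▸ fs (h.rad (ne r hr)).le)
  have sub : ∀ r ∈ (FS (φ p y1) : Set Ω), r ∈ FS V := fun r hr => by
    by_cases e : p = r
    · exact e ▸ hp
    · exact fv n2 e hQ ((h.fixQ n2 e).1 hr ▸ hQ)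
  have inj : Set.InjOn (φ p') (FS (φ p y1)) := fun r hr r' hr' e => by
    by_contra n
    have e1 : φ r r' = φ p y1 := by
      by_cases e : p = r
      · subst e; exact (h.fixQ n2 n).1 hr'
      · have e2 := (h.fixQ n2 e).1 hr
        rw [← e2, h.sym e] at hr' ⊢
        exact (h.fixQ (Ne.symm e) n).1 hr'
    refine nq r hr ?_
    rw [← e1, h.sym (ne r hr)]
    refine (h.fixQ (ne r hr).symm n).1 ?_
    rw [← h.sym (ne r hr), e, h.sym (ne r' hr')]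
    exact fs (h.rad (ne r' hr').symm).le
  have nim : ∀ w ∈ V ⊓ φ p y1, w ≠ 1 → ∀ E : Subgroup G, w ∈ E → E ∉ φ p' '' FS (φ p y1) := by
    rintro w hw w1 _ wE ⟨r, hr, rfl⟩
    rw [h.sym (ne r hr)] at wE
    rcases (h.pl r).radz (h.lineG hxy hV (sub r hr) hp' (ne r hr).symm) (rQ r hr) w ⟨hw.1, wE⟩ w1 hw.2
      with e | e
    · exact hQ.ne e.symm
    · exact nq r hr (e.trans (h.sym (ne r hr)).symm)
  refine Subgroup.eq_of_le_of_card_ge (fun w hw => ⟨hw.1, ?_⟩)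
    (by rw [(h.pl p).cardW hQ, (h.pl p').cardW hQ'])
  by_cases w1 : w = 1
  · exact w1 ▸ one_mem _
  obtain ⟨E, hE, wE⟩ := (h.pl p').thru hQ'.l w hw.1 w1
  by_contra n
  have := Set.ncard_le_ncard (s := insert E (insert Q' (φ p' '' FS (φ p y1))))
    (t := {Q | Flag q (N p') V Q}) (by
      rintro _ (rfl | rfl | ⟨r, hr, rfl⟩)
      exacts [hE, hQ', h.lineG hxy hV hp' (sub r hr) (ne r hr)])
  rw [(h.pl p').line hQ'.l, Set.ncard_insert_of_notMem (by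
      rintro (rfl | k)
      exacts [n wE, nim w hw w1 E wE k]),
    Set.ncard_insert_of_notMem (nim z ⟨hz, zQ⟩ z1 Q' zQ'), inj.ncard_image, h.cardQ n2] at this
  omega

end H45.HL
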