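import Cfsg.Agent.Lib.HL3.Defs

namespace H45.HL

variable {G : Type*} [Group G] [Finite G]

namespace Pl1a

open Subgroup

/-- the local data of a flag -/
structure Good (q : ℕ) (N V Q : Subgroup G) : Prop where
  fl : Flag q N V Q
  two : 2 ≤ q
  cardW : Nat.card (V ⊓ Q : Subgroup G) = q
  comm : ∀ v ∈ V, ∀ y ∈ Q, v * y * v⁻¹ * y⁻¹ ∈ V ⊓ Q
  pair : ∀ v ∈ V, ∀ y ∈ Q, v * y = y * v → v ∈ Q ∨ y ∈ V
  cent : ∀ z ∈ V ⊓ Q, z ≠ 1 → ∀ g ∈ N, g * g = 1 → g * z = z * g → g ∈ V ∨ g ∈ Q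
  type : ∀ g ∈ N, cj g V ≠ Q

variable {q : ℕ} {N V Q E : Subgroup G}

theorem exists_ne (h : 2 ≤ Nat.card E) : ∃ z ∈ E, z ≠ 1 := by
  by_contra n
  push Not at n
  rw [(eq_bot_iff_forall E).2 n, card_bot] at h
  omega

omit [Finite G] in
theorem union (h : ∀ x ∈ E, x ∈ V ∨ x ∈ Q) : E ≤ V ∨ E ≤ Q := by
  by_contra n
  obtain ⟨⟨x, hx, x1⟩, y, hy, y1⟩ := (not_or.1 n).imp SetLike.not_le_iff_exists.1 SetLike.not_le_iff_exists.1
  rcases h _ (mul_mem hx hy) with m | m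
  · exact x1 ((V.mul_mem_cancel_right ((h y hy).resolve_right y1)).1 m)
  · exact y1 ((Q.mul_mem_cancel_left ((h x hx).resolve_left x1)).1 m)

theorem nrm_of {g : G} (h : cj g E = E) : g ∈ normalizer (E : Set G) :=
  mem_normalizer_fintype fun _ hx => conj_mem_of_cj h hx

theorem card_sup (h : Q ≤ normalizer (V : Set G)) :
    Nat.card (V ⊔ Q : Subgroup G) * Nat.card (V ⊓ Q : Subgroup G) = Nat.card V * Nat.card Q := by
  have := normal_subgroupOf_of_le_normalizer h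
  have := normal_subgroupOf_sup_of_le_normalizer h
  have e : V.relIndex Q = V.relIndex (Q ⊔ V) :=
    Nat.card_congr (QuotientGroup.quotientInfEquivProdNormalizerQuotient Q V h).toEquiv
  have a := (V.subgroupOf Q).card_mul_index
  have b := (V.subgroupOf (Q ⊔ V)).card_mul_index
  rw [Nat.card_congr (subgroupOfEquivOfLe le_sup_right).toEquiv] at b
  rw [← inf_subgroupOf_right, Nat.card_congr (subgroupOfEquivOfLe inf_le_right).toEquiv, inf_subgroupOf_right] at a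
  rw [sup_comm, ← a, ← b]
  simp only [relIndex] at e
  rw [e]; ring

namespace Good

omit [Finite G] in
theorem symm (h : Good q N V Q) : Good q N Q V where
  fl := h.fl.symm
  two := h.two
  cardW := inf_comm V Q ▸ h.cardW
  comm y hy v hv := by
    have := inv_mem (h.comm v hv y hy)
    rw [inf_comm]
    simpa [mul_assoc] using this
  pair y hy v hv e := (h.pair v hv y hy e.symm).symm
  cent z hz n g hg e f := (h.cent z ⟨hz.2, hz.1⟩ n g hg e f).symm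
  type g hg e := h.type _ (inv_mem hg) (cj_inv_eq e)

omit [Finite G] in
theorem conj (h : Good q N V Q) {g : G} (hg : g ∈ N) : Good q N (cj g V) (cj g Q) where
  fl := h.fl.cj' (cj_eq_of_mem hg)
  two := h.two
  cardW := by rw [← cj_inf, card_cj, h.cardW]
  comm v hv y hy := by
    rw [← cj_inf, mem_cj]
    have := h.comm _ (mem_cj.1 hv) _ (mem_cj.1 hy)
    simpa only [mul_assoc, mul_inv_rev, inv_inv, mul_inv_cancel_left] using this
  pair v hv y hy e := (h.pair _ (mem_cj.1 hv) _ (mem_cj.1 hy) (by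
    calc g⁻¹ * v * g * (g⁻¹ * y * g) = g⁻¹ * (v * y) * g := by group
      _ = _ := by rw [e]; group)).imp mem_cj.2 mem_cj.2
  cent z hz n k hk e f := (h.cent (g⁻¹ * z * g) ⟨mem_cj.1 hz.1, mem_cj.1 hz.2⟩
    (fun e => n (by
      calc z = g * (g⁻¹ * z * g) * g⁻¹ := by group
        _ = 1 := by rw [e]; group)) (g⁻¹ * k * g) (mul_mem (mul_mem (inv_mem hg) hk) hg)
    (by
      calc g⁻¹ * k * g * (g⁻¹ * k * g) = g⁻¹ * (k * k) * g := by group
        _ = 1 := by rw [e]; group)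
    (by
      calc g⁻¹ * k * g * (g⁻¹ * z * g) = g⁻¹ * (k * z) * g := by group
        _ = _ := by rw [f]; group)).imp mem_cj.2 mem_cj.2
  type k hk e := h.type (g⁻¹ * k * g) (mul_mem (mul_mem (inv_mem hg) hk) hg) (by
    rw [cj_mul, cj_mul, e, cj_inv_cj])

variable (h : Good q N V Q)
include h

omit [Finite G] in
theorem cjQ {v y : G} (hv : v ∈ V) (hy : y ∈ Q) : v * y * v⁻¹ ∈ Q :=
  (Q.mul_mem_cancel_right (inv_mem hy)).1 (h.comm v hv y hy).2

theorem le_nrm : Q ≤ normalizer (V : Set G) := fun _ hy =>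
  mem_normalizer_fintype fun _ hv => h.symm.cjQ hy hv

theorem memU {u : G} (hu : u ∈ V ⊔ Q) : ∃ v ∈ V, ∃ y ∈ Q, u = v * y := by
  rw [← SetLike.mem_coe, coe_mul_of_right_le_normalizer_left V Q h.le_nrm] at hu
  obtain ⟨v, hv, y, hy, e⟩ := hu
  exact ⟨v, hv, y, hy, e.symm⟩

theorem nrm {u : G} (hu : u ∈ V ⊔ Q) : cj u V = V := by
  obtain ⟨v, hv, y, hy, rfl⟩ := h.memU hu
  rw [cj_mul, cj_eq_of_conj_mem fun x hx => h.symm.cjQ hy hx, cj_eq_of_mem hv]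

theorem cardU : Nat.card (V ⊔ Q : Subgroup G) = q ^ 3 := by
  have := card_sup h.le_nrm
  rw [h.cardW, h.fl.l.card, h.fl.r.card] at this
  exact Nat.eq_of_mul_eq_mul_right (show 0 < q by have := h.two; omega) (this.trans (by ring))

theorem onto {v : G} (hv : v ∈ V) (n : v ∉ Q) {w : G} (hw : w ∈ V ⊓ Q) : ∃ y ∈ Q, v * y * v⁻¹ * y⁻¹ = w := by
  let f : Q →* G := MonoidHom.mk' (fun y => v * y * v⁻¹ * (y : G)⁻¹) fun a b => by
    have := h.fl.r.comm (h.comm v hv b b.2).2 (inv_mem a.2)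
    calc v * (a * b : G) * v⁻¹ * (a * b : G)⁻¹ = v * a * v⁻¹ * (v * b * v⁻¹ * (b : G)⁻¹ * (a : G)⁻¹) := by group
      _ = _ := by rw [this]; group
  have k : f.ker = (V ⊓ Q).subgroupOf Q := Subgroup.ext fun y => by
    rw [MonoidHom.mem_ker, mem_subgroupOf]
    show v * y * v⁻¹ * (y : G)⁻¹ = 1 ↔ _
    rw [mul_inv_eq_one, mul_inv_eq_iff_eq_mul]
    exact ⟨fun e => ⟨(h.pair v hv y y.2 e).resolve_left n, y.2⟩, fun m => h.fl.l.comm hv m.1⟩
  have c := f.ker.card_mul_index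
  rw [index_ker, k, Nat.card_congr (subgroupOfEquivOfLe inf_le_right).toEquiv, h.cardW, h.fl.r.card, pow_two] at c
  have e : f.range = V ⊓ Q := eq_of_le_of_card_ge (by rintro _ ⟨y, rfl⟩; exact h.comm v hv y y.2)
    (by rw [h.cardW, Nat.eq_of_mul_eq_mul_left (show 0 < q by have := h.two; omega) c])
  obtain ⟨y, e⟩ : w ∈ f.range := e ▸ hw
  exact ⟨y, y.2, e⟩

theorem invU {u : G} (hu : u ∈ V ⊔ Q) (e : u * u = 1) : u ∈ V ∨ u ∈ Q := by
  obtain ⟨v, hv, y, hy, rfl⟩ := h.memU hu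
  have := inv_eq_of_mul_eq_one_right e
  rw [mul_inv_rev, h.fl.l.inv_eq hv, h.fl.r.inv_eq hy] at this
  exact (h.pair v hv y hy this.symm).symm.imp (mul_mem hv) fun m => mul_mem m hy

theorem eq_or (r : Rad q N E) (k : ∀ x ∈ E, x ∈ V ∨ x ∈ Q) : E = V ∨ E = Q :=
  (union k).imp (r.eq_of_le h.fl.l) (r.eq_of_le h.fl.r)

theorem sub (r : Rad q N E) (l : E ≤ V ⊔ Q) : E = V ∨ E = Q :=
  h.eq_or r fun x hx => h.invU (l hx) (r.sq x hx)

theorem radz (r : Rad q N E) {z : G} (hz : z ∈ V ⊓ Q) (n : z ≠ 1) (m : z ∈ E) : E = V ∨ E = Q :=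
  h.eq_or r fun x hx => h.cent z hz n x (r.le hx) (r.sq x hx) (r.comm hx m)

theorem disj {Q₁ : Subgroup G} (f : Flag q N V Q₁) (n : Q₁ ≠ Q) {w : G} (a : w ∈ V) (b : w ∈ Q) (c : w ∈ Q₁) :
    w = 1 := by
  by_contra e
  exact (h.radz f.r ⟨a, b⟩ e c).elim f.ne.symm n

theorem split {Q₁ : Subgroup G} (f : Good q N V Q₁) (n : Q₁ ≠ Q) {v : G} (hv : v ∈ V) :
    ∃ w ∈ V ⊓ Q, ∃ w₁ ∈ V ⊓ Q₁, v = w * w₁ := by
  let m : (V ⊓ Q : Subgroup G) × (V ⊓ Q₁ : Subgroup G) → V := fun p => ⟨p.1 * p.2, mul_mem p.1.2.1 p.2.2.1⟩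
  have i : Function.Injective m := by
    rintro ⟨a, b⟩ ⟨c, d⟩ e
    have e : (a : G) * b = c * d := congrArg Subtype.val e
    have k : (c : G)⁻¹ * a = d * (b : G)⁻¹ := by rw [inv_mul_eq_iff_eq_mul, ← mul_assoc, ← e, mul_inv_cancel_right]
    have k1 := h.disj f.fl n (mul_mem (inv_mem c.2.1) a.2.1) (mul_mem (inv_mem c.2.2) a.2.2)
      (k ▸ mul_mem d.2.2 (inv_mem b.2.2))
    rw [k1, eq_comm, mul_inv_eq_one] at k
    exact Prod.ext (Subtype.ext (inv_mul_eq_one.1 k1).symm) (Subtype.ext k.symm)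
  obtain ⟨⟨a, b⟩, e⟩ := ((Nat.bijective_iff_injective_and_card m).2 ⟨i, by
    rw [Nat.card_prod, h.cardW, f.cardW, h.fl.l.card, pow_two]⟩).2 ⟨v, hv⟩
  exact ⟨a, a.2, b, b.2, (congrArg Subtype.val e).symm⟩

theorem trans {Q₁ Q₂ : Subgroup G} (f₁ : Good q N V Q₁) (f₂ : Good q N V Q₂) (n₁ : Q₁ ≠ Q) (n₂ : Q₂ ≠ Q) :
    ∃ y ∈ Q, cj y Q₁ = Q₂ := by
  obtain ⟨v, a, b, c⟩ := f₁.fl.meet
  have n : v ∉ Q := fun m => c (h.disj f₁.fl n₁ a m b)
  obtain ⟨w, hw, u, hu, e⟩ := h.split f₂ n₂ a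
  obtain ⟨y, hy, k⟩ := h.onto a n hw
  have k1 : y * v * y⁻¹ = u := by
    calc y * v * y⁻¹ = v⁻¹ * (v * y * v⁻¹ * y⁻¹) := by rw [← mul_assoc, ← mul_assoc, inv_mul_cancel_left, h.fl.l.inv_eq a]
      _ = u := by
        rw [k, h.fl.l.inv_eq a, e, h.fl.l.comm (mul_mem hw.1 hu.1) hw.1, ← mul_assoc, h.fl.l.sq w hw.1, one_mul]
  refine ⟨y, hy, by_contra fun m => c ?_⟩
  have g := f₁.fl.cj' (cj_eq_of_mem (h.fl.r.le hy))
  rw [h.nrm (mem_sup_right hy)] at g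
  have := f₂.disj g m hu.1 hu.2 (k1 ▸ conj_mem_cj.2 b)
  rwa [← k1, conj_eq_one_iff] at this

end Good

variable {V0 Q0 : Subgroup G} (h : L0 q N V0 Q0)
include h

omit [Finite G] in
theorem two_le : 2 ≤ q := by
  obtain ⟨n, a, rfl⟩ := h.pow
  exact Nat.le_self_pow (by omega) 2

theorem good0 : Good q N V0 Q0 :=
  ⟨⟨h.radV, h.radQ, cj_one V0 ▸ h.type 1 (one_mem _), by
    obtain ⟨z, a, b⟩ := exists_ne (h.cardW ▸ two_le h)
    exact ⟨z, a.1, a.2, b⟩⟩, two_le h, h.cardW, h.comm, h.pair, h.cent, h.type⟩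

theorem flag0 (f : Flag q N V Q) : ∃ g ∈ N, (cj g V0 = V ∧ cj g Q0 = Q) ∨ (cj g V0 = Q ∧ cj g Q0 = V) := by
  obtain ⟨z, a, b, c⟩ := f.meet
  obtain ⟨g, hg, m⟩ := h.invc z (f.l.le a) (f.l.sq z a)
  have f' := f.cj' (cj_eq_of_mem hg)
  have n : g * z * g⁻¹ ≠ 1 := fun e => c (conj_eq_one_iff.1 e)
  refine ⟨_, inv_mem hg, ?_⟩
  rcases (good0 h).radz f'.l m n (conj_mem_cj.2 a) with e | e <;>
    rcases (good0 h).radz f'.r m n (conj_mem_cj.2 b) with e' | e'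
  exacts [(f'.ne (e.trans e'.symm)).elim, Or.inl ⟨cj_inv_eq e, cj_inv_eq e'⟩, Or.inr ⟨cj_inv_eq e', cj_inv_eq e⟩,
    (f'.ne (e.trans e'.symm)).elim]

theorem good (f : Flag q N V Q) : Good q N V Q := by
  obtain ⟨g, hg, ⟨rfl, rfl⟩ | ⟨rfl, rfl⟩⟩ := flag0 h f
  exacts [(good0 h).conj hg, ((good0 h).conj hg).symm]

theorem flagc {V' Q' : Subgroup G} (f : Flag q N V Q) (f' : Flag q N V' Q') :
    ∃ g ∈ N, (cj g V = V' ∧ cj g Q = Q') ∨ (cj g V = Q' ∧ cj g Q = V') := by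
  obtain ⟨g, hg, e⟩ := flag0 h f
  obtain ⟨k, hk, e'⟩ := flag0 h f'
  refine ⟨_, mul_mem hk (inv_mem hg), ?_⟩
  rcases e with ⟨rfl, rfl⟩ | ⟨rfl, rfl⟩ <;> rw [cj_mul, cj_mul, cj_inv_cj, cj_inv_cj]
  · exact e'
  · exact e'.symm.imp And.symm And.symm

theorem syl {P : Subgroup G} (l : P ≤ N) (p : IsPGroup 2 P) : ∃ V Q, Flag q N V Q ∧ P ≤ V ⊔ Q := by
  have g0 := good0 h
  have c : Nat.card ((V0 ⊔ Q0).subgroupOf N) = q ^ 3 := by
    rw [Nat.card_congr (subgroupOfEquivOfLe g0.fl.sup_le).toEquiv, g0.cardU]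
  have c1 := ((V0 ⊔ Q0).subgroupOf N).card_mul_index
  have c2 := h.card
  obtain ⟨n, a, rfl⟩ := h.pow
  rw [← c1, c, mul_assoc, mul_assoc, Nat.mul_right_inj (by positivity)] at c2
  have o : ∀ k, k ≠ 0 → Odd ((2 ^ n) ^ k - 1) := fun k hk =>
    Nat.Even.sub_odd (Nat.one_le_iff_ne_zero.2 (by positivity))
      (Nat.even_pow.2 ⟨Nat.even_pow.2 ⟨even_two, by omega⟩, hk⟩) odd_one
  have o1 : ¬ 2 ∣ ((V0 ⊔ Q0).subgroupOf N).index :=
    (((o 2 two_ne_zero).mul (o 3 three_ne_zero)).of_dvd_nat (c2 ▸ dvd_mul_right _ _)).not_two_dvd_nat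
  obtain ⟨S, hS⟩ := (p.of_equiv (subgroupOfEquivOfLe l).symm).exists_le_sylow
  obtain ⟨g, rfl⟩ := MulAction.exists_smul_eq N ((IsPGroup.of_card (c.trans (pow_mul 2 n 3).symm)).toSylow o1) S
  refine ⟨_, _, (g0.conj g.2).fl, fun x hx => ?_⟩
  rw [← cj_sup, mem_cj]
  have := hS (show (⟨x, l hx⟩ : N) ∈ P.subgroupOf N from hx)
  rw [Sylow.coe_subgroup_smul, mem_pointwise_smul_iff_inv_smul_mem] at this
  exact this

theorem inv {z : G} (hz : z ∈ N) (e : z * z = 1) : ∃ V Q, Flag q N V Q ∧ z ∈ V ⊓ Q := by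
  obtain ⟨g, hg, m⟩ := h.invc z hz e
  exact ⟨_, _, ((good0 h).conj (inv_mem hg)).fl, by rw [← cj_inf, mem_cj, inv_inv]; exact m⟩

theorem thru (r : Rad q N V) {v : G} (hv : v ∈ V) (n : v ≠ 1) : ∃ Q, Flag q N V Q ∧ v ∈ Q := by
  obtain ⟨A, B, f, m⟩ := inv h (r.le hv) (r.sq v hv)
  rcases (good h f).radz r m n hv with rfl | rfl
  exacts [⟨_, f, m.2⟩, ⟨_, f.symm, m.1⟩]

theorem two (f : Flag q N V Q) (r : Rad q N E) : (∃ g ∈ N, cj g V = E) ∨ ∃ g ∈ N, cj g Q = E := by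
  obtain ⟨z, a, b⟩ := exists_ne (E := E) (by have := two_le h; rw [r.card]; nlinarith)
  obtain ⟨E', f', -⟩ := thru h r a b
  obtain ⟨g, hg, e⟩ := flagc h f f'
  exact e.imp (fun e => ⟨g, hg, e.1⟩) fun e => ⟨g, hg, e.2⟩

theorem norm (r : Rad q N E) {P : Subgroup G} (l : P ≤ N) (p : IsPGroup 2 P) (n : ∀ g ∈ P, cj g E = E) :
    ∃ E', Flag q N E E' ∧ P ≤ E ⊔ E' := by
  obtain ⟨A, B, f, m⟩ := syl h (sup_le r.le l) (r.isP.to_sup_of_normal_left' p fun g hg => nrm_of (n g hg))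
  rcases (good h f).sub r (le_sup_left.trans m) with rfl | rfl
  exacts [⟨_, f, le_sup_right.trans m⟩, ⟨_, f.symm, sup_comm A E ▸ le_sup_right.trans m⟩]

theorem zero {x : G} (hx : x ∈ N) (c : Cz x N) : x = 1 := by
  rcases h.simple (N ⊓ centralizer N) inf_le_left (fun g hg k hk => by
    rwa [hk.2 g hg, mul_inv_cancel_right]) with e | e
  · exact mem_bot.1 (e ▸ ⟨hx, cz_iff.1 c⟩)
  · have f := (good0 h).fl
    refine (f.ne ?_).elim
    by_contra n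
    obtain ⟨v, a, b⟩ := SetLike.not_le_iff_exists.1 fun l => n (f.l.eq_of_le f.r l)
    obtain ⟨y, c, d⟩ := SetLike.not_le_iff_exists.1 fun l => n (f.r.eq_of_le f.l l).symm
    exact (h.pair v a y c ((e.ge (f.r.le c)).2 v (f.l.le a))).elim b d

theorem line (r : Rad q N V) : Set.ncard {Q | Flag q N V Q} = q + 1 := by
  classical
  have c : ∀ E : Subgroup G, ((Set.toFinite (E : Set G)).toFinset.erase 1).card = Nat.card E - 1 := fun E => by
    rw [Finset.card_erase_of_mem (by simp), ← Set.ncard_eq_toFinset_card, ← Nat.card_coe_set_eq]; rfl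
  have k := Finset.card_biUnion (s := (Set.toFinite {Q | Flag q N V Q}).toFinset)
    (t := fun Q => (Set.toFinite ((V ⊓ Q : Subgroup G) : Set G)).toFinset.erase 1) (fun A hA B hB n => by
      refine Finset.disjoint_left.2 fun w a b => ?_
      simp only [Finset.mem_erase, Set.Finite.mem_toFinset, SetLike.mem_coe, mem_inf, Finset.mem_coe,
        Set.mem_setOf_eq] at a b hA hB
      exact a.1 ((good h hB).disj hA n a.2.1 b.2.2 a.2.2))
  rw [show Finset.biUnion _ _ = (Set.toFinite (V : Set G)).toFinset.erase 1 from Finset.ext fun v => by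
    simp only [Finset.mem_biUnion, Finset.mem_erase, Set.Finite.mem_toFinset, SetLike.mem_coe, mem_inf,
      Set.mem_setOf_eq]
    exact ⟨fun ⟨_, _, a, b, _⟩ => ⟨a, b⟩, fun ⟨a, b⟩ => (thru h r b a).imp fun _ m => ⟨m.1, a, b, m.2⟩⟩, c,
    Finset.sum_const_nat (m := q - 1) (fun A hA => by
      rw [c, (good h ((Set.Finite.mem_toFinset _).1 hA)).cardW]), ← Set.ncard_eq_toFinset_card, r.card] at k
  have := two_le h
  obtain ⟨p, rfl⟩ : ∃ p, q = p + 1 := ⟨q - 1, by omega⟩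
  rw [Nat.add_sub_cancel, show (p + 1) ^ 2 = (p + 1 + 1) * p + 1 by ring, Nat.add_sub_cancel] at k
  exact (Nat.eq_of_mul_eq_mul_right (by omega) k).symm

theorem third (r : Rad q N V) (A B : Subgroup G) : ∃ Q, Flag q N V Q ∧ Q ≠ A ∧ Q ≠ B := by
  obtain ⟨Q, a, b⟩ := Set.exists_mem_notMem_of_ncard_lt_ncard (s := {A, B}) (t := {Q | Flag q N V Q}) (by
    have := Set.ncard_insert_le A {B}
    have := two_le h
    rw [Set.ncard_singleton] at *
    rw [line h r]; omega)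
  exact ⟨Q, a, not_or.1 b⟩

theorem join0 (r : Rad q N E) {g : G} (hg : g ∈ N) :
    ∃ y ∈ E, ∃ y' ∈ cj g E, y ≠ 1 ∧ y' ≠ 1 ∧ y * y' = y' * y := by
  have k : ∀ A : Subgroup G, (∀ g ∈ N, ∃ y ∈ A, ∃ y' ∈ cj g A, y ≠ 1 ∧ y' ≠ 1 ∧ y * y' = y' * y) → ∀ x ∈ N,
      ∃ y ∈ cj x A, ∃ y' ∈ cj g (cj x A), y ≠ 1 ∧ y' ≠ 1 ∧ y * y' = y' * y := fun A hA x hx => by
    obtain ⟨y, a, y', b, c, d, e⟩ := hA _ (mul_mem (mul_mem (inv_mem hx) hg) hx)
    refine ⟨_, conj_mem_cj.2 a, x * y' * x⁻¹, ?_, mt conj_eq_one_iff.1 c, mt conj_eq_one_iff.1 d, by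
      rw [conj_mul, conj_mul, e]⟩
    rwa [cj_mul, cj_mul, ← conj_mem_cj (g := x), cj_cj_inv] at b
  rcases two h (good0 h).fl r with ⟨x, hx, rfl⟩ | ⟨x, hx, rfl⟩
  exacts [k _ h.joinV x hx, k _ h.joinQ x hx]

end Pl1a

open Pl1a in
theorem pl1 {q : ℕ} {N V Q : Subgroup G} (h : L0 q N V Q) : Pl1 q N where
  pow := h.pow
  card := h.card
  simple := h.simple
  ex := ⟨_, _, (good0 h).fl⟩
  cardW f := (good h f).cardW
  comm f := (good h f).comm
  nrm f _ hu := (good h f).nrm hu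
  pair f := (good h f).pair
  onto f _ hv n _ hw := (good h f).onto hv n hw
  memU f _ hu := (good h f).memU hu
  cardU f := (good h f).cardU
  invU f _ hu := (good h f).invU hu
  sub f := (good h f).sub
  cent f := (good h f).cent
  radz f r _ hz := (good h f).radz r hz
  syl _ := syl h
  flagc := flagc h
  inv _ hz e _ := Pl1a.inv h hz e
  thru r _ := thru h r
  type f := (good h f).type
  two := two h
  norm r _ := Pl1a.norm h r
  zero _ := zero h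
  line := line h
  disj f f' n _ := (good h f).disj f' n
  split f f' n _ := (good h f).split (good h f') n
  trans f f₁ f₂ := (good h f).trans (good h f₁) (good h f₂)
  third := third h
  join0 r _ := join0 h r

end H45.HL
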