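import Cfsg.Agent.Lib.HL3.Defs

namespace H45.HL

variable {G : Type*} [Group G] [Finite G]

namespace Pl2p

theorem ncard_eq_mul {α β : Type*} [Finite α] [Finite β] {S : Set α} {T : Set β} (R : α → β → Prop)
    {k : ℕ} (h1 : ∀ a ∈ S, ∃ b ∈ T, R a b) (h2 : ∀ a ∈ S, ∀ b ∈ T, ∀ b' ∈ T, R a b → R a b' → b = b')
    (h3 : ∀ b ∈ T, {a | a ∈ S ∧ R a b}.ncard = k) : S.ncard = T.ncard * k := by
  classical
  choose f hf using fun a : S => h1 a a.2
  have := Fintype.ofFinite S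
  have := Fintype.ofFinite T
  let g : S → T := fun a => ⟨f a, (hf a).1⟩
  rw [← Nat.card_coe_set_eq, ← Nat.card_coe_set_eq, Nat.card_congr (Equiv.sigmaFiberEquiv g).symm,
    Nat.card_sigma, Finset.sum_congr rfl (g := fun _ => k), Finset.sum_const, Finset.card_univ,
    smul_eq_mul, Nat.card_eq_fintype_card]
  intro b _
  rw [← h3 b b.2, ← Nat.card_coe_set_eq]
  exact Nat.card_congr ⟨fun a => ⟨a.1.1, a.1.2, (congrArg Subtype.val a.2 : f a.1 = b) ▸ (hf a.1).2⟩,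
    fun a => ⟨⟨a.1, a.2.1⟩, Subtype.ext (h2 _ a.2.1 _ (hf _).1 _ b.2 (hf ⟨a.1, a.2.1⟩).2 a.2.2)⟩,
    fun _ => rfl, fun _ => rfl⟩

variable {q : ℕ} {N : Subgroup G}

omit [Finite G] in
theorem rad_cj {E : Subgroup G} (hE : Rad q N E) {g : G} (hg : g ∈ N) : Rad q N (cj g E) := by
  have := hE.cj g
  rwa [cj_eq_of_mem hg] at this

variable (h : Pl1 q N)
include h
omit [Finite G]

theorem same {V Q Q₁ : Subgroup G} (f : Flag q N V Q) (f₁ : Flag q N V Q₁) : ∃ g ∈ N, cj g Q = Q₁ := by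
  by_cases e : Q = Q₁
  · exact ⟨1, one_mem _, by rw [cj_one, e]⟩
  obtain ⟨Q', f', a, b⟩ := h.third f.l Q Q₁
  obtain ⟨y, hy, e⟩ := h.trans f' f f₁ a.symm b.symm
  exact ⟨y, f'.r.le hy, e⟩

theorem nn {E E' : Subgroup G} (hE : Rad q N E) (g : G) (hg : g ∈ N) (e : cj g E = E')
    (hn : ∀ v ∈ E', cj v E = E) : E' = E := by
  have hE' : Rad q N E' := e ▸ rad_cj hE hg
  obtain ⟨E'', f, hle⟩ := h.norm hE E' hE'.le hE'.isP hn
  exact (h.sub f hE' hle).resolve_right fun e' => h.type f g hg (e.trans e')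

theorem join {E : Subgroup G} (hE : Rad q N E) (g : G) (hg : g ∈ N) (hne : cj g E ≠ E) :
    ∃ V, Flag q N V E ∧ Flag q N V (cj g E) := by
  have hE' := rad_cj hE hg
  obtain ⟨y, hy, y', hy', y1, y1', c⟩ := h.join0 hE g hg
  obtain ⟨V, f, hV⟩ := h.thru hE y hy y1
  rcases h.cent f y ⟨hy, hV⟩ y1 y' (hE'.le hy') (hE'.sq _ hy') c.symm with e | e
  · obtain ⟨V', f', hV'⟩ := h.thru hE y' e y1'
    exact absurd ((h.radz f' hE' y' ⟨e, hV'⟩ y1' hy').resolve_left hne) (h.type f' g hg)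
  · exact ⟨V, f.symm, f.r, hE', (h.type f g hg).symm, y', e, hy', y1'⟩

theorem juniq {V V' E E' : Subgroup G} (a : Flag q N V E) (b : Flag q N V E') (c : Flag q N V' E)
    (d : Flag q N V' E') (hne : E ≠ E') : V = V' := by
  obtain ⟨g, hg, e⟩ := same h c.symm a.symm
  refine nn h c.l g hg e fun v hv => ?_
  obtain ⟨w, hw, w', hw', rfl⟩ := h.split a b hne.symm v hv
  rw [cj_mul, h.nrm d w' (Subgroup.mem_sup_right hw'.2), h.nrm c w (Subgroup.mem_sup_right hw.2)]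

/-- two members of a flag are not in one class -/
theorem not_both {V Q E : Subgroup G} (f : Flag q N V Q) {g g' : G} (hg : g ∈ N) (hg' : g' ∈ N)
    (e : cj g E = V) (e' : cj g' E = Q) : False :=
  h.type f (g' * g⁻¹) (mul_mem hg' (inv_mem hg)) (by rw [cj_mul, cj_inv_eq e, e'])

theorem eq_of_class {V Q E : Subgroup G} (f : Flag q N V Q) {A B : Subgroup G}
    (hA : ∃ g ∈ N, cj g E = A) (hB : ∃ g ∈ N, cj g E = B) (a : A = V ∨ A = Q) (b : B = V ∨ B = Q) :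
    A = B := by
  obtain ⟨g, hg, e⟩ := hA
  obtain ⟨g', hg', e'⟩ := hB
  rcases a with rfl | rfl <;> rcases b with rfl | rfl
  · rfl
  · exact (not_both h f hg hg' e e').elim
  · exact (not_both h f hg' hg e' e).elim
  · rfl

theorem pts [Finite G] {E : Subgroup G} (hE : Rad q N E) :
    Set.ncard {E' | ∃ g ∈ N, cj g E = E'} = q ^ 2 + q + 1 := by
  have h1 := ncard_eq_mul (S := {E' | ∃ g ∈ N, cj g E = E'} \ {E}) (T := {V | Flag q N E V})
    (fun E' V => Flag q N V E') (k := q)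
    (by
      rintro _ ⟨⟨g, hg, rfl⟩, hne⟩
      obtain ⟨V, a, b⟩ := join h hE g hg hne
      exact ⟨V, a.symm, b⟩)
    (fun E' hE' V a V' b c d => juniq h (Flag.symm a) c (Flag.symm b) d (Ne.symm hE'.2))
    (fun V hV => by
      have : {E' | E' ∈ {E' | ∃ g ∈ N, cj g E = E'} \ {E} ∧ Flag q N V E'} = {E' | Flag q N V E'} \ {E} := by
        ext E'
        exact ⟨fun a => ⟨a.2, a.1.2⟩, fun a => ⟨⟨same h (Flag.symm hV) a.1, a.2⟩, a.1⟩⟩
      rw [this, Set.ncard_sdiff_singleton_of_mem (show E ∈ {E' | Flag q N V E'} from Flag.symm hV),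
        h.line (Flag.r hV)]
      rfl)
  rw [h.line hE] at h1
  rw [← Set.ncard_sdiff_singleton_add_one (show E ∈ {E' | ∃ g ∈ N, cj g E = E'} from
    ⟨1, one_mem _, cj_one E⟩), h1]
  ring

theorem ovr {V Q : Subgroup G} (f : Flag q N V Q) (X : Subgroup G) (h1 : V ⊔ Q ≤ X) (h2 : X ≤ N)
    (h3 : X ≠ N) : (∀ g ∈ X, cj g V = V) ∨ ∀ g ∈ X, cj g Q = Q := by
  by_contra hn
  push Not at hn
  obtain ⟨⟨g1, x1, m1⟩, g2, x2, m2⟩ := hn
  have hV : V ≤ X := le_sup_left.trans h1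
  have hQ : Q ≤ X := le_sup_right.trans h1
  let O : Subgroup G → Prop := fun E => ∃ g ∈ X, cj g Q = E
  have oc : ∀ {E}, O E → ∀ g ∈ X, O (cj g E) := by
    rintro _ ⟨k, hk, rfl⟩ g hg
    exact ⟨g * k, mul_mem hg hk, cj_mul ..⟩
  have oQ : O Q := ⟨1, one_mem _, cj_one Q⟩
  have fc : ∀ {A B}, Flag q N A B → ∀ g ∈ X, Flag q N (cj g A) (cj g B) := fun a g hg =>
    a.cj' (cj_eq_of_mem (h2 hg))
  have oL : ∀ {E E'}, O E → Flag q N V E → E ≠ Q → Flag q N V E' → O E' := fun {E E'} o a b c => by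
    by_cases e : E' = Q
    · exact e ▸ oQ
    obtain ⟨y, hy, rfl⟩ := h.trans f a c b e
    exact oc o y (hQ hy)
  have oF : ∀ {E}, O E → ¬ Flag q N V E → ∀ g ∈ N, ¬ Flag q N V (cj g Q) → O (cj g Q) := by
    rintro _ ⟨k, hk, rfl⟩ a g hg b
    have n1 : cj k Q ≠ Q := fun e => a (e.symm ▸ f)
    have n2 : cj g Q ≠ Q := fun e => b (e.symm ▸ f)
    obtain ⟨V1, a1, b1⟩ := join h f.r k (h2 hk) n1
    obtain ⟨V2, a2, b2⟩ := join h f.r g hg n2
    obtain ⟨v, hv, rfl⟩ := h.trans f.symm a1.symm a2.symm (fun e => a (e ▸ b1)) (fun e => b (e ▸ b2))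
    obtain ⟨y, hy, e⟩ := h.trans a2 (fc b1 v (hV hv)) b2 (fun e => n1 (cj_inj (g := v)
      (e.trans (h.nrm f.symm v (Subgroup.mem_sup_right hv)).symm))) n2
    exact e ▸ oc (oc ⟨k, hk, rfl⟩ v (hV hv)) y (hQ hy)
  have key : ∀ {E E'}, Flag q N V E → Flag q N V E' → E ≠ E' → Flag q N V (cj g1 E) →
      Flag q N V (cj g1 E') → False := fun a b c d e =>
    m1 (juniq h (fc a g1 x1) (fc b g1 x1) d e fun e' => c (cj_inj e'))
  have hF : ∃ E, O E ∧ ¬ Flag q N V E := by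
    by_contra hn
    push Not at hn
    have o2 := oc oQ g2 x2
    exact key f (hn _ o2) m2.symm (hn _ (oc oQ g1 x1)) (hn _ (oc o2 g1 x1))
  obtain ⟨E0, o0, n0⟩ := hF
  have hL : ∃ E, O E ∧ Flag q N V E ∧ E ≠ Q := by
    by_contra hn
    push Not at hn
    have mv : ∀ {E}, Flag q N V E → E ≠ Q → Flag q N V (cj g1 E) := fun {E} a b => by
      by_contra c
      obtain ⟨g, hg, rfl⟩ := same h f a
      rw [← cj_mul] at c
      have := oc (oF o0 n0 _ (mul_mem (h2 x1) hg) c) g1⁻¹ (inv_mem x1)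
      rw [cj_mul, cj_inv_cj] at this
      exact b (hn _ this a)
    obtain ⟨E1, a1, b1, -⟩ := h.third f.l Q Q
    obtain ⟨E2, a2, b2, c2⟩ := h.third f.l Q E1
    exact key a1 a2 c2.symm (mv a1 b1) (mv a2 b2)
  obtain ⟨E1, o1, a1, b1⟩ := hL
  have all : ∀ g ∈ N, cj g Q ≤ X := fun g hg => by
    have : O (cj g Q) := by
      by_cases c : Flag q N V (cj g Q)
      · exact oL o1 a1 b1 c
      · exact oF o0 n0 g hg c
    obtain ⟨k, hk, e⟩ := this
    rw [← e, ← cj_eq_of_mem hk]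
    exact cj_mono hQ
  let K : Subgroup G :=
    { carrier := {x | ∀ g ∈ N, g * x * g⁻¹ ∈ X}
      one_mem' := fun g _ => by simp
      mul_mem' := fun a b g hg => by rw [← conj_mul]; exact mul_mem (a g hg) (b g hg)
      inv_mem' := fun a g hg => by rw [← conj_inv]; exact inv_mem (a g hg) }
  have KX : K ≤ X := fun x hx => by simpa using hx 1 (one_mem _)
  rcases h.simple K (KX.trans h2) (fun g hg k hk g' hg' => by
    have := hk _ (mul_mem hg' hg)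
    simpa [mul_assoc] using this) with e | e
  · obtain ⟨z, -, hz, z1⟩ := f.meet
    have : z ∈ K := fun g hg => all g hg (conj_mem_cj.2 hz)
    rw [e] at this
    exact z1 this
  · exact h3 (le_antisymm h2 (e ▸ KX))

theorem exists_class {V0 Q0 V Q : Subgroup G} (f0 : Flag q N V0 Q0) (f : Flag q N V Q) :
    (∃ g ∈ N, cj g Q0 = V) ∨ ∃ g ∈ N, cj g Q0 = Q := by
  obtain ⟨g, hg, e | e⟩ := h.flagc f0 f
  · exact Or.inr ⟨g, hg, e.2⟩
  · exact Or.inl ⟨g, hg, e.2⟩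

theorem ninv [Finite G] :
    Set.ncard {z | z ∈ N ∧ z * z = 1 ∧ z ≠ 1} = (q ^ 2 - 1) * (q ^ 2 + q + 1) := by
  obtain ⟨V0, Q0, f0⟩ := h.ex
  have rd : ∀ E ∈ {E' | ∃ g ∈ N, cj g Q0 = E'}, Rad q N E := by
    rintro _ ⟨g, hg, rfl⟩
    exact rad_cj f0.r hg
  rw [mul_comm, ← pts h f0.r]
  refine ncard_eq_mul (fun z E => z ∈ E) (fun z hz => ?_) (fun z hz E a E' b c d => ?_) fun E a => ?_
  · obtain ⟨V, Q, f, m⟩ := h.inv z hz.1 hz.2.1 hz.2.2
    rcases exists_class h f0 f with e | e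
    · exact ⟨V, e, m.1⟩
    · exact ⟨Q, e, m.2⟩
  · obtain ⟨V, Q, f, m⟩ := h.inv z hz.1 hz.2.1 hz.2.2
    exact eq_of_class h f a b (h.radz f (rd _ a) z m hz.2.2 c) (h.radz f (rd _ b) z m hz.2.2 d)
  · have : {z | z ∈ {z | z ∈ N ∧ z * z = 1 ∧ z ≠ 1} ∧ z ∈ E} = (E : Set G) \ {1} := by
      ext z
      exact ⟨fun b => ⟨b.2, b.1.2.2⟩, fun b => ⟨⟨(rd _ a).le b.1, (rd _ a).sq _ b.1, b.2⟩, b.1⟩⟩
    rw [this, Set.ncard_sdiff_singleton_of_mem (show (1 : G) ∈ (E : Set G) from one_mem E),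
      ← Nat.card_coe_set_eq, ← (rd _ a).card]
    rfl

theorem nsyl [Finite G] :
    Set.ncard {U | ∃ V Q, Flag q N V Q ∧ U = V ⊔ Q} = (q + 1) * (q ^ 2 + q + 1) := by
  obtain ⟨V0, Q0, f0⟩ := h.ex
  have rd : ∀ E ∈ {E' | ∃ g ∈ N, cj g Q0 = E'}, Rad q N E := by
    rintro _ ⟨g, hg, rfl⟩
    exact rad_cj f0.r hg
  rw [mul_comm, ← pts h f0.r]
  refine ncard_eq_mul (fun U E => E ≤ U) ?_ ?_ fun E a => ?_
  · rintro _ ⟨V, Q, f, rfl⟩
    rcases exists_class h f0 f with e | e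
    · exact ⟨V, e, le_sup_left⟩
    · exact ⟨Q, e, le_sup_right⟩
  · rintro _ ⟨V, Q, f, rfl⟩ E a E' b c d
    exact eq_of_class h f a b (h.sub f (rd _ a) c) (h.sub f (rd _ b) d)
  · have : {U | U ∈ {U | ∃ V Q, Flag q N V Q ∧ U = V ⊔ Q} ∧ E ≤ U} =
        (fun Q => E ⊔ Q) '' {Q | Flag q N E Q} := by
      ext U
      constructor
      · rintro ⟨⟨V, Q, f, rfl⟩, b⟩
        rcases h.sub f (rd _ a) b with rfl | rfl
        · exact ⟨Q, f, rfl⟩
        · exact ⟨V, f.symm, sup_comm _ _⟩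
      · rintro ⟨Q, f, rfl⟩
        exact ⟨⟨E, Q, f, rfl⟩, le_sup_left⟩
    rw [this, Set.InjOn.ncard_image, h.line (rd _ a)]
    intro Q f Q' f' e
    exact (h.sub f' (Flag.r f) (le_sup_right.trans (le_of_eq e))).resolve_left (Flag.ne f).symm

end Pl2p

theorem pl2 {q : ℕ} {N : Subgroup G} (h : Pl1 q N) : Pl2 q N :=
  ⟨Pl2p.same h, Pl2p.nn h, Pl2p.join h, Pl2p.juniq h, Pl2p.pts h, Pl2p.ovr h, Pl2p.ninv h, Pl2p.nsyl h⟩

end H45.HL
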