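import Cfsg.Agent.Lib.HL3.Defs

namespace H45.HL

variable {G : Type*} [Group G] [Finite G]

namespace P3p

variable {q : ℕ} {N : Subgroup G}

theorem exn {V Q : Subgroup G} (f : Flag q N V Q) : ∃ y ∈ Q, y ∉ V := by
  by_contra hc
  push Not at hc
  exact f.ne (f.r.eq_of_le f.l hc).symm

omit [Finite G] in
theorem cjN {g u : G} (hg : cj g N = N) (hu : u ∈ N) : cj (u⁻¹ * g) N = N := by
  rw [cj_mul, hg, cj_eq_of_mem (N.inv_mem hu)]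

omit [Finite G] in
theorem cj_div {g u : G} {E : Subgroup G} (e : cj u E = cj g E) : cj (u⁻¹ * g) E = E := by
  rw [cj_mul, ← e, cj_inv_cj]

omit [Finite G] in
theorem cj_div' {g u : G} {E : Subgroup G} (e : cj u E = E) (e' : cj g E = E) : cj (u⁻¹ * g) E = E :=
  cj_div (e.trans e'.symm)

omit [Finite G] in
theorem nl (h : Pl1 q N) {V Q : Subgroup G} (f : Flag q N V Q) {y : G} (hy : y ∈ Q) : cj y V = V :=
  h.nrm f y (Subgroup.mem_sup_right hy)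

omit [Finite G] in
theorem cj_ne {g : G} {E E' : Subgroup G} (e : cj g E = E) (ne : E' ≠ E) : cj g E' ≠ E :=
  fun e' => ne (cj_inj (e'.trans e.symm))

omit [Finite G] in
theorem fixc {g z : G} (e : g * z = z * g) : g * z * g⁻¹ = z := by rw [e]; group

theorem cz (h : Pl1 q N) {V Q Q2 : Subgroup G} (f : Flag q N V Q) (f2 : Flag q N V Q2) (ne : Q2 ≠ Q)
    {g : G} (c : Cz g Q) (gV : cj g V = V) (gQ : cj g Q2 = Q2) : Cz g V := by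
  obtain ⟨y0, hy, hy'⟩ := exn f
  have key : ∀ v ∈ V ⊓ Q2, g * v = v * g := fun v hv => by
    have c1 := fixc (c _ (h.comm f v hv.1 y0 hy).2)
    have c2 := fixc (c _ hy)
    have m1 : v⁻¹ * (g * v * g⁻¹) ∈ V := V.mul_mem (V.inv_mem hv.1) (conj_mem_of_cj gV hv.1)
    have m2 : v⁻¹ * (g * v * g⁻¹) ∈ Q2 := Q2.mul_mem (Q2.inv_mem hv.2) (conj_mem_of_cj gQ hv.2)
    have e : v⁻¹ * (g * v * g⁻¹) * y0 = y0 * (v⁻¹ * (g * v * g⁻¹)) := by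
      calc v⁻¹ * (g * v * g⁻¹) * y0 = v⁻¹ * (g * v * g⁻¹) * (g * y0 * g⁻¹) := by rw [c2]
        _ = v⁻¹ * (g * (v * y0 * v⁻¹ * y0⁻¹) * g⁻¹) * (g * y0 * g⁻¹) * (g * v * g⁻¹) := by group
        _ = _ := by rw [c1, c2]; group
    have := h.disj f f2 ne _ m1 ((h.pair f _ m1 _ hy e).resolve_right hy') m2
    calc g * v = v * (v⁻¹ * (g * v * g⁻¹)) * g := by group
      _ = v * g := by rw [this, mul_one]
  intro v hv
  obtain ⟨w, hw, w1, hw1, rfl⟩ := h.split f f2 ne v hv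
  exact (Commute.mul_right (c w hw.2) (key w1 hw1)).eq

theorem loc1 (h : Pl1 q N) {V Q : Subgroup G} (f : Flag q N V Q) (g : G) (gQ : cj g Q = Q)
    (hl : ∀ V', Flag q N V' Q → Flag q N (cj g V') Q) (c : Cz g V) : ∃ v ∈ V, Cz (v⁻¹ * g) Q := by
  obtain ⟨V1, f1, ne, -⟩ := h.third f.r V V
  obtain ⟨v, hv, e⟩ := h.trans f.symm f1 (hl V1 f1.symm).symm ne (cj_ne c.cj_eq ne)
  exact ⟨v, hv, cz h f.symm f1 ne ((f.l.cz hv).inv.mul c) (cj_div' (nl h f.symm hv) gQ) (cj_div e)⟩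

omit [Finite G] in
/-- an element normalising `N` and `V` and centralising `V ⊓ Q` normalises `Q` -/
theorem fixW (h : Pl1 q N) {V Q : Subgroup G} (f : Flag q N V Q) {g : G} (gN : cj g N = N)
    (gV : cj g V = V) (c : Cz g (V ⊓ Q)) : cj g Q = Q := by
  obtain ⟨z, a, b, z1⟩ := f.meet
  have hz : z ∈ cj g Q := by rw [← fixc (c z ⟨a, b⟩)]; exact conj_mem_cj.2 b
  exact (h.radz f (f.cj' gN).r z ⟨a, b⟩ z1 hz).resolve_left (cj_ne gV f.ne.symm)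

omit [Finite G] in
theorem fixE (h : Pl1 q N) {V Q : Subgroup G} (f : Flag q N V Q) {g : G} (gN : cj g N = N)
    (c : Cz g V) : cj g Q = Q :=
  fixW h f gN c.cj_eq (c.mono inf_le_left)

theorem autV (h : Pl1 q N) (h2 : Pl2 q N) {V : Subgroup G} (r : Rad q N V) (g : G) (gN : cj g N = N)
    (c : Cz g V) : ∃ v ∈ V, Cz (v⁻¹ * g) N := by
  obtain ⟨Q, f, -, -⟩ := h.third r V V
  have gQ := fixE h f gN c
  obtain ⟨v, hv, c1Q⟩ := loc1 h f g gQ (fun V' f' => by have := f'.cj' gN; rwa [gQ] at this) c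
  have c1V : Cz (v⁻¹ * g) V := (r.cz hv).inv.mul c
  have g1N := cjN gN (r.le hv)
  generalize hg1 : v⁻¹ * g = g1 at c1Q c1V g1N
  obtain ⟨V1, f1, n1, -⟩ := h.third f.r V V
  obtain ⟨Q2, f2, n2, -⟩ := h.third f1.r Q Q
  have f2' : Flag q N V1 (cj g1 Q2) := by
    have := f2.cj' g1N
    rwa [fixE h f1 g1N c1Q] at this
  obtain ⟨y, hy, e⟩ := h.trans f1.symm f2 f2' n2 (cj_ne c1Q.cj_eq n2)
  obtain ⟨w, hw, w1, hw1, rfl⟩ := h.split f.symm f1 n1 y hy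
  rw [cj_mul, nl h f2.symm hw1.2] at e
  have g2Q2 := cj_div e
  have c2Q : Cz (w⁻¹ * g1) Q := (f.r.cz hw.1).inv.mul c1Q
  have c2V : Cz (w⁻¹ * g1) V := (r.cz hw.2).inv.mul c1V
  have g2N := cjN g1N (r.le hw.2)
  generalize hg2 : w⁻¹ * g1 = g2 at g2Q2 c2Q c2V g2N
  have c2V1 : Cz g2 V1 := cz h f1.symm f2 n2 c2Q (fixE h f1 g2N c2Q) g2Q2
  obtain ⟨Q1, f3, n3, -⟩ := h.third r Q Q
  have n12 : Q2 ≠ Q1 := fun e => n1 (h2.juniq f1.symm f2 f (e ▸ f3) n2.symm)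
  obtain ⟨k1, hk1, e1⟩ := h2.same f3 f
  obtain ⟨k2, hk2, e2⟩ := h2.same f1.symm f2
  have e3 : cj (k2 * k1) Q1 = Q2 := by rw [cj_mul, e1, e2]
  obtain ⟨V2, f4, f5⟩ := h2.join f3.r (k2 * k1) (N.mul_mem hk2 hk1) (e3 ▸ n12)
  rw [e3] at f5
  have n4 : V2 ≠ V1 := fun e => n1 (h2.juniq f1.symm (e ▸ f4) f f3 n3.symm)
  have g2V2 : cj g2 V2 = V2 := by
    have a := f4.cj' g2N
    have b := f5.cj' g2N
    rw [fixE h f3 g2N c2V] at a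
    rw [g2Q2] at b
    exact h2.juniq a b f4 f5 n12.symm
  have c2Q2 : Cz g2 Q2 := cz h f2.symm f5.symm n4 c2V1 g2Q2 g2V2
  have sub : ∀ E ≤ N, Cz g2 E → E ≤ N ⊓ Subgroup.centralizer {g2} := fun E hE cE x hx =>
    ⟨hE hx, Subgroup.mem_centralizer_singleton_iff.2 (cE x hx).symm⟩
  have hX : N ⊓ Subgroup.centralizer {g2} = N := by
    by_contra ne
    rcases h2.ovr f _ (sub _ f.sup_le (c2V.sup c2Q)) inf_le_left ne with o | o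
    · obtain ⟨k, hk, ek⟩ := h2.same f.symm f1
      exact n1 (h2.nn r k hk ek fun x hx => o x (sub _ f1.r.le c2V1 hx))
    · exact n2 (h2.nn f.r k2 hk2 e2 fun x hx => o x (sub _ f2.r.le c2Q2 hx))
  refine ⟨v * w, V.mul_mem hv hw.2, fun x hx => ?_⟩
  have : (v * w)⁻¹ * g = g2 := by rw [← hg2, ← hg1]; group
  rw [this]
  rw [← hX] at hx
  exact (Subgroup.mem_centralizer_singleton_iff.1 hx.2).symm

theorem autU (h : Pl1 q N) (h2 : Pl2 q N) {V Q : Subgroup G} (f : Flag q N V Q) (g : G)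
    (gN : cj g N = N) (gV : cj g V = V) (c : Cz g (V ⊓ Q)) (hv : ∀ v ∈ V, g * v * g⁻¹ * v⁻¹ ∈ Q) :
    ∃ u ∈ V ⊔ Q, Cz (u⁻¹ * g) N := by
  have gQ := fixW h f gN gV c
  obtain ⟨Q1, f1, n1, -⟩ := h.third f.l Q Q
  have f1' : Flag q N V (cj g Q1) := by have := f1.cj' gN; rwa [gV] at this
  obtain ⟨y, hy, e⟩ := h.trans f f1 f1' n1 (cj_ne gQ n1)
  have a1 := cj_div e
  have a2 := cj_div' (nl h f hy) gV
  have key : ∀ v ∈ V ⊓ Q1, y⁻¹ * g * v = v * (y⁻¹ * g) := fun v m => by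
    have m1 : y⁻¹ * g * v * (y⁻¹ * g)⁻¹ * v⁻¹ ∈ V := V.mul_mem (conj_mem_of_cj a2 m.1) (V.inv_mem m.1)
    have m2 : y⁻¹ * g * v * (y⁻¹ * g)⁻¹ * v⁻¹ ∈ Q1 := Q1.mul_mem (conj_mem_of_cj a1 m.2) (Q1.inv_mem m.2)
    have m3 : y⁻¹ * g * v * (y⁻¹ * g)⁻¹ * v⁻¹ ∈ Q := by
      have := Q.mul_mem (Q.mul_mem (Q.inv_mem hy) (hv v m.1)) (conj_mem_of_cj (nl h f.symm m.1) hy)
      convert this using 1
      group
    have := h.disj f f1 n1 _ m1 m3 m2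
    calc y⁻¹ * g * v = y⁻¹ * g * v * (y⁻¹ * g)⁻¹ * v⁻¹ * (v * (y⁻¹ * g)) := by group
      _ = _ := by rw [this, one_mul]
  have cV : Cz (y⁻¹ * g) V := fun v m => by
    obtain ⟨w, hw, w1, hw1, rfl⟩ := h.split f f1 n1 v m
    exact (Commute.mul_right (((f.r.cz hy).inv.mono inf_le_right).mul c w hw) (key w1 hw1)).eq
  obtain ⟨v, m, cN⟩ := autV h h2 f.l _ (cjN gN (f.r.le hy)) cV
  refine ⟨y * v, Subgroup.mul_mem _ (Subgroup.mem_sup_right hy) (Subgroup.mem_sup_left m), ?_⟩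
  have : (y * v)⁻¹ * g = v⁻¹ * (y⁻¹ * g) := by group
  rwa [this]

theorem autI (h : Pl1 q N) (h2 : Pl2 q N) {V Q : Subgroup G} (f : Flag q N V Q) (g : G)
    (gN : cj g N = N) (g2 : g * g = 1) (gV : cj g V = V) (c : Cz g (V ⊓ Q)) :
    ∃ u ∈ V ⊔ Q, Cz (u⁻¹ * g) N := by
  have gQ := fixW h f gN gV c
  obtain ⟨y0, hy, hy', m⟩ : ∃ y0 ∈ Q, y0 ∉ V ∧ g * y0 * g⁻¹ * y0⁻¹ ∈ V := by
    obtain ⟨y, hy, hy'⟩ := exn f
    by_cases m : g * y * g⁻¹ * y⁻¹ ∈ V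
    · exact ⟨y, hy, hy', m⟩
    · refine ⟨_, Q.mul_mem (conj_mem_of_cj gQ hy) (Q.inv_mem hy), m, ?_⟩
      have e : g * (g * y * g⁻¹ * y⁻¹) * g⁻¹ = g * y * g⁻¹ * y⁻¹ := by
        rw [f.r.inv_eq hy]
        calc g * (g * y * g⁻¹ * y) * g⁻¹ = (g * g) * y * (g * g)⁻¹ * (g * y * g⁻¹) := by group
          _ = _ := by rw [g2, one_mul, inv_one, mul_one, f.r.comm hy (conj_mem_of_cj gQ hy)]
      rw [e, mul_inv_cancel]
      exact V.one_mem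
  refine autU h h2 f g gN gV c fun v hv => ?_
  have hv' := conj_mem_of_cj gV hv
  have c1 := fixc (c _ (h.comm f v hv y0 hy))
  have m1 : v⁻¹ * (g * v * g⁻¹) ∈ V := V.mul_mem (V.inv_mem hv) hv'
  have k1 := f.l.comm m hv'
  have k2 := f.l.comm m (h.comm f _ hv' y0 hy).1
  have e : v⁻¹ * (g * v * g⁻¹) * y0 = y0 * (v⁻¹ * (g * v * g⁻¹)) := by
    have e1 : g * v * g⁻¹ * y0 * (g * v * g⁻¹)⁻¹ * y0⁻¹ = v * y0 * v⁻¹ * y0⁻¹ := by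
      rw [← c1]
      calc g * v * g⁻¹ * y0 * (g * v * g⁻¹)⁻¹ * y0⁻¹
          = (g * y0 * g⁻¹ * y0⁻¹ * (g * v * g⁻¹ * y0 * (g * v * g⁻¹)⁻¹ * y0⁻¹)) *
            (g * y0 * g⁻¹ * y0⁻¹)⁻¹ := by rw [k2]; group
        _ = (g * y0 * g⁻¹ * y0⁻¹ * (g * v * g⁻¹)) * y0 * (g * v * g⁻¹)⁻¹ * y0⁻¹ *
            (g * y0 * g⁻¹ * y0⁻¹)⁻¹ := by group
        _ = _ := by rw [k1]; group
    calc v⁻¹ * (g * v * g⁻¹) * y0
        = v⁻¹ * (g * v * g⁻¹ * y0 * (g * v * g⁻¹)⁻¹ * y0⁻¹) * y0 * (g * v * g⁻¹) := by group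
      _ = _ := by rw [e1]; group
  have := (h.pair f _ m1 _ hy e).resolve_right hy'
  rwa [f.l.comm (V.inv_mem hv) hv'] at this

end P3p

theorem pl3 {q : ℕ} {N : Subgroup G} (h : Pl1 q N) (h2 : Pl2 q N) : Pl3 q N :=
  ⟨fun f => P3p.loc1 h f, fun r => P3p.autV h h2 r, fun f => P3p.autU h h2 f, fun f => P3p.autI h h2 f⟩

end H45.HL
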