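import Cfsg.Agent.Lib.HL3.Defs
import Cfsg.Agent.Lib.GL.Simple
import Cfsg.Agent.Lib.GL.Basic
import Cfsg.Agent.Lib.ClGeo.Transv

/-! The primitive data `L0` of `PSL₃(2ⁿ)`. -/

namespace H45.HL

open Matrix

namespace Psl

section Lift

variable {S G : Type*} [Group S] [Group G] {f : S →* G} (hk : ∀ s, f s = 1 → s ∈ Subgroup.center S ∧ s ^ 3 = 1)
include hk

theorem inj2 {a b : S} (ha : a * a = 1) (hb : b * b = 1) (e : f a = f b) : a = b := by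
  obtain ⟨c, c3⟩ := hk (a⁻¹ * b) (by rw [map_mul, map_inv, e, inv_mul_cancel])
  obtain ⟨k, rfl⟩ : ∃ k, b = a * k := ⟨a⁻¹ * b, by group⟩
  rw [inv_mul_cancel_left] at c c3
  rw [mul_assoc, ← mul_assoc k, ← Subgroup.mem_center_iff.1 c a, mul_assoc, ← mul_assoc, ha, one_mul] at hb
  rw [pow_three', hb, one_mul] at c3
  rw [c3, mul_one]

theorem lift {z : G} (hz : z ∈ f.range) (z2 : z * z = 1) : ∃ s, s * s = 1 ∧ f s = z := by
  obtain ⟨g, rfl⟩ := hz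
  refine ⟨g ^ 3, ?_, by rw [map_pow, pow_three', z2, one_mul]⟩
  rw [← (Commute.refl g).mul_pow]
  exact (hk _ (by rw [map_mul, z2])).2

theorem cm {a b : S} (ha : a * a = 1) (e : f a * f b = f b * f a) : a * b = b * a := by
  have := inj2 hk (a := b * a * b⁻¹) (b := a) (by rw [conj_mul, ha]; simp) ha
    (by rw [map_mul, map_mul, map_inv, ← e, mul_inv_cancel_right])
  exact (mul_inv_eq_iff_eq_mul.1 this).symm

theorem mem {V : Subgroup S} (hV : ∀ v ∈ V, v * v = 1) {s : S} (hs : s * s = 1) (e : f s ∈ V.map f) :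
    s ∈ V := by
  obtain ⟨v, hv, e⟩ := e
  exact inj2 hk (hV v hv) hs e ▸ hv

theorem card {V : Subgroup S} (hV : ∀ v ∈ V, v * v = 1) : Nat.card (V.map f) = Nat.card V :=
  Nat.card_image_of_injOn (s := (V : Set S)) fun a ha b hb e => inj2 hk (hV a ha) (hV b hb) e

theorem inf {V Q : Subgroup S} (hV : ∀ v ∈ V, v * v = 1) (hQ : ∀ v ∈ Q, v * v = 1) :
    V.map f ⊓ Q.map f = (V ⊓ Q).map f := by
  refine le_antisymm ?_ (Subgroup.map_inf_le _ _ _)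
  rintro _ ⟨⟨v, hv, rfl⟩, e⟩
  exact ⟨v, ⟨hv, mem hk hQ (hV v hv) e⟩, rfl⟩

theorem join {V : Subgroup S} (hV : ∀ v ∈ V, v * v = 1)
    (h : ∀ g : S, ∃ y ∈ V, ∃ y' ∈ V, y ≠ 1 ∧ y' ≠ 1 ∧ y * (g * y' * g⁻¹) = g * y' * g⁻¹ * y) :
    ∀ g ∈ f.range, ∃ y ∈ V.map f, ∃ y' ∈ cj g (V.map f), y ≠ 1 ∧ y' ≠ 1 ∧ y * y' = y' * y := by
  rintro _ ⟨g, rfl⟩
  obtain ⟨y, hy, y', hy', n, n', c⟩ := h g
  have k : ∀ v ∈ V, v ≠ 1 → f v ≠ 1 := fun v hv n e => n (inj2 hk (hV v hv) (mul_one 1) (by rw [e, map_one]))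
  refine ⟨f y, ⟨y, hy, rfl⟩, _, conj_mem_cj.2 ⟨y', hy', rfl⟩, k y hy n,
    fun e => k y' hy' n' (conj_eq_one_iff.1 e), ?_⟩
  simpa only [map_mul, map_inv] using congrArg f c

end Lift

variable {F : Type*} [Field F]

/-- unitriangular matrices -/
def ut (a b c : F) : SpecialLinearGroup (Fin 3) F := ⟨!![1, a, c; 0, 1, b; 0, 0, 1], by simp [det_fin_three]⟩

/-- the underlying matrix -/
def mx (g : SpecialLinearGroup (Fin 3) F) : Matrix (Fin 3) (Fin 3) F := g.1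

theorem mx_mul (g k : SpecialLinearGroup (Fin 3) F) : mx (g * k) = mx g * mx k := rfl
theorem mx_one : mx (1 : SpecialLinearGroup (Fin 3) F) = 1 := rfl
theorem mx_ext {g k : SpecialLinearGroup (Fin 3) F} (e : mx g = mx k) : g = k := Subtype.ext e
theorem mx_ut (a b c : F) : mx (ut a b c) = !![1, a, c; 0, 1, b; 0, 0, 1] := rfl
theorem mx_tv (u w : Fin 3 → F) (h : w ⬝ᵥ u = 0) : mx (H30.tvSL u w h) = 1 + vecMulVec u w := rfl
theorem mx_inv (g : SpecialLinearGroup (Fin 3) F) : mx g * mx g⁻¹ = 1 := by rw [← mx_mul, mul_inv_cancel, mx_one]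
theorem mx_cj (g : SpecialLinearGroup (Fin 3) F) (u w : Fin 3 → F) :
    mx g * (1 + vecMulVec u w) * mx g⁻¹ = 1 + vecMulVec (mx g *ᵥ u) (w ᵥ* mx g⁻¹) :=
  H30.conj_one_add_vecMulVec g u w

theorem ut_mul (a b c a' b' c' : F) : ut a b c * ut a' b' c' = ut (a + a') (b + b') (c + c' + a * b') := by
  refine mx_ext ?_
  ext i j
  fin_cases i <;> fin_cases j <;> simp [mx_mul, mx_ut, mul_apply, Fin.sum_univ_three] <;> ring

theorem ut_one : ut (0 : F) 0 0 = 1 := mx_ext one_fin_three.symm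

theorem ut_inj {a b c a' b' c' : F} (e : ut a b c = ut a' b' c') : a = a' ∧ b = b' ∧ c = c' :=
  ⟨congrArg (fun g => mx g 0 1) e, congrArg (fun g => mx g 1 2) e, congrArg (fun g => mx g 0 2) e⟩

theorem ut_inv (a b c : F) : (ut a b c)⁻¹ = ut (-a) (-b) (a * b - c) :=
  inv_eq_of_mul_eq_one_right (by rw [ut_mul, ← ut_one]; congr 1 <;> ring)

variable (F) in
def V0 : Subgroup (SpecialLinearGroup (Fin 3) F) where
  carrier := {g | ∃ b c, g = ut 0 b c}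
  one_mem' := ⟨0, 0, ut_one.symm⟩
  mul_mem' := by rintro _ _ ⟨b, c, rfl⟩ ⟨b', c', rfl⟩; exact ⟨_, _, by rw [ut_mul, add_zero]⟩
  inv_mem' := by rintro _ ⟨b, c, rfl⟩; exact ⟨_, _, by rw [ut_inv, neg_zero]⟩

variable (F) in
def Q0 : Subgroup (SpecialLinearGroup (Fin 3) F) where
  carrier := {g | ∃ a c, g = ut a 0 c}
  one_mem' := ⟨0, 0, ut_one.symm⟩
  mul_mem' := by rintro _ _ ⟨b, c, rfl⟩ ⟨b', c', rfl⟩; exact ⟨_, _, by rw [ut_mul, add_zero]⟩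
  inv_mem' := by rintro _ ⟨b, c, rfl⟩; exact ⟨_, _, by rw [ut_inv, neg_zero]⟩

theorem memW {g : SpecialLinearGroup (Fin 3) F} : g ∈ V0 F ⊓ Q0 F ↔ ∃ c, g = ut 0 0 c :=
  ⟨by rintro ⟨⟨b, c, rfl⟩, a, c', e⟩; exact ⟨c, by rw [(ut_inj e).2.1]⟩,
    by rintro ⟨c, rfl⟩; exact ⟨⟨_, _, rfl⟩, _, _, rfl⟩⟩

theorem card_of {S X : Type*} [Group S] {V : Subgroup S} {u : X → S} (hu : Function.Injective u)
    (h : ∀ g, g ∈ V ↔ ∃ x, g = u x) : Nat.card V = Nat.card X :=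
  (Nat.card_congr (Equiv.ofBijective (fun x => (⟨u x, (h _).2 ⟨x, rfl⟩⟩ : V))
    ⟨fun _ _ e => hu (congrArg Subtype.val e), fun g => let ⟨x, e⟩ := (h _).1 g.2; ⟨x, Subtype.ext e.symm⟩⟩)).symm

theorem cardV : Nat.card (V0 F) = Nat.card F ^ 2 := by
  rw [card_of (u := fun x : F × F => ut 0 x.1 x.2) (fun _ _ e => Prod.ext_iff.2 (ut_inj e).2)
    fun _ => (Prod.exists (p := fun x : F × F => _ = ut 0 x.1 x.2)).symm, Nat.card_prod, sq]

theorem cardQ : Nat.card (Q0 F) = Nat.card F ^ 2 := by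
  rw [card_of (u := fun x : F × F => ut x.1 0 x.2) (fun _ _ e => Prod.ext (ut_inj e).1 (ut_inj e).2.2)
    fun _ => (Prod.exists (p := fun x : F × F => _ = ut x.1 0 x.2)).symm, Nat.card_prod, sq]

theorem sqV (h2 : ∀ x : F, x + x = 0) : ∀ v ∈ V0 F, v * v = 1 := by
  rintro _ ⟨b, c, rfl⟩
  rw [ut_mul, h2, h2, h2, zero_mul, add_zero, ut_one]

theorem sqQ (h2 : ∀ x : F, x + x = 0) : ∀ v ∈ Q0 F, v * v = 1 := by
  rintro _ ⟨b, c, rfl⟩
  rw [ut_mul, h2, h2, h2, mul_zero, add_zero, ut_one]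

open H30

theorem tv_ne {u w : Fin 3 → F} (h : w ⬝ᵥ u = 0) (hu : u ≠ 0) (hw : w ≠ 0) : tvSL u w h ≠ 1 := fun e => by
  have := congrArg mx e
  rw [mx_tv, mx_one, add_eq_left, vecMulVec_eq_zero] at this
  exact this.elim hu hw

theorem tv_cm {g : SpecialLinearGroup (Fin 3) F} {u w u' w' : Fin 3 → F} (h : w ⬝ᵥ u = 0)
    (e : mx g = 1 + vecMulVec u' w') (h1 : w ⬝ᵥ u' = 0) (h2 : w' ⬝ᵥ u = 0) :
    tvSL u w h * g = g * tvSL u w h := mx_ext (by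
  simp only [mx_mul, mx_tv, e, add_mul, mul_add, one_mul, mul_one,
    vecMulVec_mul_vecMulVec, h1, h2, zero_smul, vecMulVec_zero, add_zero]
  abel)

theorem tvV {u : Fin 3 → F} (h : Pi.single 2 1 ⬝ᵥ u = 0) : tvSL u _ h ∈ V0 F := by
  refine ⟨u 1, u 0, mx_ext ?_⟩
  rw [single_one_dotProduct] at h
  ext i j
  fin_cases i <;> fin_cases j <;> simp [mx_ut, mx_tv, vecMulVec_apply, h]

theorem tvQ {w : Fin 3 → F} (h : w ⬝ᵥ Pi.single 0 1 = 0) : tvSL _ w h ∈ Q0 F := by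
  refine ⟨w 1, w 2, mx_ext ?_⟩
  rw [dotProduct_single_one] at h
  ext i j
  fin_cases i <;> fin_cases j <;> simp [mx_ut, mx_tv, vecMulVec_apply, h]

theorem ker2 (a b : Fin 3 → F) : ∃ u : Fin 3 → F, u ≠ 0 ∧ a ⬝ᵥ u = 0 ∧ b ⬝ᵥ u = 0 := by
  obtain ⟨u, n, e⟩ := (exists_mulVec_eq_zero_iff (M := Matrix.of ![a, b, 0])).2
    (det_eq_zero_of_row_eq_zero 2 fun _ => rfl)
  exact ⟨u, n, congrFun e 0, congrFun e 1⟩

theorem e_ne (i : Fin 3) : (Pi.single i 1 : Fin 3 → F) ≠ 0 := fun e => by simpa using congrFun e i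

theorem joinV (g : SpecialLinearGroup (Fin 3) F) :
    ∃ y ∈ V0 F, ∃ y' ∈ V0 F, y ≠ 1 ∧ y' ≠ 1 ∧ y * (g * y' * g⁻¹) = g * y' * g⁻¹ * y := by
  obtain ⟨u, n, a, b⟩ := ker2 (Pi.single 2 1) (Pi.single 2 1 ᵥ* mx g⁻¹)
  have b' : Pi.single 2 1 ⬝ᵥ (mx g⁻¹ *ᵥ u) = 0 := by rw [dotProduct_mulVec, b]
  refine ⟨_, tvV a, _, tvV b', tv_ne a n (e_ne 2), tv_ne b' (SL_mulVec_ne_zero _ n) (e_ne 2),
    tv_cm a (mx_cj g _ _) ?_ b⟩
  rw [mulVec_mulVec, mx_inv, one_mulVec, a]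

theorem joinQ (g : SpecialLinearGroup (Fin 3) F) :
    ∃ y ∈ Q0 F, ∃ y' ∈ Q0 F, y ≠ 1 ∧ y' ≠ 1 ∧ y * (g * y' * g⁻¹) = g * y' * g⁻¹ * y := by
  obtain ⟨w, n, a, b⟩ := ker2 (Pi.single 0 1) (mx g *ᵥ Pi.single 0 1)
  rw [dotProduct_comm] at a b
  have b' : (w ᵥ* mx g) ⬝ᵥ Pi.single 0 1 = 0 := by rw [← dotProduct_mulVec, b]
  have k : (w ᵥ* mx g) ᵥ* mx g⁻¹ = w := by
    rw [vecMul_vecMul, mx_inv, vecMul_one]
  exact ⟨_, tvQ a, _, tvQ b', tv_ne a (e_ne 0) n, tv_ne b' (e_ne 0) fun e => n (by rw [← k, e, zero_vecMul]),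
    tv_cm a (mx_cj g _ _) b (by rw [k, a])⟩

theorem invc (h2 : ∀ x : F, x + x = 0) {s : SpecialLinearGroup (Fin 3) F} (hs : s * s = 1) :
    ∃ g, g * s * g⁻¹ ∈ V0 F ⊓ Q0 F := by
  obtain ⟨M, e⟩ : ∃ M, mx s = 1 + M := ⟨mx s - 1, by abel⟩
  have m : M * M = 0 := by
    have := congrArg mx hs
    rw [mx_mul, e, mx_one, add_mul, mul_add, mul_add, one_mul, one_mul,
      mul_one, add_assoc, add_eq_left, ← add_assoc, show M + M = 0 from ext fun i j => h2 _, zero_add] at this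
    exact this
  have r := rank_add_rank_le_card_of_mul_eq_zero m
  obtain ⟨u, w, rfl⟩ := exists_vecMulVec_of_rank_le_one (M := M) (by rw [Fintype.card_fin] at r; omega)
  by_cases h0 : vecMulVec u w = 0
  · exact ⟨1, by rw [show s = 1 from mx_ext (by rw [e, h0, add_zero]; rfl)]; simp⟩
  rw [vecMulVec_mul_vecMulVec, vecMulVec_eq_zero, smul_eq_zero] at m
  rw [vecMulVec_eq_zero, not_or] at h0
  obtain ⟨g, a, b⟩ := exists_SL_pair (by simp) h0.1 h0.2 (e_ne 0) (e_ne 2)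
    ((m.resolve_left h0.1).resolve_right h0.2) (by simp)
  refine ⟨g, memW.2 ⟨1, mx_ext ?_⟩⟩
  change mx g *ᵥ u = _ at a
  change _ ᵥ* mx g = _ at b
  rw [mx_mul, mx_mul, e, mx_cj, a, ← b, vecMul_vecMul, mx_inv, vecMul_one]
  ext i j
  fin_cases i <;> fin_cases j <;> simp [mx_ut, vecMulVec_apply]

theorem cent (h2 : ∀ x : F, x + x = 0) {c : F} (hc : c ≠ 0) {g : SpecialLinearGroup (Fin 3) F} (g2 : g * g = 1)
    (e : g * ut 0 0 c = ut 0 0 c * g) : g ∈ V0 F ∨ g ∈ Q0 F := by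
  have a := fun i j => congrArg (fun x => mx x i j) e
  have b := fun i j => congrArg (fun x => mx x i j) g2
  have a1 := a 1 2
  have a2 := a 2 2
  have a3 := a 0 1
  simp [mx_mul, mx_ut, mul_apply, Fin.sum_univ_three, hc] at a1 a2 a3
  have b0 := b 0 0
  have b1 := b 1 1
  have b2 := b 2 2
  have b3 := b 0 2
  simp [mx_mul, mx_one, mul_apply, Fin.sum_univ_three, a1, a2, a3] at b0 b1 b2 b3
  have k : ∀ x : F, x * x = 1 → x = 1 := fun x e =>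
    (mul_self_eq_one_iff.1 e).elim id fun e => e.trans (neg_eq_of_add_eq_zero_left (h2 1))
  replace b0 := k _ b0
  replace b1 := k _ b1
  replace b2 := k _ b2
  have : g = ut (mx g 0 1) (mx g 1 2) (mx g 0 2) := mx_ext (by
    ext i j
    fin_cases i <;> fin_cases j <;> simp [mx_ut, a1, a2, a3, b0, b1, b2])
  rcases mul_eq_zero.1 (show mx g 0 1 * mx g 1 2 = 0 by rw [b0, b2] at b3; linear_combination b3 - h2 (mx g 0 2))
    with e | e <;> rw [e] at this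
  exacts [Or.inl ⟨_, _, this⟩, Or.inr ⟨_, _, this⟩]

theorem typ (g : SpecialLinearGroup (Fin 3) F) (h : ∀ v ∈ V0 F, g * v * g⁻¹ ∈ Q0 F) : False := by
  obtain ⟨a, c, e⟩ := h _ ⟨0, 1, rfl⟩
  obtain ⟨a', c', e'⟩ := h _ ⟨1, 0, rfl⟩
  rw [mul_inv_eq_iff_eq_mul] at e e'
  have a1 := congrArg (fun x => mx x 1 2) e
  have a2 := congrArg (fun x => mx x 2 2) e
  have a3 := congrArg (fun x => mx x 1 2) e'
  have a4 := congrArg (fun x => mx x 2 2) e'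
  simp [mx_mul, mx_ut, mul_apply, Fin.sum_univ_three] at a1 a2 a3 a4
  have : (mx g).det = 1 := g.2
  rw [det_fin_three] at this
  simp [a1, a2, a3, a4] at this

end Psl

variable {G : Type*} [Group G] [Finite G]

open Psl in
theorem l0_of_psl (N : Subgroup G) {F : Type*} [Field F] [Fintype F] {n : ℕ} (hn : 1 ≤ n)
    (hF : Fintype.card F = 2 ^ n)
    (e : N ≃* Matrix.ProjectiveSpecialLinearGroup (Fin 3) F) : ∃ V Q, L0 (2 ^ n) N V Q := by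
  have h2 : ∀ x : F, x + x = 0 := fun x => by
    have := FiniteField.cast_card_eq_zero F
    rw [hF, Nat.cast_pow] at this
    rw [← two_mul, ← Nat.cast_two (R := F), pow_eq_zero_iff (by omega) |>.1 this, zero_mul]
  have hq : Nat.card F = 2 ^ n := by rw [Nat.card_eq_fintype_card, hF]
  let f : SpecialLinearGroup (Fin 3) F →* G :=
    N.subtype.comp (e.symm.toMonoidHom.comp (QuotientGroup.mk' (Subgroup.center _)))
  have hk : ∀ s, f s = 1 → s ∈ Subgroup.center _ ∧ s ^ 3 = 1 := fun s hs => by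
    have c : s ∈ Subgroup.center _ :=
      (QuotientGroup.eq_one_iff s).1 (e.symm.map_eq_one_iff.1 (Subtype.ext hs))
    obtain ⟨r, r3, a⟩ := Matrix.SpecialLinearGroup.mem_center_iff.1 c
    rw [Fintype.card_fin] at r3
    change _ = mx s at a
    exact ⟨c, mx_ext (by rw [pow_three', mx_mul, mx_mul, ← a, ← pow_three', ← map_pow, r3, map_one]; rfl)⟩
  have hN : f.range = N := by
    refine le_antisymm (by rintro _ ⟨s, rfl⟩; exact Subtype.property _) fun g hg => ?_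
    obtain ⟨s, a⟩ := QuotientGroup.mk_surjective (e ⟨g, hg⟩)
    exact ⟨s, congrArg Subtype.val (e.symm_apply_eq.2 a)⟩
  have sV := sqV h2
  have sQ := sqQ h2
  have rad : ∀ V : Subgroup (Matrix.SpecialLinearGroup (Fin 3) F), (∀ v ∈ V, v * v = 1) →
      Nat.card V = Nat.card F ^ 2 → Rad (2 ^ n) N (V.map f) := fun V a c =>
    ⟨hN ▸ Subgroup.map_le_range f V, by rintro _ ⟨v, hv, rfl⟩; rw [← map_mul, a v hv, map_one],
      by rw [card hk a, c, hq]⟩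
  refine ⟨(V0 F).map f, (Q0 F).map f, ⟨n, hn, rfl⟩, ?_, fun K hK k => ?_, rad _ sV cardV, rad _ sQ cardQ, ?_, ?_, ?_,
    fun z hz z2 => ?_, fun z hz z1 g hg g2 c => ?_, fun g hg c => ?_, hN ▸ join hk sV joinV, hN ▸ join hk sQ joinQ⟩
  · have := H10.card_PSL_fin (F := F) 3 (by omega)
    rw [← Nat.card_congr e.toEquiv, hq, Fin.prod_univ_three] at this
    have q2 : 1 < 2 ^ n := Nat.one_lt_two_pow (by omega)
    generalize 2 ^ n = q at *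
    refine Nat.eq_of_mul_eq_mul_left (Nat.sub_pos_of_lt q2) ?_
    have e1 : q ^ 3 - q ^ 1 = q * (q ^ 2 - 1) := by rw [Nat.mul_sub]; congr 1 <;> ring
    have e2 : q ^ 3 - q ^ 2 = q ^ 2 * (q - 1) := by rw [Nat.mul_sub]; congr 1 <;> ring
    simp only [Fin.val_zero, Fin.val_one, Fin.val_two, pow_zero, e1, e2] at this
    linear_combination this
  · have := H10.isSimpleGroup_PSL_of_three_le (ι := Fin 3) (F := F) (by simp)
    have := e.isSimpleGroup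
    exact (Subgroup.Normal.eq_bot_or_eq_top (H := K.subgroupOf N) ⟨fun x hx g => k g g.2 x hx⟩).imp
      (fun a => disjoint_self.1 ((Subgroup.subgroupOf_eq_bot.1 a).mono_right hK))
      fun a => le_antisymm hK (Subgroup.subgroupOf_eq_top.1 a)
  · rw [inf hk sV sQ, card hk (V := V0 F ⊓ Q0 F) fun v hv => sV v hv.1,
      card_of (u := fun c : F => ut 0 0 c) (fun _ _ e => (ut_inj e).2.2) fun _ => memW, hq]
  · rintro _ ⟨_, ⟨b, c, rfl⟩, rfl⟩ _ ⟨_, ⟨a, c', rfl⟩, rfl⟩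
    rw [inf hk sV sQ, ← map_inv, ← map_inv, ← map_mul, ← map_mul, ← map_mul, ut_inv, ut_inv, ut_mul, ut_mul, ut_mul]
    exact ⟨_, memW.2 ⟨_, by congr 1 <;> ring⟩, rfl⟩
  · rintro _ ⟨_, ⟨b, c, rfl⟩, rfl⟩ _ ⟨_, ⟨a, c', rfl⟩, rfl⟩ k
    have := cm hk (sV _ ⟨b, c, rfl⟩) k
    rw [ut_mul, ut_mul] at this
    rcases mul_eq_zero.1 (show a * b = 0 by linear_combination -(ut_inj this).2.2) with rfl | rfl
    exacts [Or.inr ⟨_, ⟨_, _, rfl⟩, rfl⟩, Or.inl ⟨_, ⟨_, _, rfl⟩, rfl⟩]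
  · obtain ⟨s, s2, rfl⟩ := lift hk (hN ▸ hz) z2
    obtain ⟨g, a⟩ := invc h2 s2
    exact ⟨f g, hN ▸ ⟨g, rfl⟩, inf hk sV sQ ▸ ⟨_, a, by simp⟩⟩
  · rw [inf hk sV sQ] at hz
    obtain ⟨_, hz, rfl⟩ := hz
    obtain ⟨t, rfl⟩ := memW.1 hz
    obtain ⟨s, s2, rfl⟩ := lift hk (hN ▸ hg) g2
    exact (cent h2 (fun a => z1 (by rw [a, ut_one, map_one])) s2 (cm hk s2 c)).imp (fun a => ⟨_, a, rfl⟩)
      fun a => ⟨_, a, rfl⟩
  · obtain ⟨s, rfl⟩ : g ∈ f.range := hN ▸ hg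
    refine typ s fun v hv => mem hk sQ (by rw [conj_mul, sV v hv]; simp) ?_
    rw [← c, map_mul, map_mul, map_inv]
    exact conj_mem_cj.2 ⟨v, hv, rfl⟩

end H45.HL
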