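import Cfsg.Agent.Lib.HL3.P1a

namespace H45.HL

variable {G : Type*} [Group G] [Finite G]

namespace Semi

open P1

variable {Ω : Type*} [MulAction G Ω] {q m : ℕ} {N : Ω → Subgroup G} {φ : Ω → Ω → Subgroup G}

/-- the common centraliser of `N x` and `N y` -/
def D (N : Ω → Subgroup G) (x y : Ω) : Subgroup G where
  carrier := {c | Cz c (N x) ∧ Cz c (N y)}
  one_mem' := ⟨fun _ _ => by simp, fun _ _ => by simp⟩
  mul_mem' ha hb := ⟨ha.1.mul hb.1, ha.2.mul hb.2⟩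
  inv_mem' h := ⟨h.1.inv, h.2.inv⟩

variable (h : CQ q N φ m)
include h

theorem line {x y : Ω} (xy : x ≠ y) {V : Subgroup G} (f : Flag q (N x) V (φ x y)) : V ≤ N y :=
  fun v hv => h.p2 y x v (f.l.le hv) (f.l.sq v hv) (ly h.toCP xy f v hv)

theorem zs {x y : Ω} {c : G} (hc : Cz c (N x)) (e : c • y = y) : Cz c (N y) := by
  by_cases xy : x = y
  · exact xy ▸ hc
  have yx := Ne.symm xy
  obtain ⟨s, hs, c'⟩ := (h.pl y).autV (h.rad yx) c (cjN h.toCP e) (hc.mono (h.sym xy ▸ (h.rad xy).le))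
  have : s = 1 := nz (h.pl y) (h.rad yx) hs fun V f v hv => by
    have := (hc.mono (line h yx f)).mul (c'.mono f.l.le).inv v hv
    simpa using this.symm
  simpa [this] using c'

theorem cjD {x y : Ω} (g : G) {c : G} (hc : c ∈ D N x y) : g * c * g⁻¹ ∈ D N (g • x) (g • y) :=
  ⟨h.conj g x ▸ hc.1.conj g, h.conj g y ▸ hc.2.conj g⟩

theorem eqD {x y x' y' : Ω} (e : x ≠ y) (e' : x' ≠ y') (l : D N x y ≤ D N x' y') :
    D N x y = D N x' y' := by
  obtain ⟨g, rfl, rfl⟩ := h.two x' y' x y e' e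
  refine Subgroup.eq_of_le_of_card_ge l ((card_cj g _).ge.trans (Subgroup.card_le_of_le ?_))
  rintro _ ⟨c, hc, rfl⟩
  exact cjD h g hc

end Semi

open P1 Semi in
theorem CQ.semi {Ω : Type*} [MulAction G Ω] [Finite Ω] {q m : ℕ} {N : Ω → Subgroup G}
    {φ : Ω → Ω → Subgroup G} (h : CQ q N φ m) : Semi N := by
  intro a b ab c hc cb
  refine h.faith c fun y => by_contra fun cy => ?_
  have c2 := zs h hc cb
  have hb : b ≠ y := fun e => cy (e ▸ cb)
  have k0 : D N b y ≠ D N a b := fun e => cy (cfix h.toCP (e.ge ⟨hc, c2⟩).2)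
  have ha : ∀ p ∈ FS (D N b y), a ≠ p := fun p hp e => k0 (eqD h hb ab fun d hd =>
    ⟨zs h hd.1 (e ▸ hp d hd), hd.1⟩)
  have K : ∀ p ∈ FS (D N b y), ∀ g ∈ N p, cj g (D N b y) = D N b y := fun p hp g hg =>
    cj_eq_of_conj_mem fun d hd => by rwa [← zs h hd.1 (hp d hd) g hg, mul_inv_cancel_right]
  have kQ : ∀ p ∈ FS (D N b y), φ a p ≤ N a ⊓ nr (D N b y) := fun p hp g hg =>
    ⟨(h.rad (ha p hp)).le hg, K p hp g ((h.rad (ha p hp).symm).le (h.sym (ha p hp) ▸ hg))⟩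
  have bF : b ∈ FS (D N b y) := fun d hd => cfix h.toCP hd.1
  have kV : ∀ V, Flag q (N a) (φ a b) V → V ≤ N a ⊓ nr (D N b y) := fun V f g hg =>
    ⟨f.r.le hg, K b bF g (line h ab f.symm hg)⟩
  have p := h.pl a
  by_cases e : N a ⊓ nr (D N b y) = N a
  · obtain ⟨g, hg, e1⟩ := h.moves a b ab
    refine k0 ((eqD h hb e1.symm fun d hd => ⟨hd.1, ?_⟩).trans (eqD h ab e1.symm fun d hd =>
      ⟨hd.2, ?_⟩).symm)
    · simpa [mul_assoc] using (cjD h g (inv_conj_mem_of_cj (e.ge hg).2 hd)).1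
    · have := (cjD h g hd).2
      rwa [← hd.1 g hg, mul_inv_cancel_right] at this
  obtain ⟨V, f, -⟩ := p.third (h.rad ab) ⊥ ⊥
  rcases p.ovr f.symm _ (sup_le (kV V f) (kQ b bF)) inf_le_left e with e1 | e1
  · obtain ⟨V', f', e2, -⟩ := p.third (h.rad ab) V V
    obtain ⟨g, hg, e3⟩ := p.same f f'
    exact e2 (p.nn f.r g hg e3 fun v hv => e1 v (kV V' f' hv))
  let M : Subgroup G :=
    { carrier := {k | k ∈ N b ∧ ∀ p ∈ (FS (D N b y) : Set Ω), k • p = p}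
      one_mem' := ⟨one_mem _, fun _ _ => one_smul _ _⟩
      mul_mem' := fun h1 h2 => ⟨mul_mem h1.1 h2.1, fun p hp => by rw [mul_smul, h2.2 p hp, h1.2 p hp]⟩
      inv_mem' := fun h1 => ⟨inv_mem h1.1, fun p hp => inv_smul_eq_iff.2 (h1.2 p hp).symm⟩ }
  rcases (h.pl b).simple M (fun _ hk => hk.1) (fun g hg k hk => ⟨mul_mem (mul_mem hg hk.1) (inv_mem hg),
    fun r hr => by
      rw [mul_smul, mul_smul, hk.2 _ fun d hd => by
        rw [smul_smul, hd.1 _ (inv_mem hg), mul_smul, hr d hd], smul_inv_smul]⟩) with e2 | e2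
  · obtain ⟨z, z1, -, z2⟩ := f.meet
    refine z2 (Subgroup.mem_bot.1 (e2.le ⟨(h.rad ab.symm).le (h.sym ab ▸ z1), fun r hr => ?_⟩))
    obtain ⟨g, hg, e3⟩ := h.typ ab (ha r hr)
    exact fy h.toCP (ha r hr) z (p.nn (h.rad ab) g hg e3 (fun v hv => e1 v (kQ r hr hv)) ▸ z1)
  · obtain ⟨g, hg, e3⟩ := h.moves b y hb
    exact e3 ((e2.ge hg).2 y fun d hd => cfix h.toCP hd.2)

end H45.HL
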